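import Cfsg.Agent.Lib.PGV.Data
import Cfsg.Agent.S0199

/-!
# The P(G,V) theorem: an involution acting nontrivially on a quasisimple group inverts a
non-central element of odd order
-/

set_option autoImplicit false
set_option linter.unusedSectionVars false
set_option linter.unusedSimpArgs false
set_option linter.style.haveILetI false

open scoped commutatorElement

namespace Cfsg.Agent.Lib.PGV.BS

open Cfsg.Agent.Lib.PGV.Basic Cfsg.Agent.Lib.PGV.Data
open Cfsg.Agent.Lib.Components.Basic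

universe u

variable {G : Type u} [Group G]

/-- Two involutions whose product has `2`-power order generate a `2`-group. -/
theorem isPGroup_two_involutions {Γ : Type*} [Group Γ] {u v : Γ} (hu : u * u = 1) (hv : v * v = 1)
    {k : ℕ} (ht : (u * v) ^ (2 ^ k) = 1) :
    IsPGroup 2 ↥(Subgroup.zpowers u ⊔ Subgroup.zpowers v) := by
  set t := u * v with ht'
  have huinv : u⁻¹ = u := inv_eq_of_mul_eq_one_left hu
  have hvinv : v⁻¹ = v := inv_eq_of_mul_eq_one_left hv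
  have hut : u * t * u⁻¹ = t⁻¹ := by
    rw [ht', huinv, mul_inv_rev, huinv, hvinv]
    calc u * (u * v) * u = (u * u) * v * u := by group
      _ = v * u := by rw [hu, one_mul]
  have hutz : ∀ i : ℤ, u * t ^ i * u⁻¹ = t ^ (-i) := by
    intro i
    rw [← conj_zpow, hut, zpow_neg, inv_zpow]
  let S : Subgroup Γ :=
    { carrier := {g | (∃ i : ℤ, g = t ^ i) ∨ ∃ i : ℤ, g = u * t ^ i}
      mul_mem' := by
        rintro _ _ (⟨i, rfl⟩ | ⟨i, rfl⟩) (⟨j, rfl⟩ | ⟨j, rfl⟩)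
        · exact Or.inl ⟨i + j, (zpow_add t i j).symm⟩
        · refine Or.inr ⟨-i + j, ?_⟩
          rw [zpow_add, ← hutz i, huinv]
          calc t ^ i * (u * t ^ j) = (u * u) * t ^ i * (u * t ^ j) := by rw [hu, one_mul]
            _ = _ := by group
        · refine Or.inr ⟨i + j, ?_⟩
          rw [zpow_add]; group
        · refine Or.inl ⟨-i + j, ?_⟩
          rw [zpow_add, ← hutz i, huinv]
          group
      one_mem' := Or.inl ⟨0, by simp⟩
      inv_mem' := by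
        rintro _ (⟨i, rfl⟩ | ⟨i, rfl⟩)
        · exact Or.inl ⟨-i, (zpow_neg t i).symm⟩
        · refine Or.inr ⟨i, ?_⟩
          have e := hutz (-i)
          rw [neg_neg] at e
          rw [mul_inv_rev, ← zpow_neg]
          calc t ^ (-i) * u⁻¹ = u⁻¹ * (u * t ^ (-i) * u⁻¹) := by group
            _ = u⁻¹ * t ^ i := by rw [e]
            _ = u * t ^ i := by rw [huinv] }
  have hle : Subgroup.zpowers u ⊔ Subgroup.zpowers v ≤ S := by
    refine sup_le ?_ ?_
    · rw [Subgroup.zpowers_le]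
      exact Or.inr ⟨0, by simp⟩
    · rw [Subgroup.zpowers_le]
      refine Or.inr ⟨1, ?_⟩
      rw [zpow_one, ht', ← mul_assoc, hu, one_mul]
  rw [isPGroup_iff_pow_pow_eq_one]
  rintro ⟨g, hg⟩
  refine ⟨k + 1, ?_⟩
  apply Subtype.ext
  show g ^ (2 ^ (k + 1)) = 1
  rcases hle hg with ⟨i, rfl⟩ | ⟨i, rfl⟩
  · rw [pow_succ, pow_mul, ← zpow_natCast (t ^ i), ← zpow_mul, mul_comm, zpow_mul, zpow_natCast, ht]
    simp
  · have h2 : (u * t ^ i) * (u * t ^ i) = 1 := by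
      have e := hutz i
      rw [huinv] at e
      calc (u * t ^ i) * (u * t ^ i) = (u * t ^ i * u) * t ^ i := by group
        _ = 1 := by rw [e]; group
    rw [pow_succ, mul_comm, pow_mul, pow_two, h2, one_pow]

/-- Membership in `D ⟨x⟩` for `x` normalizing `D`. -/
theorem mem_sup_zpowers_of_normalizes {D : Subgroup G} {x y : G} (hc : x ∈ Nm D)
    (hy : y ∈ D ⊔ Subgroup.zpowers x) : ∃ u ∈ D, ∃ i : ℤ, y = u * x ^ i := by
  have hcz : ∀ i : ℤ, x ^ i ∈ Nm D := fun i => (Nm D).zpow_mem hc i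
  let S : Subgroup G :=
    { carrier := {y | ∃ u ∈ D, ∃ i : ℤ, y = u * x ^ i}
      mul_mem' := by
        rintro _ _ ⟨u, hu, i, rfl⟩ ⟨v, hv, j, rfl⟩
        refine ⟨u * (x ^ i * v * (x ^ i)⁻¹), D.mul_mem hu ((mem_Nm_iff.mp (hcz i)).1 v hv), i + j, ?_⟩
        rw [zpow_add]; group
      one_mem' := ⟨1, D.one_mem, 0, by simp⟩
      inv_mem' := by
        rintro _ ⟨u, hu, i, rfl⟩
        refine ⟨x ^ (-i) * u⁻¹ * (x ^ (-i))⁻¹, (mem_Nm_iff.mp (hcz (-i))).1 _ (D.inv_mem hu), -i, ?_⟩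
        group }
  have hle : D ⊔ Subgroup.zpowers x ≤ S := by
    refine sup_le ?_ ?_
    · intro u hu
      exact ⟨u, hu, 0, by simp⟩
    · rw [Subgroup.zpowers_le]
      exact ⟨1, D.one_mem, 1, by simp⟩
  exact hle hy

/-- An involution acting nontrivially on a quasisimple group inverts a non-central element of odd
order. -/
theorem exists_inverted [Finite G] {K : Subgroup G} (hK : IsQuasisimple K) {b : G} (hbN : b ∈ Nm K)
    (hb2 : b * b = 1) (hbc : ¬ ∀ y ∈ K, b * y = y * b) :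
    ∃ z ∈ K, (¬ ∀ y ∈ K, z * y = y * z) ∧ (∃ n : ℕ, n.Coprime 2 ∧ z ^ n = 1) ∧ b * z * b⁻¹ = z⁻¹ := by
  have hperf := commutator_self_of_quasisimple hK
  have hbinv : b⁻¹ = b := inv_eq_of_mul_eq_one_left hb2
  -- the commutators
  have hemem : ∀ g ∈ K, b * g * b⁻¹ * g⁻¹ ∈ K := fun g hg =>
    K.mul_mem ((mem_Nm_iff.mp hbN).1 g hg) (K.inv_mem hg)
  suffices hex : ∃ g ∈ K, ∀ k : ℕ, ¬ ∀ y ∈ K, (b * g * b⁻¹ * g⁻¹) ^ (2 ^ k) * y =
      y * (b * g * b⁻¹ * g⁻¹) ^ (2 ^ k) by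
    obtain ⟨g, hg, hgk⟩ := hex
    set e := b * g * b⁻¹ * g⁻¹ with he
    have hord : orderOf e ≠ 0 := (orderOf_pos e).ne'
    obtain ⟨k, m, hm, hkm⟩ := Nat.exists_eq_pow_mul_and_not_dvd hord 2 (by norm_num)
    refine ⟨e ^ (2 ^ k), K.pow_mem (hemem g hg) _, hgk k, ⟨m, ?_, ?_⟩, ?_⟩
    · exact ((Nat.Prime.coprime_iff_not_dvd Nat.prime_two).mpr hm).symm
    · rw [← pow_mul, ← hkm, pow_orderOf_eq_one]
    · have h1 : b * e * b⁻¹ = e⁻¹ := by
        rw [he, hbinv]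
        calc b * (b * g * b * g⁻¹) * b = (b * b) * g * b * g⁻¹ * b := by group
          _ = g * b * g⁻¹ * b := by rw [hb2, one_mul]
          _ = (b * g * b * g⁻¹)⁻¹ := by
            simp only [mul_inv_rev, inv_inv, hbinv]; group
      rw [← conj_pow, h1, inv_pow]
  by_contra hcon
  push Not at hcon
  -- the overgroup and its quotient
  set N := K ⊔ Subgroup.zpowers b with hN
  have hKN : K ≤ N := le_sup_left
  have hbm : b ∈ N := Subgroup.mem_sup_right (Subgroup.mem_zpowers b)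
  have hNnorm : N ≤ Nm K := sup_le Subgroup.le_normalizer (by rwa [Subgroup.zpowers_le])
  let Z : Subgroup N :=
    { carrier := {x | (x : G) ∈ K ∧ ∀ y ∈ K, (x : G) * y = y * x}
      mul_mem' := by
        rintro x y ⟨hx, hx'⟩ ⟨hy, hy'⟩
        refine ⟨K.mul_mem hx hy, fun u hu => ?_⟩
        show (x : G) * y * u = u * (x * y)
        rw [mul_assoc, hy' u hu, ← mul_assoc, hx' u hu, mul_assoc]
      one_mem' := ⟨K.one_mem, fun y _ => by simp⟩
      inv_mem' := by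
        rintro x ⟨hx, hx'⟩
        refine ⟨K.inv_mem hx, fun u hu => ?_⟩
        have : Commute (x : G) u := hx' u hu
        exact this.inv_left.eq }
  haveI hZn : Z.Normal := ⟨by
    rintro x ⟨hx, hx'⟩ n
    have hn := hNnorm n.2
    refine ⟨?_, fun y hy => ?_⟩
    · exact (mem_Nm_iff.mp hn).1 x hx
    · show (n : G) * x * (n : G)⁻¹ * y = y * ((n : G) * x * (n : G)⁻¹)
      have h1 := hx' _ ((mem_Nm_iff.mp hn).2 y hy)
      calc (n : G) * x * (n : G)⁻¹ * y
          = (n : G) * ((x : G) * ((n : G)⁻¹ * y * n)) * (n : G)⁻¹ := by group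
        _ = (n : G) * (((n : G)⁻¹ * y * n) * x) * (n : G)⁻¹ := by rw [h1]
        _ = _ := by group⟩
  let π : N →* N ⧸ Z := QuotientGroup.mk' Z
  let ι : K → N := fun x => ⟨x, hKN x.2⟩
  let b' : N := ⟨b, hbm⟩
  have hb'2 : b' * b' = 1 := Subtype.ext hb2
  have hπb : π b' * π b' = 1 := by rw [← map_mul, hb'2, map_one]
  have hπker : ∀ x : N, π x = 1 ↔ ((x : G) ∈ K ∧ ∀ y ∈ K, (x : G) * y = y * x) := by
    intro x
    show (QuotientGroup.mk x : N ⧸ Z) = 1 ↔ _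
    rw [QuotientGroup.eq_one_iff]
    exact Iff.rfl
  haveI : Fact (Nat.Prime 2) := ⟨Nat.prime_two⟩
  set X := Subgroup.zpowers (π b') with hX
  have hXp : IsPGroup 2 X := by
    rw [isPGroup_iff_pow_pow_eq_one]
    rintro ⟨g, hg⟩
    obtain ⟨i, rfl⟩ := Subgroup.mem_zpowers_iff.mp hg
    refine ⟨1, ?_⟩
    apply Subtype.ext
    show ((π b') ^ i) ^ 2 ^ 1 = 1
    rw [pow_one, ← zpow_natCast, ← zpow_mul, mul_comm, zpow_mul, zpow_natCast,
      pow_two, hπb, one_zpow]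
  have hconj : ∀ γ : N ⧸ Z, IsPGroup 2 ↥(X ⊔ X.map (MulAut.conj γ).toMonoidHom) := by
    intro γ
    obtain ⟨n, rfl⟩ := QuotientGroup.mk'_surjective Z γ
    obtain ⟨g, hg, i, hgi⟩ := mem_sup_zpowers_of_normalizes
      (show b ∈ Nm K from hNnorm hbm) n.2
    have hnb : (n : G) * b * (n : G)⁻¹ = g * b * g⁻¹ := by
      rw [hgi]
      have hcbi : Commute (b ^ i) b := (Commute.refl b).zpow_left i
      calc g * b ^ i * b * (g * b ^ i)⁻¹ = g * (b ^ i * b) * (b ^ i)⁻¹ * g⁻¹ := by group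
        _ = g * (b * b ^ i) * (b ^ i)⁻¹ * g⁻¹ := by rw [hcbi.eq]
        _ = _ := by group
    have hmapX : X.map (MulAut.conj (QuotientGroup.mk' Z n)).toMonoidHom =
        Subgroup.zpowers (π (n * b' * n⁻¹)) := by
      rw [hX, MonoidHom.map_zpowers]
      congr 1
    rw [hmapX]
    obtain ⟨k, hk⟩ := hcon g hg
    have hinv2 : (π (n * b' * n⁻¹)) * (π (n * b' * n⁻¹)) = 1 := by
      rw [← map_mul]
      have : n * b' * n⁻¹ * (n * b' * n⁻¹) = 1 := by
        calc n * b' * n⁻¹ * (n * b' * n⁻¹) = n * (b' * b') * n⁻¹ := by group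
          _ = 1 := by rw [hb'2]; group
      rw [this, map_one]
    refine isPGroup_two_involutions hπb hinv2 (k := k) ?_
    rw [← map_mul, ← map_pow, hπker]
    have e : ((b' * (n * b' * n⁻¹) : N) : G) = b * g * b⁻¹ * g⁻¹ := by
      show b * ((n : G) * b * (n : G)⁻¹) = _
      rw [hnb, hbinv]
      group
    have e2 : (((b' * (n * b' * n⁻¹)) ^ (2 ^ k) : N) : G) = (b * g * b⁻¹ * g⁻¹) ^ (2 ^ k) := by
      rw [Subgroup.coe_pow, e]
    rw [e2]
    exact ⟨K.pow_mem (hemem g hg) _, hk⟩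
  obtain ⟨O, hOn, hOp, hXO⟩ := Cfsg.Agent.S0199.result X hXp hconj
  have hbO : π b' ∈ O := hXO (Subgroup.mem_zpowers _)
  -- the dichotomy
  have hd := qs_dichotomy hK (fun x => ∀ hx : x ∈ N, π ⟨x, hx⟩ ∈ O)
    (by
      intro _
      have : (⟨1, N.one_mem⟩ : N) = 1 := rfl
      rw [this, map_one]
      exact O.one_mem)
    (by
      intro x hx y hy h1 h2 hxy
      have e : (⟨x * y, hxy⟩ : N) = ⟨x, hKN hx⟩ * ⟨y, hKN hy⟩ := rfl
      rw [e, map_mul]
      exact O.mul_mem (h1 _) (h2 _))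
    (by
      intro x hx h1 hxi
      have e : (⟨x⁻¹, hxi⟩ : N) = (⟨x, hKN hx⟩ : N)⁻¹ := rfl
      rw [e, map_inv]
      exact O.inv_mem (h1 _))
    (by
      intro u hu x hx h1 hc
      have e : (⟨u * x * u⁻¹, hc⟩ : N) = ⟨u, hKN hu⟩ * ⟨x, hKN hx⟩ * (⟨u, hKN hu⟩ : N)⁻¹ := rfl
      rw [e, map_mul, map_mul, map_inv]
      exact hOn.conj_mem _ (h1 _) _)
  rcases hd with hall | hcen
  · -- `K / Z(K)` is a `2`-group
    obtain ⟨z, hz, hzc, n, hn, hzn⟩ := exists_noncentral_coprime 2 hK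
    apply hzc
    have h1 := hall z hz (hKN hz)
    have hzO : IsPGroup 2 O := hOp
    obtain ⟨k, hk⟩ := (isPGroup_iff_pow_pow_eq_one.mp hzO) ⟨_, h1⟩
    have hk' : (π ⟨z, hKN hz⟩) ^ (2 ^ k) = 1 := congrArg Subtype.val hk
    have hn' : (π ⟨z, hKN hz⟩) ^ n = 1 := by
      rw [← map_pow]
      have : ((⟨z, hKN hz⟩ : N)) ^ n = 1 := Subtype.ext hzn
      rw [this, map_one]
    have hcop : Nat.Coprime (2 ^ k) n := Nat.Coprime.pow_left k hn.symm
    have h2 : π ⟨z, hKN hz⟩ = 1 := by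
      have h3 : orderOf (π ⟨z, hKN hz⟩) ∣ 1 := by
        have := Nat.dvd_gcd (orderOf_dvd_of_pow_eq_one hk') (orderOf_dvd_of_pow_eq_one hn')
        rwa [hcop] at this
      exact orderOf_eq_one_iff.mp (Nat.dvd_one.mp h3)
    exact ((hπker _).mp h2).2
  · -- the commutators are central, so `b` centralizes `K`
    have hece : ∀ g ∈ K, ∀ y ∈ K, (b * g * b⁻¹ * g⁻¹) * y = y * (b * g * b⁻¹ * g⁻¹) := by
      intro g hg
      refine hcen _ (hemem g hg) ?_
      intro hx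
      have e : (⟨b * g * b⁻¹ * g⁻¹, hx⟩ : N) =
          b' * (⟨g, hKN hg⟩ * b'⁻¹ * (⟨g, hKN hg⟩ : N)⁻¹) := by
        apply Subtype.ext
        show b * g * b⁻¹ * g⁻¹ = b * (g * b⁻¹ * g⁻¹)
        group
      rw [e, map_mul, map_mul, map_mul, map_inv, map_inv]
      exact O.mul_mem hbO (hOn.conj_mem _ (O.inv_mem hbO) _)
    have hφ := perfect_hom_trivial hperf (fun g => b * g * b⁻¹ * g⁻¹)
      (by
        intro x hx y hy
        show b * (x * y) * b⁻¹ * (x * y)⁻¹ = b * x * b⁻¹ * x⁻¹ * (b * y * b⁻¹ * y⁻¹)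
        have h1 := hece y hy x⁻¹ (K.inv_mem hx)
        calc b * (x * y) * b⁻¹ * (x * y)⁻¹
            = b * x * b⁻¹ * ((b * y * b⁻¹ * y⁻¹) * x⁻¹) := by group
          _ = b * x * b⁻¹ * (x⁻¹ * (b * y * b⁻¹ * y⁻¹)) := by rw [h1]
          _ = _ := by group)
      (by
        intro x hx y hy
        exact hece x hx _ (hemem y hy))
    apply hbc
    intro y hy
    have h1 : b * y * b⁻¹ * y⁻¹ = 1 := hφ y hy
    have h2 : b * y * b⁻¹ = y := mul_inv_eq_one.mp h1
    exact mul_inv_eq_iff_eq_mul.mp h2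

end Cfsg.Agent.Lib.PGV.BS
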