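import Cfsg.Agent.Lib.Components.Basic
import Cfsg.Agent.Lib.QuadAct.FFBasic

/-!
# The P(G,V) theorem: basic tools

We fix a representation `ρ` of a finite group `G` on a finite `𝔽_p`-module `V` and work with
subspaces `W` of `V`.
-/

set_option autoImplicit false
set_option linter.unusedSectionVars false
set_option linter.unusedSimpArgs false
set_option linter.style.haveILetI false

open scoped commutatorElement

namespace Cfsg.Agent.Lib.PGV.Basic

open Cfsg.Agent.Lib.QuadAct.FFBasic Cfsg.Agent.Lib.Components.Basic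

universe u v

variable {G : Type u} [Group G] {p : ℕ} {V : Type v} [AddCommGroup V] [Module (ZMod p) V]
  (ρ : G →* Module.End (ZMod p) V)

theorem act_mul (x y : G) (w : V) : ρ (x * y) w = ρ x (ρ y w) := by
  rw [map_mul]; rfl

@[simp] theorem act_one (w : V) : ρ 1 w = w := by
  rw [map_one]; rfl

@[simp] theorem act_inv_act (x : G) (w : V) : ρ x⁻¹ (ρ x w) = w := by
  rw [← act_mul, inv_mul_cancel, act_one]

@[simp] theorem act_act_inv (x : G) (w : V) : ρ x (ρ x⁻¹ w) = w := by
  rw [← act_mul, mul_inv_cancel, act_one]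

theorem act_conj (c y : G) (w : V) : ρ (c * y * c⁻¹) w = ρ c (ρ y (ρ c⁻¹ w)) := by
  rw [act_mul, act_mul]

theorem act_comm {x y : G} (h : x * y = y * x) (w : V) : ρ x (ρ y w) = ρ y (ρ x w) := by
  rw [← act_mul, h, act_mul]

/-! ### Perfect groups -/

/-- A map from a perfect subgroup to a group, multiplicative on the subgroup with commuting
values, is trivial. -/
theorem perfect_hom_trivial {H : Type*} [Group H] {K : Subgroup G} (hK : ⁅K, K⁆ = K) (φ : G → H)
    (hmul : ∀ x ∈ K, ∀ y ∈ K, φ (x * y) = φ x * φ y)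
    (hcomm : ∀ x ∈ K, ∀ y ∈ K, φ x * φ y = φ y * φ x) : ∀ x ∈ K, φ x = 1 := by
  have h1 : φ 1 = 1 := by
    have := hmul 1 K.one_mem 1 K.one_mem
    rw [mul_one] at this
    exact mul_eq_left.mp this.symm
  have hinv : ∀ x ∈ K, φ x⁻¹ = (φ x)⁻¹ := by
    intro x hx
    have := hmul x hx x⁻¹ (K.inv_mem hx)
    rw [mul_inv_cancel, h1] at this
    exact (inv_eq_of_mul_eq_one_right this.symm).symm
  let S : Subgroup G :=
    { carrier := {x | x ∈ K ∧ φ x = 1}
      mul_mem' := by
        rintro x y ⟨hx, hx'⟩ ⟨hy, hy'⟩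
        exact ⟨K.mul_mem hx hy, by rw [hmul x hx y hy, hx', hy', one_mul]⟩
      one_mem' := ⟨K.one_mem, h1⟩
      inv_mem' := by
        rintro x ⟨hx, hx'⟩
        exact ⟨K.inv_mem hx, by rw [hinv x hx, hx', inv_one]⟩ }
  have hle : ⁅K, K⁆ ≤ S := by
    rw [Subgroup.commutator_le]
    intro x hx y hy
    refine ⟨hK ▸ Subgroup.commutator_mem_commutator hx hy, ?_⟩
    rw [commutatorElement_def]
    have hxi := K.inv_mem hx
    have hyi := K.inv_mem hy
    rw [hmul _ (K.mul_mem (K.mul_mem hx hy) hxi) _ hyi, hmul _ (K.mul_mem hx hy) _ hxi,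
      hmul _ hx _ hy, hinv x hx, hinv y hy]
    rw [hcomm x hx y hy]
    group
  intro x hx
  rw [hK] at hle
  exact (hle hx).2

/-- Predicate form of the normal subgroup dichotomy in a quasisimple group. -/
theorem qs_dichotomy {K : Subgroup G} (hK : IsQuasisimple K) (P : G → Prop) (h1 : P 1)
    (hmul : ∀ x ∈ K, ∀ y ∈ K, P x → P y → P (x * y))
    (hinv : ∀ x ∈ K, P x → P x⁻¹)
    (hconj : ∀ u ∈ K, ∀ x ∈ K, P x → P (u * x * u⁻¹)) :
    (∀ x ∈ K, P x) ∨ (∀ x ∈ K, P x → ∀ y ∈ K, x * y = y * x) := by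
  let N : Subgroup K :=
    { carrier := {x | P (x : G)}
      mul_mem' := fun {x y} hx hy => hmul x x.2 y y.2 hx hy
      one_mem' := h1
      inv_mem' := fun {x} hx => hinv x x.2 hx }
  haveI hN : N.Normal := ⟨fun x hx u => hconj u u.2 x x.2 hx⟩
  rcases normal_eq_top_or_le_center hK N with h | h
  · left
    intro x hx
    have : (⟨x, hx⟩ : K) ∈ N := h ▸ Subgroup.mem_top _
    exact this
  · right
    intro x hx hPx y hy
    have h2 := h (show (⟨x, hx⟩ : K) ∈ N from hPx)
    rw [Subgroup.mem_center_iff] at h2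
    have := h2 ⟨y, hy⟩
    exact (congrArg Subtype.val this).symm

/-- `K` acting nontrivially on the `K`-invariant `X`: an element of `K` central in the image is
central in `K`. -/
theorem central_of_act {K : Subgroup G} (hK : IsQuasisimple K) {X : Submodule (ZMod p) V}
    (hX : ∀ y ∈ K, ∀ x ∈ X, ρ y x ∈ X) (hntr : ∃ y ∈ K, ∃ x ∈ X, ρ y x ≠ x) {z : G} (hz : z ∈ K)
    (h : ∀ y ∈ K, ∀ x ∈ X, ρ z (ρ y x) = ρ y (ρ z x)) : ∀ y ∈ K, z * y = y * z := by
  have hperf := commutator_self_of_quasisimple hK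
  -- elements acting trivially
  have hdich := qs_dichotomy hK (fun d => ∀ x ∈ X, ρ d x = x) (by simp)
    (by
      intro u _ v _ hu hv x hx
      rw [act_mul, hv x hx, hu x hx])
    (by
      intro u hu hu' x hx
      have := hu' _ (hX _ (K.inv_mem hu) x hx)
      rw [act_act_inv] at this
      exact this.symm)
    (by
      intro u hu d _ hd x hx
      rw [act_conj, hd _ (hX _ (K.inv_mem hu) x hx), act_act_inv])
  have hcentral := hdich.resolve_left (by
    rintro hall
    obtain ⟨y, hy, x, hx, hne⟩ := hntr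
    exact hne (hall y hy x hx))
  -- commutators of `z` act trivially
  have hcm : ∀ y ∈ K, ∀ u ∈ K, ⁅z, y⁆ * u = u * ⁅z, y⁆ := by
    intro y hy u hu
    have hm : ⁅z, y⁆ ∈ K := by
      rw [commutatorElement_def]
      exact K.mul_mem (K.mul_mem (K.mul_mem hz hy) (K.inv_mem hz)) (K.inv_mem hy)
    refine hcentral _ hm ?_ u hu
    intro x hx
    rw [commutatorElement_def, act_mul, act_mul, act_mul]
    have hx1 : ρ y⁻¹ x ∈ X := hX _ (K.inv_mem hy) x hx
    have hx2 : ρ z⁻¹ (ρ y⁻¹ x) ∈ X := hX _ (K.inv_mem hz) _ hx1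
    rw [h y hy _ hx2, act_act_inv, act_act_inv]
  have := perfect_hom_trivial hperf (fun y => ⁅z, y⁆)
    (by
      intro y hy u hu
      show ⁅z, y * u⁆ = ⁅z, y⁆ * ⁅z, u⁆
      have e : ⁅z, y * u⁆ = ⁅z, y⁆ * (y * ⁅z, u⁆ * y⁻¹) := by
        simp only [commutatorElement_def]; group
      rw [e, ← hcm u hu y hy]
      group)
    (by
      intro y hy u hu
      have hm : ⁅z, u⁆ ∈ K := by
        rw [commutatorElement_def]
        exact K.mul_mem (K.mul_mem (K.mul_mem hz hu) (K.inv_mem hz)) (K.inv_mem hu)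
      exact hcm y hy _ hm)
  intro y hy
  exact commutatorElement_eq_one_iff_mul_comm.mp (this y hy)

/-- If a non-central `z ∈ K` is central in the image of `K` on `X`, then `K` is trivial on `X`. -/
theorem triv_of_noncentral {K : Subgroup G} (hK : IsQuasisimple K) {X : Submodule (ZMod p) V}
    (hX : ∀ y ∈ K, ∀ x ∈ X, ρ y x ∈ X) {z : G} (hz : z ∈ K) (hzc : ¬ ∀ y ∈ K, z * y = y * z)
    (h : ∀ y ∈ K, ∀ x ∈ X, ρ z (ρ y x) = ρ y (ρ z x)) : ∀ y ∈ K, ∀ x ∈ X, ρ y x = x := by
  intro y hy x hx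
  by_contra hne
  exact hzc (central_of_act ρ hK hX ⟨y, hy, x, hx, hne⟩ hz h)

/-- A non-central `z ∈ K` acting trivially on a `K`-invariant `X` forces `K` to be trivial. -/
theorem triv_of_noncentral_triv {K : Subgroup G} (hK : IsQuasisimple K) {X : Submodule (ZMod p) V}
    (hX : ∀ y ∈ K, ∀ x ∈ X, ρ y x ∈ X) {z : G} (hz : z ∈ K) (hzc : ¬ ∀ y ∈ K, z * y = y * z)
    (h : ∀ x ∈ X, ρ z x = x) : ∀ y ∈ K, ∀ x ∈ X, ρ y x = x :=
  triv_of_noncentral ρ hK hX hz hzc (fun y hy x hx => by
    rw [h _ (hX y hy x hx), h x hx])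

/-- `[w, K, K] = 0` implies `[w, K] = 0` for perfect `K`. -/
theorem fix_of_two_step {K : Subgroup G} (hK : ⁅K, K⁆ = K) {w : V}
    (h : ∀ x ∈ K, ∀ y ∈ K, ρ x (ρ y w - w) = ρ y w - w) : ∀ x ∈ K, ρ x w = w := by
  have := perfect_hom_trivial hK (fun x => Multiplicative.ofAdd (ρ x w - w))
    (by
      intro x hx y hy
      show Multiplicative.ofAdd (ρ (x * y) w - w) =
        Multiplicative.ofAdd (ρ x w - w) * Multiplicative.ofAdd (ρ y w - w)
      rw [← ofAdd_add]
      congr 1
      have := h x hx y hy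
      rw [map_sub] at this
      rw [act_mul]
      have e : ρ x (ρ y w) = ρ y w - w + ρ x w := by
        rw [← this]; abel
      rw [e]; abel)
    (by
      intro x _ y _
      exact mul_comm _ _)
  intro x hx
  have h2 := this x hx
  have h3 : ρ x w - w = 0 := h2
  exact sub_eq_zero.mp h3

section finite

variable [Fact p.Prime]

theorem sub_one_pow_aux (T : Module.End (ZMod p) V) : (T - 1) ^ p = T ^ p - 1 := by
  have h : ((Polynomial.X : Polynomial (ZMod p)) - 1) ^ p = Polynomial.X ^ p - 1 := by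
    rw [sub_pow_char, one_pow]
  have h2 := congrArg (Polynomial.aeval T) h
  simpa using h2

/-- Lemma 1: a `p`-element `s` commuting with a perfect `K`: if `K` is trivial on `C_W(s)`, it is
trivial on `W`. -/
theorem triv_of_triv_on_fix {K : Subgroup G} (hK : ⁅K, K⁆ = K) {W : Submodule (ZMod p) V}
    (hW : ∀ y ∈ K, ∀ w ∈ W, ρ y w ∈ W) {s : G} (hs : s ^ p = 1)
    (hsW : ∀ w ∈ W, ρ s w ∈ W) (hc : ∀ y ∈ K, s * y = y * s)
    (h : ∀ w ∈ W, ρ s w = w → ∀ y ∈ K, ρ y w = w) : ∀ y ∈ K, ∀ w ∈ W, ρ y w = w := by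
  have core : ∀ w ∈ W, (∀ y ∈ K, ρ y (ρ s w - w) = ρ s w - w) → ∀ y ∈ K, ρ y w = w := by
    intro w hw hF
    refine fix_of_two_step ρ hK ?_
    intro x hx y hy
    refine h _ (W.sub_mem (hW y hy w hw) hw) ?_ x hx
    have h1 := hF y hy
    rw [map_sub] at h1 ⊢
    rw [act_comm ρ (hc y hy)]
    have h2 : ρ y (ρ s w) = ρ s w - w + ρ y w := by
      rw [← h1]; abel
    rw [h2]; abel
  have step : ∀ n : ℕ, ∀ w ∈ W, (∀ y ∈ K, ρ y (((ρ s - 1) ^ n) w) = ((ρ s - 1) ^ n) w) →
      ∀ y ∈ K, ρ y w = w := by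
    intro n
    induction n with
    | zero => intro w _ hF; simpa using hF
    | succ n ih =>
      intro w hw hF
      have hmem : ((ρ s - 1) ^ n) w ∈ W := by
        clear hF ih
        induction n with
        | zero => simpa using hw
        | succ n ih2 =>
          rw [pow_succ', Module.End.mul_apply]
          exact W.sub_mem (hsW _ ih2) ih2
      refine ih w hw (core _ hmem ?_)
      intro y hy
      have := hF y hy
      rw [pow_succ', Module.End.mul_apply] at this
      exact this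
  intro y hy w hw
  refine step p w hw ?_ y hy
  intro y' _
  rw [sub_one_pow_aux, ← map_pow, hs, map_one, sub_self]
  simp

/-- `ν^n = 1` for `n` prime to `p`: `(ν - 1) x` fixed by `ν` forces it to vanish. -/
theorem cop_disj_aux (T : Module.End (ZMod p) V) {n : ℕ} (hT : T ^ n = 1) (hn : n.Coprime p)
    {u : V} (h : T (T u - u) = T u - u) : T u = u := by
  have hp : p.Prime := Fact.out
  have hk : ∀ k : ℕ, (T ^ k) u = u + k • (T u - u) := by
    intro k
    induction k with
    | zero => simp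
    | succ k ih =>
      rw [pow_succ', Module.End.mul_apply, ih, map_add, map_nsmul, h, succ_nsmul]
      abel
  have h1 := hk n
  rw [hT, Module.End.one_apply] at h1
  have h2 : n • (T u - u) = 0 := by
    have : u + n • (T u - u) = u + 0 := by rw [← h1, add_zero]
    exact add_left_cancel this
  have h3 : p • (T u - u) = 0 := by
    have : (p : ZMod p) • (T u - u) = 0 := by simp
    rwa [Nat.cast_smul_eq_nsmul] at this
  obtain ⟨s, t, hst⟩ : ∃ s t : ℤ, (n : ℤ) * s + (p : ℤ) * t = 1 := by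
    exact ⟨Nat.gcdA n p, Nat.gcdB n p, by
      have := Nat.gcd_eq_gcd_ab n p
      rw [hn] at this
      push_cast at this ⊢
      linarith⟩
  have h4 : T u - u = 0 := by
    calc T u - u = ((n : ℤ) * s + (p : ℤ) * t) • (T u - u) := by rw [hst, one_smul]
      _ = s • ((n : ℤ) • (T u - u)) + t • ((p : ℤ) • (T u - u)) := by
        rw [add_smul, mul_smul, mul_smul, smul_comm (n : ℤ) s, smul_comm (p : ℤ) t]
      _ = 0 := by
        rw [natCast_zsmul, natCast_zsmul, h2, h3]
        simp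
  exact sub_eq_zero.mp h4

/-- The coprime disjointness: `C(g) ∩ [V, g] = 0`. -/
theorem cop_disj {g : G} {n : ℕ} (hg : g ^ n = 1) (hn : n.Coprime p) {u : V}
    (h : ρ g (ρ g u - u) = ρ g u - u) : ρ g u = u :=
  cop_disj_aux (ρ g) (by rw [← map_pow, hg, map_one]) hn h

section card

variable [Finite V]

/-- Rank-nullity for a subspace, with cardinalities. -/
theorem card_eq_ker_mul_map (f : Module.End (ZMod p) V) (W : Submodule (ZMod p) V) :
    Nat.card W = Nat.card ↥(W ⊓ LinearMap.ker f) * Nat.card ↥(W.map f) := by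
  classical
  haveI : Module.Finite (ZMod p) V := Module.Finite.of_finite
  have h := LinearMap.finrank_range_add_finrank_ker (f.domRestrict W)
  rw [LinearMap.range_domRestrict, LinearMap.ker_domRestrict] at h
  have h2 : Module.finrank (ZMod p) ((LinearMap.ker f).comap W.subtype) =
      Module.finrank (ZMod p) ↥(W ⊓ LinearMap.ker f) := by
    have e : (W ⊓ LinearMap.ker f) = ((LinearMap.ker f).comap W.subtype).map W.subtype := by
      rw [Submodule.map_comap_subtype]
    rw [e]
    exact (Submodule.finrank_map_subtype_eq _ _).symm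
  rw [h2] at h
  have e1 : ∀ S : Submodule (ZMod p) V, Nat.card S = p ^ Module.finrank (ZMod p) S := by
    intro S
    rw [Module.natCard_eq_pow_finrank (K := ZMod p), Nat.card_zmod]
  rw [e1 W, e1 (W ⊓ LinearMap.ker f), e1 (W.map f), ← pow_add, ← h, add_comm]

/-- `|X + Y| |X ∩ Y| = |X| |Y|`. -/
theorem card_sup_mul_inf (X Y : Submodule (ZMod p) V) :
    Nat.card ↥(X ⊔ Y) * Nat.card ↥(X ⊓ Y) = Nat.card X * Nat.card Y := by
  haveI : Module.Finite (ZMod p) V := Module.Finite.of_finite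
  have h := Submodule.finrank_sup_add_finrank_inf_eq X Y
  have e1 : ∀ S : Submodule (ZMod p) V, Nat.card S = p ^ Module.finrank (ZMod p) S := by
    intro S
    rw [Module.natCard_eq_pow_finrank (K := ZMod p), Nat.card_zmod]
  rw [e1, e1, e1, e1, ← pow_add, ← pow_add, h]

theorem eq_of_le_of_card_le {X Y : Submodule (ZMod p) V} (h : X ≤ Y)
    (hc : Nat.card Y ≤ Nat.card X) : X = Y := by
  have hi := Submodule.inclusion h
  have hinj : Function.Injective (Submodule.inclusion h) := Submodule.inclusion_injective h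
  have hb : Function.Bijective (Submodule.inclusion h) :=
    (Nat.bijective_iff_injective_and_card _).mpr ⟨hinj, le_antisymm (Nat.card_le_card_of_injective _ hinj) hc⟩
  apply le_antisymm h
  intro y hy
  obtain ⟨x, hx⟩ := hb.2 ⟨y, hy⟩
  have := congrArg Subtype.val hx
  simp at this
  rw [← this]
  exact x.2

/-- The coprime decomposition `W = C_W(g) + [W, g]`. -/
theorem cop_sum {g : G} {n : ℕ} (hg : g ^ n = 1) (hn : n.Coprime p) {W : Submodule (ZMod p) V}
    (hW : ∀ w ∈ W, ρ g w ∈ W) {w : V} (hw : w ∈ W) :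
    ∃ m ∈ W, ∃ u ∈ W, ρ g m = m ∧ w = m + (ρ g u - u) := by
  set f : Module.End (ZMod p) V := ρ g - 1 with hf
  have hcard := card_eq_ker_mul_map f W
  have hbot : (W ⊓ LinearMap.ker f) ⊓ W.map f = ⊥ := by
    rw [eq_bot_iff]
    rintro x ⟨⟨-, hx⟩, u, hu, rfl⟩
    have h1 : ρ g (ρ g u - u) = ρ g u - u := by
      have : f (f u) = 0 := hx
      simp only [hf, LinearMap.sub_apply, Module.End.one_apply] at this
      exact sub_eq_zero.mp this
    have h2 := cop_disj ρ hg hn h1
    simp only [hf, LinearMap.sub_apply, Module.End.one_apply, SetLike.mem_coe, Submodule.mem_bot]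
    exact sub_eq_zero.mpr h2
  have hle : (W ⊓ LinearMap.ker f) ⊔ W.map f ≤ W := by
    refine sup_le inf_le_left ?_
    rintro _ ⟨u, hu, rfl⟩
    exact W.sub_mem (hW u hu) hu
  have hc := card_sup_mul_inf (W ⊓ LinearMap.ker f) (W.map f)
  rw [hbot, ← hcard] at hc
  have hb : Nat.card (⊥ : Submodule (ZMod p) V) = 1 := by simp
  rw [hb, mul_one] at hc
  have heq := eq_of_le_of_card_le hle (le_of_eq hc.symm)
  rw [← heq] at hw
  obtain ⟨m, hm, y, ⟨u, hu, rfl⟩, rfl⟩ := Submodule.mem_sup.mp hw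
  refine ⟨m, hm.1, u, hu, ?_, rfl⟩
  have : f m = 0 := hm.2
  simp only [hf, LinearMap.sub_apply, Module.End.one_apply] at this
  exact sub_eq_zero.mp this

/-- An injective endomorphism of a finite invariant subspace is surjective. -/
theorem surj_of_inj (f : Module.End (ZMod p) V) {Q : Submodule (ZMod p) V}
    (hQ : ∀ x ∈ Q, f x ∈ Q) (hinj : ∀ x ∈ Q, f x = 0 → x = 0) {x : V} (hx : x ∈ Q) :
    ∃ u ∈ Q, f u = x := by
  let g : Q → Q := fun q => ⟨f q, hQ q q.2⟩
  have hg : Function.Injective g := by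
    intro a b hab
    have h1 : f a = f b := congrArg Subtype.val hab
    have h2 : f ((a : V) - b) = 0 := by rw [map_sub, h1, sub_self]
    have h3 := hinj _ (Q.sub_mem a.2 b.2) h2
    exact Subtype.ext (sub_eq_zero.mp h3)
  obtain ⟨u, hu⟩ := (Finite.injective_iff_surjective.mp hg) ⟨x, hx⟩
  exact ⟨u, u.2, congrArg Subtype.val hu⟩

end card

end finite

end Cfsg.Agent.Lib.PGV.Basic
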