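import Cfsg.Agent.Lib.PGV.Basic

/-!
# The P(G,V) theorem: best offenders on a subspace

Passing to subspaces, to hyperplanes, and the Timmesfeld replacement in module language.
-/

set_option autoImplicit false
set_option linter.unusedSectionVars false
set_option linter.unusedSimpArgs false
set_option linter.style.haveILetI false

open scoped commutatorElement

namespace Cfsg.Agent.Lib.PGV.Best

open Cfsg.Agent.Lib.QuadAct.FFBasic Cfsg.Agent.Lib.PGV.Basic
open Cfsg.Agent.Lib.QuadAct.Basic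

universe u v

variable {G : Type u} [Group G] {p : ℕ} [Fact p.Prime] {V : Type v} [AddCommGroup V]
  [Module (ZMod p) V] [Finite V] (ρ : G →* Module.End (ZMod p) V)

/-- The function `|B| |C_W(B)|`. -/
noncomputable def jW (W : Submodule (ZMod p) V) (B : Subgroup G) : ℕ :=
  Nat.card B * Nat.card ↥(W ⊓ fix ρ B)

/-- `A` has no better subgroup on `W`. -/
def IsBestOn (W : Submodule (ZMod p) V) (A : Subgroup G) : Prop :=
  ∀ B : Subgroup G, B ≤ A → jW ρ W B ≤ jW ρ W A

theorem jW_pos [Finite G] (W : Submodule (ZMod p) V) (B : Subgroup G) : 0 < jW ρ W B :=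
  Nat.mul_pos Nat.card_pos Nat.card_pos

/-- Lemma 2: best passes to subspaces. -/
theorem best_sub {W X : Submodule (ZMod p) V} (hXW : X ≤ W) {A : Subgroup G}
    (h : IsBestOn ρ W A) : IsBestOn ρ X A := by
  intro B hB
  unfold jW
  have hanti : fix ρ A ≤ fix ρ B := fix_anti hB
  have hc := card_sup_mul_inf (X ⊓ fix ρ B) (W ⊓ fix ρ A)
  have hle : (X ⊓ fix ρ B) ⊔ (W ⊓ fix ρ A) ≤ W ⊓ fix ρ B :=
    sup_le (inf_le_inf_right _ hXW) (inf_le_inf_left _ hanti)
  have hinf : (X ⊓ fix ρ B) ⊓ (W ⊓ fix ρ A) = X ⊓ fix ρ A := by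
    apply le_antisymm
    · exact le_inf (inf_le_left.trans inf_le_left) (inf_le_right.trans inf_le_right)
    · exact le_inf (inf_le_inf_left _ hanti) (inf_le_inf_right _ hXW)
  rw [hinf] at hc
  have h1 : Nat.card ↥((X ⊓ fix ρ B) ⊔ (W ⊓ fix ρ A)) ≤ Nat.card ↥(W ⊓ fix ρ B) :=
    Nat.card_le_card_of_injective _ (Submodule.inclusion_injective hle)
  have h2 := h B hB
  unfold jW at h2
  have hpos : 0 < Nat.card ↥(W ⊓ fix ρ A) := Nat.card_pos
  refine Nat.le_of_mul_le_mul_right ?_ hpos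
  calc Nat.card B * Nat.card ↥(X ⊓ fix ρ B) * Nat.card ↥(W ⊓ fix ρ A)
      = Nat.card B * (Nat.card ↥((X ⊓ fix ρ B) ⊔ (W ⊓ fix ρ A)) * Nat.card ↥(X ⊓ fix ρ A)) := by
        rw [hc]; ring
    _ ≤ Nat.card B * (Nat.card ↥(W ⊓ fix ρ B) * Nat.card ↥(X ⊓ fix ρ A)) := by
        gcongr
    _ = (Nat.card B * Nat.card ↥(W ⊓ fix ρ B)) * Nat.card ↥(X ⊓ fix ρ A) := by ring
    _ ≤ (Nat.card A * Nat.card ↥(W ⊓ fix ρ A)) * Nat.card ↥(X ⊓ fix ρ A) := by
        gcongr
    _ = _ := by ring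

/-- The stabilizer of a vector. -/
def stabV (x : V) : Subgroup G where
  carrier := {g | ρ g x = x}
  mul_mem' := by
    intro a b ha hb
    show ρ (a * b) x = x
    rw [act_mul, (hb : ρ b x = x), (ha : ρ a x = x)]
  one_mem' := act_one ρ x
  inv_mem' := by
    intro a ha
    show ρ a⁻¹ x = x
    conv_lhs => rw [← (ha : ρ a x = x)]
    exact act_inv_act ρ a x

theorem fix_sup (B C : Subgroup G) : fix ρ (B ⊔ C) = fix ρ B ⊓ fix ρ C := by
  apply le_antisymm
  · exact le_inf (fix_anti le_sup_left) (fix_anti le_sup_right)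
  · rintro x ⟨hB, hC⟩
    have : B ⊔ C ≤ stabV ρ x := sup_le (fun g hg => hB g hg) (fun g hg => hC g hg)
    exact fun g hg => this hg

theorem mem_fix_zpowers {s : G} {x : V} : x ∈ fix ρ (Subgroup.zpowers s) ↔ ρ s x = x := by
  constructor
  · intro h
    exact h s (Subgroup.mem_zpowers s)
  · intro h
    have : Subgroup.zpowers s ≤ stabV ρ x := by
      rw [Subgroup.zpowers_le]
      exact h
    exact fun g hg => this hg

/-- Card of `B ⟨s⟩`. -/
theorem card_sup_zpowers [Finite G] {B : Subgroup G} {s : G} (hc : ∀ x ∈ B, s * x = x * s)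
    (hs : s ^ p = 1) (hsB : s ∉ B) :
    Nat.card ↥(B ⊔ Subgroup.zpowers s) = p * Nat.card B := by
  have hp : p.Prime := Fact.out
  have hs1 : s ≠ 1 := fun h => hsB (h ▸ B.one_mem)
  have hord : orderOf s = p := orderOf_eq_prime hs hs1
  have hZ : Nat.card (Subgroup.zpowers s) = p := by rw [Nat.card_zpowers, hord]
  have hn : Subgroup.zpowers s ≤ Subgroup.normalizer (B : Set G) := by
    rw [Subgroup.zpowers_le, Subgroup.mem_normalizer_iff]
    intro h
    constructor
    · intro hh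
      by_cases hhB : h ∈ B
      · rw [hc h hhB, mul_inv_cancel_right]; exact hh
      · exact absurd hh hhB
    · intro hh
      have h1 : s⁻¹ * (s * h * s⁻¹) * s = h := by group
      have hcinv : ∀ x ∈ B, s⁻¹ * x * s = x := by
        intro x hx
        rw [mul_assoc, ← hc x hx, inv_mul_cancel_left]
      rw [← h1]
      simpa [hcinv _ hh] using hh
  have h1 := card_sup_mul_card_inf_of_le_normalizer _ _ hn
  have hbot : Subgroup.zpowers s ⊓ B = ⊥ := by
    have hd : Nat.card ↥(Subgroup.zpowers s ⊓ B) ∣ p := by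
      rw [← hZ]
      exact Subgroup.card_dvd_of_le inf_le_left
    rcases (Nat.dvd_prime hp).mp hd with h2 | h2
    · exact Subgroup.eq_bot_of_card_eq _ h2
    · exfalso
      have h3 : Subgroup.zpowers s ⊓ B = Subgroup.zpowers s :=
        Subgroup.eq_of_le_of_card_ge inf_le_left (by rw [hZ, h2])
      have : s ∈ Subgroup.zpowers s ⊓ B := by
        rw [h3]; exact Subgroup.mem_zpowers s
      exact hsB this.2
  rw [hbot, Subgroup.card_bot, mul_one, hZ, sup_comm] at h1
  exact h1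

/-- Membership in `D ⟨x⟩` for `x` commuting with `D`. -/
theorem mem_sup_zpowers {D : Subgroup G} {x y : G} (hc : ∀ u ∈ D, x * u = u * x)
    (hy : y ∈ D ⊔ Subgroup.zpowers x) : ∃ u ∈ D, ∃ i : ℤ, y = u * x ^ i := by
  let S : Subgroup G :=
    { carrier := {y | ∃ u ∈ D, ∃ i : ℤ, y = u * x ^ i}
      mul_mem' := by
        rintro _ _ ⟨u, hu, i, rfl⟩ ⟨v, hv, j, rfl⟩
        refine ⟨u * v, D.mul_mem hu hv, i + j, ?_⟩
        have hcz : Commute (x ^ i) v := (show Commute x v from hc v hv).zpow_left i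
        rw [zpow_add, mul_assoc, ← mul_assoc (x ^ i), hcz.eq, mul_assoc, mul_assoc]
      one_mem' := ⟨1, D.one_mem, 0, by simp⟩
      inv_mem' := by
        rintro _ ⟨u, hu, i, rfl⟩
        refine ⟨u⁻¹, D.inv_mem hu, -i, ?_⟩
        have hcz : Commute (x ^ i) u := (show Commute x u from hc u hu).zpow_left i
        rw [mul_inv_rev, zpow_neg]
        exact ((hcz.inv_inv).eq).symm ▸ rfl }
  have hle : D ⊔ Subgroup.zpowers x ≤ S := by
    refine sup_le ?_ ?_
    · intro u hu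
      exact ⟨u, hu, 0, by simp⟩
    · rw [Subgroup.zpowers_le]
      exact ⟨1, D.one_mem, 1, by simp⟩
  exact hle hy

/-- Complements in elementary abelian groups. -/
theorem exists_compl [Finite G] {A D : Subgroup G} (hcomm : ∀ x ∈ A, ∀ y ∈ A, x * y = y * x)
    (hexp : ∀ x ∈ A, x ^ p = 1) {s : G} (hsA : s ∈ A) (hDA : D ≤ A) (hsD : s ∉ D) :
    ∃ A' : Subgroup G, D ≤ A' ∧ A' ≤ A ∧ s ∉ A' ∧ A' ⊔ Subgroup.zpowers s = A := by
  have hp : p.Prime := Fact.out
  let T : Set (Subgroup G) := {E | D ≤ E ∧ E ≤ A ∧ s ∉ E}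
  have hT : T.Finite := Set.toFinite T
  obtain ⟨A', hDA', hmax⟩ := hT.exists_le_maximal (a := D) ⟨le_rfl, hDA, hsD⟩
  refine ⟨A', hDA', hmax.1.2.1, hmax.1.2.2, ?_⟩
  have hA'A := hmax.1.2.1
  apply le_antisymm
  · exact sup_le hA'A (by rwa [Subgroup.zpowers_le])
  · intro x hx
    by_cases hxA : x ∈ A'
    · exact Subgroup.mem_sup_left hxA
    by_contra hxn
    -- `A' ⟨x⟩` contains `s`
    have hsupA : A' ⊔ Subgroup.zpowers x ≤ A := sup_le hA'A (by rwa [Subgroup.zpowers_le])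
    have hss : s ∈ A' ⊔ Subgroup.zpowers x := by
      by_contra hns
      have hmem : A' ⊔ Subgroup.zpowers x ∈ T :=
        ⟨hDA'.trans le_sup_left, hsupA, hns⟩
      have := hmax.2 hmem le_sup_left
      exact hxA (this (Subgroup.mem_sup_right (Subgroup.mem_zpowers x)))
    have hcx : ∀ u ∈ A', x * u = u * x := fun u hu => hcomm x hx u (hA'A hu)
    obtain ⟨u, hu, i, hi⟩ := mem_sup_zpowers hcx hss
    have hnd : ¬ (p : ℤ) ∣ i := by
      rintro ⟨k, rfl⟩
      apply hmax.1.2.2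
      rw [hi, zpow_mul, zpow_natCast, hexp x hx, one_zpow, mul_one]
      exact hu
    have hcop : IsCoprime (p : ℤ) i :=
      (Nat.prime_iff_prime_int.mp hp).coprime_iff_not_dvd.mpr hnd
    obtain ⟨a, b, hab⟩ := hcop
    apply hxn
    have hxi : x ^ i = u⁻¹ * s := by rw [hi]; group
    have e : x = (x ^ i) ^ b := by
      have e1 : x = x ^ ((a * (p : ℤ)) + b * i) := by rw [hab, zpow_one]
      rw [zpow_add, mul_comm a, zpow_mul, zpow_natCast, hexp x hx, one_zpow, one_mul] at e1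
      rw [← zpow_mul, mul_comm i b]
      exact e1
    rw [e, hxi]
    exact Subgroup.zpow_mem _ (Subgroup.mul_mem _ (Subgroup.mem_sup_left (A'.inv_mem hu))
      (Subgroup.mem_sup_right (Subgroup.mem_zpowers s))) b

/-- Passing to a hyperplane and the fixed points of a complement. -/
theorem best_hyper [Finite G] {W : Submodule (ZMod p) V} {A A' : Subgroup G}
    (h : IsBestOn ρ W A) (hcomm : ∀ x ∈ A, ∀ y ∈ A, x * y = y * x)
    {s : G} (hsA : s ∈ A) (hs : s ^ p = 1) (hA' : A' ≤ A) (hsA' : s ∉ A')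
    (hsup : A' ⊔ Subgroup.zpowers s = A) :
    IsBestOn ρ (W ⊓ fix ρ (Subgroup.zpowers s)) A' := by
  have hp : p.Prime := Fact.out
  intro B hB
  have hZA : Subgroup.zpowers s ≤ A := by rwa [Subgroup.zpowers_le]
  have h1 := h (B ⊔ Subgroup.zpowers s) (sup_le (hB.trans hA') hZA)
  unfold jW at h1 ⊢
  have hcB : ∀ x ∈ B, s * x = x * s := fun x hx => hcomm s hsA x (hA' (hB hx))
  have hcA : ∀ x ∈ A', s * x = x * s := fun x hx => hcomm s hsA x (hA' hx)
  have e1 := card_sup_zpowers hcB hs (fun hh => hsA' (hB hh))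
  have e2 := card_sup_zpowers hcA hs hsA'
  rw [hsup] at e2
  have e3 : W ⊓ fix ρ (B ⊔ Subgroup.zpowers s) = W ⊓ fix ρ (Subgroup.zpowers s) ⊓ fix ρ B := by
    rw [fix_sup, inf_comm (fix ρ B), inf_assoc]
  have e4 : W ⊓ fix ρ A = W ⊓ fix ρ (Subgroup.zpowers s) ⊓ fix ρ A' := by
    conv_lhs => rw [← hsup]
    rw [fix_sup, inf_comm (fix ρ A'), inf_assoc]
  rw [e3, e1, e4, e2] at h1
  have hpp : 0 < p := hp.pos
  rw [mul_assoc, mul_assoc] at h1
  exact Nat.le_of_mul_le_mul_left h1 hpp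

end Cfsg.Agent.Lib.PGV.Best
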