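import Cfsg.Agent.Lib.PGV.Quad

/-!
# The P(G,V) theorem: the case `N_A(K) = 1`
-/

set_option autoImplicit false
set_option linter.unusedSectionVars false
set_option linter.unusedSimpArgs false
set_option linter.style.haveILetI false

open scoped commutatorElement

namespace Cfsg.Agent.Lib.PGV.CaseI

open Cfsg.Agent.Lib.QuadAct.FFBasic Cfsg.Agent.Lib.PGV.Basic Cfsg.Agent.Lib.PGV.Best
open Cfsg.Agent.Lib.PGV.HH Cfsg.Agent.Lib.PGV.Timm Cfsg.Agent.Lib.PGV.Data
open Cfsg.Agent.Lib.PGV.Quad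
open Cfsg.Agent.Lib.Components.Basic

universe u v

variable {G : Type u} [Group G] {p : ℕ} [Fact p.Prime] {V : Type v} [AddCommGroup V]
  [Module (ZMod p) V] [Finite V] {ρ : G →* Module.End (ZMod p) V}

theorem hh_split {K : Subgroup G} {s : G} {n : ℕ} (hn : 0 < n) (hc : Hc K s n) {y : G} (hy : y ∈ K) :
    ∃ R, hh s y n = y * R ∧ ∀ x ∈ K, Commute x R := by
  obtain ⟨m, rfl⟩ := Nat.exists_eq_succ_of_ne_zero hn.ne'
  exact ⟨s * hh s y m * s⁻¹, hh_succ' s y m, fun x hx => hh_rest_commute hc hx hy⟩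

/-- An element whose norm is trivial on `X` is central in the image of `K` on `X`. -/
theorem hh_central_on {K : Subgroup G} {s : G} {n : ℕ} (hn : 0 < n) (hc : Hc K s n)
    {X : Submodule (ZMod p) V} (hX : ∀ y ∈ K, ∀ x ∈ X, ρ y x ∈ X) {u : G} (hu : u ∈ K)
    (htriv : ∀ x ∈ X, ρ (hh s u n) x = x) : ∀ y ∈ K, ∀ x ∈ X, ρ u (ρ y x) = ρ y (ρ u x) := by
  obtain ⟨R, hR, hRc⟩ := hh_split hn hc hu
  have h1 : ∀ x ∈ X, ρ R x = ρ u⁻¹ x := by
    intro x hx
    have h2 := htriv x hx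
    rw [hR, act_mul] at h2
    conv_rhs => rw [← h2]
    rw [act_inv_act]
  intro y hy x hx
  have hxu : ρ u x ∈ X := hX u hu x hx
  have h3 : ρ u⁻¹ (ρ y (ρ u x)) = ρ y x := by
    rw [← h1 _ (hX y hy _ hxu), act_comm ρ (hRc y hy).symm, h1 _ hxu, act_inv_act]
  conv_rhs => rw [← act_act_inv ρ u (ρ y (ρ u x)), h3]

theorem hh_commute_hh {A K : Subgroup G} (h : Orb p A K) {s c : G} (hs : s ∈ A) (hc : c ∈ A)
    (hcs : ∀ i j : ℕ, s ^ i * (s ^ j * c)⁻¹ ∉ Nm K) {x y : G} (hx : x ∈ K) (hy : y ∈ K) (n : ℕ) :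
    Commute (hh s x n) (hh s (c * y * c⁻¹) n) := by
  apply hh_commute_of_factor
  intro j _
  refine Commute.symm ?_
  apply hh_commute_of_factor
  intro i _
  have e : s ^ j * (c * y * c⁻¹) * (s ^ j)⁻¹ = (s ^ j * c) * y * (s ^ j * c)⁻¹ := by group
  rw [e]
  exact (h.cc2 (A.pow_mem hs i) (A.mul_mem (A.pow_mem hs j) hc) (hcs i j) hx hy).symm

/-- The norm homomorphism. -/
def hhHom {K : Subgroup G} {s : G} {n : ℕ} (hc : Hc K s n) : K →* G where
  toFun y := hh s y n
  map_one' := by simp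
  map_mul' := fun x y => hh_mul hc x.2 y.2

theorem mem_hhRange {K : Subgroup G} {s : G} {n : ℕ} {hc : Hc K s n} {x : G} :
    x ∈ (hhHom hc).range ↔ ∃ y ∈ K, hh s y n = x := by
  constructor
  · rintro ⟨y, rfl⟩
    exact ⟨y, y.2, rfl⟩
  · rintro ⟨y, hy, rfl⟩
    exact ⟨⟨y, hy⟩, rfl⟩

/-- The reduction step of the case `N_A(K) = 1`: `A` is cyclic. -/
theorem Mn.cyclic [Finite G] {A K : Subgroup G} {W : Submodule (ZMod p) V} (hm : Mn ρ A K W)
    (hA0 : ∀ c ∈ A, c ∈ Nm K → c = 1) {a : G} (ha : a ∈ A) (hna : a ∉ Nm K) :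
    A ≤ Subgroup.zpowers a := by
  have hp : p.Prime := Fact.out
  intro s hs
  by_contra hsa
  have hperf := commutator_self_of_quasisimple hm.qs
  have hs1 : s ≠ 1 := fun h => hsa (h ▸ Subgroup.one_mem _)
  have hns : s ∉ Nm K := fun h => hs1 (hA0 s hs h)
  have hexps := hm.exp s hs
  have hc := hm.toOrb.hc hs hns
  obtain ⟨A', hDA', hA', hsA', hsup⟩ := exists_compl hm.comm hm.exp hs
    (by rwa [Subgroup.zpowers_le]) hsa
  have haA' : a ∈ A' := hDA' (Subgroup.mem_zpowers a)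
  have hKs : K ≤ stW ρ W := fun c hc w hw => ⟨hm.invK c hc w hw, hm.invK _ (K.inv_mem hc) w hw⟩
  have hAs : A ≤ stW ρ W := fun c hc w hw => ⟨hm.invA c hc w hw, hm.invA _ (A.inv_mem hc) w hw⟩
  -- `H` is nontrivial on `W`
  have hntrH : ∃ y ∈ K, ∃ w ∈ W, ρ (hh s y p) w ≠ w := by
    by_contra hcon
    push Not at hcon
    obtain ⟨y, hy, w, hw, hne⟩ := hm.ntr
    refine hne (triv_of_abelian ρ hperf hm.invK ?_ y hy w hw)
    intro u hu v hv x hx
    exact hh_central_on hp.pos hc hm.invK hu (hcon u hu) v hv x hx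
  set L := (hhHom hc).range with hL
  have hLmem : ∀ y ∈ K, hh s y p ∈ L := fun y hy => mem_hhRange.mpr ⟨y, hy, rfl⟩
  haveI hntL : Nontrivial L := by
    obtain ⟨y, hy, w, hw, hne⟩ := hntrH
    refine ⟨⟨⟨hh s y p, hLmem y hy⟩, 1, ?_⟩⟩
    intro h
    have h2 : hh s y p = 1 := congrArg Subtype.val h
    rw [h2, act_one] at hne
    exact hne rfl
  have hLqs : IsQuasisimple L :=
    quasisimple_of_surjective (hhHom hc).rangeRestrict (hhHom hc).rangeRestrict_surjective hm.qs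
  have hLperf := commutator_self_of_quasisimple hLqs
  have hsL : ∀ y ∈ L, s * y = y * s := by
    intro y hy
    obtain ⟨u, hu, rfl⟩ := mem_hhRange.mp hy
    exact mul_inv_eq_iff_eq_mul.mp (hh_s_comm hp.pos hexps hc hu)
  have hLW : ∀ y ∈ L, ∀ w ∈ W, ρ y w ∈ W := by
    intro y hy w hw
    obtain ⟨u, hu, rfl⟩ := mem_hhRange.mp hy
    exact (hh_mem (hAs hs) (hKs hu) p w hw).1
  -- the conjugates commute
  have hcs : ∀ c ∈ A', c ≠ 1 → ∀ i j : ℕ, s ^ i * (s ^ j * c)⁻¹ ∉ Nm K := by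
    intro c hcA' hc1 i j hmem
    have hcA := hA' hcA'
    have hm1 : s ^ i * (s ^ j * c)⁻¹ ∈ A :=
      A.mul_mem (A.pow_mem hs i) (A.inv_mem (A.mul_mem (A.pow_mem hs j) hcA))
    have h1 := hA0 _ hm1 hmem
    have h2 : s ^ i = s ^ j * c := mul_inv_eq_one.mp h1
    have h3 : c = s ^ ((i : ℤ) - j) := by
      rw [zpow_sub, zpow_natCast, zpow_natCast, h2, (show (s ^ j * c) * (s ^ j)⁻¹ = c from ?_)]
      rw [mul_assoc, (show c * (s ^ j)⁻¹ = (s ^ j)⁻¹ * c from ?_), mul_inv_cancel_left]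
      have hcm : Commute c (s ^ j) := (show Commute c s from hm.comm c hcA s hs).pow_right j
      exact hcm.inv_right.eq
    refine hsA' (zpow_mem_of_not_dvd hexps (i := (i : ℤ) - j) ?_ (h3 ▸ hcA'))
    rintro ⟨k, hk⟩
    apply hc1
    rw [h3, hk, zpow_mul, zpow_natCast, hexps, one_zpow]
  have hLcomm : ∀ c ∈ A', c ≠ 1 → ∀ x ∈ L, ∀ y ∈ L, x * (c * y * c⁻¹) = (c * y * c⁻¹) * x := by
    intro c hcA' hc1 x hx y hy
    obtain ⟨u, hu, rfl⟩ := mem_hhRange.mp hx
    obtain ⟨v, hv, rfl⟩ := mem_hhRange.mp hy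
    have hcA := hA' hcA'
    rw [hh_conj (hm.comm c hcA s hs)]
    exact hh_commute_hh hm.toOrb hs hcA (hcs c hcA' hc1) hu hv p
  have ha1 : a ≠ 1 := fun h => hna (h ▸ Subgroup.one_mem _)
  set X := W ⊓ fix ρ (Subgroup.zpowers s) with hX
  have hd : Dat ρ A' L X :=
    { comm := fun x hx y hy => hm.comm x (hA' hx) y (hA' hy)
      exp := fun x hx => hm.exp x (hA' hx)
      qs := hLqs
      cc := by
        intro c hcA'
        by_cases hc1 : c = 1
        · left; rw [hc1]; exact Subgroup.one_mem _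
        · right; exact hLcomm c hcA' hc1
      invA := by
        rintro c hc w ⟨hw1, hw2⟩
        refine ⟨hm.invA c (hA' hc) w hw1, (mem_fix_zpowers ρ).mpr ?_⟩
        rw [act_comm ρ (hm.comm s hs c (hA' hc)), (mem_fix_zpowers ρ).mp hw2]
      invK := by
        rintro y hy w ⟨hw1, hw2⟩
        refine ⟨hLW y hy w hw1, (mem_fix_zpowers ρ).mpr ?_⟩
        rw [act_comm ρ (hsL y hy), (mem_fix_zpowers ρ).mp hw2]
      ntr := by
        by_contra hcon
        push Not at hcon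
        obtain ⟨y, hy, w, hw, hne⟩ := hntrH
        refine hne (triv_of_triv_on_fix ρ hLperf hLW hexps (hm.invA s hs) hsL ?_ _ (hLmem y hy) w hw)
        intro v hv hsv z hz
        exact hcon z hz v ⟨hv, (mem_fix_zpowers ρ).mpr hsv⟩
      best := best_hyper ρ hm.best hm.comm hs hexps hA' hsA' hsup
      moved := by
        refine ⟨a, haA', fun hmem => ?_⟩
        have hLab : ∀ x ∈ L, ∀ y ∈ L, x * y = y * x := by
          intro x hx y hy
          have h1 := hLcomm a haA' ha1 x hx (a⁻¹ * y * a) ((mem_Nm_iff.mp hmem).2 y hy)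
          have e : a * (a⁻¹ * y * a) * a⁻¹ = y := by group
          rwa [e] at h1
        have h2 := perfect_hom_trivial hperf (fun y => hh s y p) (fun x hx y hy => hh_mul hc hx hy)
          (fun x hx y hy => hLab _ (hLmem x hx) _ (hLmem y hy))
        obtain ⟨y, hy, w, hw, hne⟩ := hntrH
        apply hne
        have h3 : hh s y p = 1 := h2 y hy
        rw [h3, act_one] }
  have h1 := hm.min _ _ _ hd
  have h2 := card_lt_of_notMem hA' hs hsA'
  have h3 : Nat.card X ≤ Nat.card W :=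
    Nat.card_le_card_of_injective _ (Submodule.inclusion_injective (inf_le_left : X ≤ W))
  omega

/-- The case `N_A(K) = 1` is impossible. -/
theorem Mn.caseI [Finite G] {A K : Subgroup G} {W : Submodule (ZMod p) V} (hm : Mn ρ A K W)
    (hA0 : ∀ c ∈ A, c ∈ Nm K → c = 1) : False := by
  have hp : p.Prime := Fact.out
  obtain ⟨a, ha, hna⟩ := hm.moved
  have hcyc := Mn.cyclic hm hA0 ha hna
  have hexpa := hm.exp a ha
  have ha1 : a ≠ 1 := fun h => hna (h ▸ Subgroup.one_mem _)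
  have hord : orderOf a = p := orderOf_eq_prime hexpa ha1
  have hcardA : Nat.card A ≤ p := by
    have h1 := Nat.card_le_card_of_injective _ (Subgroup.inclusion_injective hcyc)
    rwa [Nat.card_zpowers, hord] at h1
  -- the commutator is small
  set f : Module.End (ZMod p) V := ρ a - 1 with hf
  have hker : W ⊓ fix ρ A ≤ W ⊓ LinearMap.ker f := by
    rintro w ⟨hw1, hw2⟩
    refine ⟨hw1, ?_⟩
    show f w = 0
    rw [hf, LinearMap.sub_apply, Module.End.one_apply, hw2 a ha, sub_self]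
  have hrn := card_eq_ker_mul_map f W
  have hb := hm.best ⊥ bot_le
  unfold jW at hb
  rw [fix_bot, inf_top_eq, Subgroup.card_bot, one_mul] at hb
  have h1 : Nat.card ↥(W ⊓ fix ρ A) ≤ Nat.card ↥(W ⊓ LinearMap.ker f) :=
    Nat.card_le_card_of_injective _ (Submodule.inclusion_injective hker)
  have hsmall : Nat.card ↥(W.map f) ≤ p := by
    have hpos : 0 < Nat.card ↥(W ⊓ LinearMap.ker f) := Nat.card_pos
    refine Nat.le_of_mul_le_mul_left ?_ hpos
    rw [← hrn]
    calc Nat.card W ≤ Nat.card A * Nat.card ↥(W ⊓ fix ρ A) := hb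
      _ ≤ p * Nat.card ↥(W ⊓ LinearMap.ker f) := Nat.mul_le_mul hcardA h1
      _ = _ := mul_comm _ _
  have hcc : ∀ x ∈ K, ∀ y ∈ K, x * (a * y * a⁻¹) = (a * y * a⁻¹) * x :=
    (hm.cc a ha).resolve_left hna
  by_cases hp2 : p = 2
  · refine transvection_final hp2 hm.qs hm.invK (hm.invA a ha) ?_ hcc hm.ntr (hp2 ▸ hsmall)
    rw [← pow_two]
    exact hp2 ▸ hexpa
  -- `a` is quadratic
  have hXW : W.map f ≤ W := by
    rintro _ ⟨u, hu, rfl⟩
    exact W.sub_mem (hm.invA a ha u hu) hu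
  have hXinv : ∀ c ∈ A, ∀ x ∈ W.map f, ρ c x ∈ W.map f := by
    rintro c hc _ ⟨u, hu, rfl⟩
    refine ⟨ρ c u, hm.invA c hc u hu, ?_⟩
    show (ρ a - 1) (ρ c u) = ρ c ((ρ a - 1) u)
    simp only [LinearMap.sub_apply, Module.End.one_apply, map_sub]
    rw [act_comm ρ (hm.comm a ha c hc)]
  have hquad : ∀ x ∈ W.map f, ρ a x = x := by
    by_cases hbot : W.map f = ⊥
    · intro x hx
      rw [hbot, Submodule.mem_bot] at hx
      rw [hx, map_zero]
    have hZp : IsPGroup p (Subgroup.zpowers a) :=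
      IsPGroup.of_card (n := 1) (by rw [Nat.card_zpowers, hord, pow_one])
    have hZA : Subgroup.zpowers a ≤ A := by rwa [Subgroup.zpowers_le]
    obtain ⟨x, hx, hx0, hxf⟩ := exists_fixed_ne_zero ρ hZp (W.map f)
      (fun r hr => hXinv r (hZA hr)) hbot
    have hrn2 := card_eq_ker_mul_map f (W.map f)
    have hlt : (⊥ : Submodule (ZMod p) V) < W.map f ⊓ LinearMap.ker f := by
      rw [bot_lt_iff_ne_bot]
      intro h
      have hxm : x ∈ W.map f ⊓ LinearMap.ker f := by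
        refine ⟨hx, ?_⟩
        show f x = 0
        rw [hf, LinearMap.sub_apply, Module.End.one_apply,
          hxf a (Subgroup.mem_zpowers a), sub_self]
      rw [h, Submodule.mem_bot] at hxm
      exact hx0 hxm
    have hc1 := card_mul_le_of_lt hlt
    have hbc : Nat.card (⊥ : Submodule (ZMod p) V) = 1 := by simp
    rw [hbc, one_mul] at hc1
    have hc2 : Nat.card ↥((W.map f).map f) ≤ 1 := by
      refine Nat.le_of_mul_le_mul_left ?_ hp.pos
      calc p * Nat.card ↥((W.map f).map f)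
          ≤ Nat.card ↥(W.map f ⊓ LinearMap.ker f) * Nat.card ↥((W.map f).map f) :=
            Nat.mul_le_mul_right _ hc1
        _ = Nat.card ↥(W.map f) := hrn2.symm
        _ ≤ p := hsmall
        _ = p * 1 := (mul_one p).symm
    intro y hy
    have hmem : f y ∈ (W.map f).map f := ⟨y, hy, rfl⟩
    haveI : Subsingleton ↥((W.map f).map f) :=
      Finite.card_le_one_iff_subsingleton.mp hc2
    have h0 : (⟨f y, hmem⟩ : ↥((W.map f).map f)) = 0 := Subsingleton.elim _ _
    have h1 : f y = 0 := congrArg Subtype.val h0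
    rw [hf, LinearMap.sub_apply, Module.End.one_apply] at h1
    exact sub_eq_zero.mp h1
  obtain ⟨z, hz, hzc, n, hn, hzn⟩ := exists_noncentral_coprime p hm.qs
  apply hzc
  refine quad_central hm.toOrb hp2 hm.invA hm.invK hm.ntr ha hna ?_ hz hn hzn
  intro w hw
  exact hquad _ ⟨w, hw, rfl⟩

end Cfsg.Agent.Lib.PGV.CaseI
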