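import Cfsg.Agent.Lib.PGV.CaseI

/-!
# The P(G,V) theorem: property P and the large orbits
-/

set_option autoImplicit false
set_option linter.unusedSectionVars false
set_option linter.unusedSimpArgs false
set_option linter.style.haveILetI false

open scoped commutatorElement

namespace Cfsg.Agent.Lib.PGV.CaseII

open Cfsg.Agent.Lib.QuadAct.FFBasic Cfsg.Agent.Lib.PGV.Basic Cfsg.Agent.Lib.PGV.Best
open Cfsg.Agent.Lib.PGV.HH Cfsg.Agent.Lib.PGV.Timm Cfsg.Agent.Lib.PGV.Data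
open Cfsg.Agent.Lib.PGV.Quad Cfsg.Agent.Lib.PGV.CaseI
open Cfsg.Agent.Lib.Components.Basic

universe u v

variable {G : Type u} [Group G] {p : ℕ} [Fact p.Prime] {V : Type v} [AddCommGroup V]
  [Module (ZMod p) V] [Finite V] {ρ : G →* Module.End (ZMod p) V}

/-- Commuting operators: `(s - 1)(t - 1) = 0` implies `(t - 1)(s - 1) = 0`. -/
theorem comm_fix {W : Submodule (ZMod p) V} {s t : G} (hst : s * t = t * s)
    (h : ∀ w ∈ W, ρ s (ρ t w - w) = ρ t w - w) : ∀ w ∈ W, ρ t (ρ s w - w) = ρ s w - w := by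
  intro w hw
  have h1 := h w hw
  rw [map_sub] at h1 ⊢
  rw [← act_comm ρ hst]
  have e : ρ s (ρ t w) = ρ t w - w + ρ s w := by
    rw [← h1]; abel
  rw [e]; abel

/-- If `s` fixes `(g - 1) W`, `z` commutes with `g`, then `[z, s]` fixes `(g - 1) W`. -/
theorem comm_elt_fix {W : Submodule (ZMod p) V} {g s z : G} (hgz : g * z = z * g)
    (hzW : ∀ w ∈ W, ρ z⁻¹ w ∈ W)
    (h : ∀ w ∈ W, ρ s (ρ g w - w) = ρ g w - w) :
    ∀ w ∈ W, ρ (z * (s * z⁻¹ * s⁻¹)) (ρ g w - w) = ρ g w - w := by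
  intro u hu
  have hs' : ρ s⁻¹ (ρ g u - u) = ρ g u - u := by
    conv_lhs => rw [← h u hu]
    exact act_inv_act ρ s _
  have hcz : g * z⁻¹ = z⁻¹ * g := by
    have : Commute g z := hgz
    exact this.inv_right.eq
  have e1 : ρ z⁻¹ (ρ g u - u) = ρ g (ρ z⁻¹ u) - ρ z⁻¹ u := by
    rw [map_sub, act_comm ρ hcz]
  calc ρ (z * (s * z⁻¹ * s⁻¹)) (ρ g u - u)
      = ρ z (ρ s (ρ z⁻¹ (ρ s⁻¹ (ρ g u - u)))) := by
        rw [act_mul, act_mul, act_mul]
    _ = ρ z (ρ s (ρ g (ρ z⁻¹ u) - ρ z⁻¹ u)) := by rw [hs', e1]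
    _ = ρ z (ρ g (ρ z⁻¹ u) - ρ z⁻¹ u) := by rw [h _ (hzW u hu)]
    _ = ρ g u - u := by rw [← e1, act_act_inv]

theorem hh_comm_s {K : Subgroup G} {s : G} {n : ℕ} (hn : 0 < n) (hs : s ^ n = 1) (hc : Hc K s n)
    {y : G} (hy : y ∈ K) : hh s y n * s = s * hh s y n :=
  (mul_inv_eq_iff_eq_mul.mp (hh_s_comm hn hs hc hy)).symm

theorem hh_self_comm {K : Subgroup G} {s : G} {n : ℕ} (hn : 0 < n) (hc : Hc K s n) {y x : G}
    (hy : y ∈ K) (hxy : x * y = y * x) (hx : x ∈ K) : x * hh s y n = hh s y n * x := by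
  apply hh_commute_of_factor
  intro i hi
  by_cases hi0 : i = 0
  · subst hi0
    have e : s ^ 0 * y * (s ^ 0)⁻¹ = y := by simp
    rw [e]
    exact hxy
  · have h0 := hc 0 i hn hi (Ne.symm hi0) x hx y hy
    simpa using h0

/-- Property P. -/
theorem prop_P {A K : Subgroup G} {W : Submodule (ZMod p) V} (h : Orb p A K)
    (hA : ∀ c ∈ A, ∀ w ∈ W, ρ c w ∈ W) (hK : ∀ y ∈ K, ∀ w ∈ W, ρ y w ∈ W) {a b : G} (ha : a ∈ A)
    (hna : a ∉ Nm K) (hb : b ∈ A) (hbN : b ∈ Nm K) (hbc : ¬ ∀ y ∈ K, b * y = y * b)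
    (hq : ∀ w ∈ W, ρ b (ρ a w - w) = ρ a w - w) :
    ∀ y ∈ K, ∀ w ∈ W, ρ (hh a y p) (ρ a w - w) = ρ a w - w := by
  have hp : p.Prime := Fact.out
  have hperf := commutator_self_of_quasisimple h.qs
  have hexpa := h.exp a ha
  have hc := h.hc ha hna
  have hAs : A ≤ stW ρ W := fun c hc w hw => ⟨hA c hc w hw, hA _ (A.inv_mem hc) w hw⟩
  have hKs : K ≤ stW ρ W := fun c hc w hw => ⟨hK c hc w hw, hK _ (K.inv_mem hc) w hw⟩
  have hgW : ∀ y ∈ K, ∀ w ∈ W, ρ (hh a y p) w ∈ W := fun y hy w hw =>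
    (hh_mem (hAs ha) (hKs hy) p w hw).1
  have hga : ∀ y ∈ K, ∀ w, ρ (hh a y p) (ρ a w - w) = ρ a (ρ (hh a y p) w) - ρ (hh a y p) w := by
    intro y hy w
    rw [map_sub, act_comm ρ (hh_comm_s hp.pos hexpa hc hy)]
  have hd := qs_dichotomy h.qs (fun d => ∀ w ∈ W, ρ (hh a d p) (ρ a w - w) = ρ a w - w)
    (by intro w _; simp)
    (by
      intro x hx y hy h1 h2 w hw
      rw [hh_mul hc hx hy, act_mul, h2 w hw, h1 w hw])
    (by
      intro x hx h1 w hw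
      rw [hh_inv hc hx]
      conv_lhs => rw [← h1 w hw]
      exact act_inv_act ρ _ _)
    (by
      intro u hu x hx h1 w hw
      have hu' := K.inv_mem hu
      rw [hh_mul hc (K.mul_mem hu hx) hu', hh_mul hc hu hx, hh_inv hc hu, act_mul, act_mul]
      have e : ρ (hh a u p)⁻¹ (ρ a w - w) =
          ρ a (ρ (hh a u p)⁻¹ w) - ρ (hh a u p)⁻¹ w := by
        rw [← hh_inv hc hu]
        exact hga _ hu' w
      have hw' : ρ (hh a u p)⁻¹ w ∈ W := by
        rw [← hh_inv hc hu]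
        exact hgW _ hu' w hw
      rw [e, h1 _ hw', ← e, act_act_inv])
  rcases hd with hall | hcen
  · exact hall
  · exfalso
    -- `y⁻¹ yᵇ` satisfies the property
    have hPb : ∀ y ∈ K, ∀ w ∈ W, ρ (hh a (y⁻¹ * (b * y * b⁻¹)) p) (ρ a w - w) = ρ a w - w := by
      intro y hy w hw
      have hyb : b * y * b⁻¹ ∈ K := (mem_Nm_iff.mp hbN).1 y hy
      rw [hh_mul hc (K.inv_mem hy) hyb, hh_inv hc hy,
        ← hh_conj (h.comm b hb a ha) y p, act_mul, act_conj]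
      have hb' : ρ b⁻¹ (ρ a w - w) = ρ a w - w := by
        conv_lhs => rw [← hq w hw]
        exact act_inv_act ρ b _
      rw [hb', hga y hy w, hq _ (hgW y hy w hw), ← hga y hy w, act_inv_act]
    have hmemφ : ∀ y ∈ K, y⁻¹ * (b * y * b⁻¹) ∈ K := fun y hy =>
      K.mul_mem (K.inv_mem hy) ((mem_Nm_iff.mp hbN).1 y hy)
    have hcφ : ∀ y ∈ K, ∀ u ∈ K, (y⁻¹ * (b * y * b⁻¹)) * u = u * (y⁻¹ * (b * y * b⁻¹)) := by
      intro y hy u hu
      exact hcen _ (hmemφ y hy) (hPb y hy) u hu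
    have hφ := perfect_hom_trivial hperf (fun y => y⁻¹ * (b * y * b⁻¹))
      (by
        intro x hx y hy
        show (x * y)⁻¹ * (b * (x * y) * b⁻¹) = x⁻¹ * (b * x * b⁻¹) * (y⁻¹ * (b * y * b⁻¹))
        have e1 := hcφ x hx y⁻¹ (K.inv_mem hy)
        calc (x * y)⁻¹ * (b * (x * y) * b⁻¹)
            = y⁻¹ * (x⁻¹ * (b * x * b⁻¹)) * (b * y * b⁻¹) := by group
          _ = (x⁻¹ * (b * x * b⁻¹)) * y⁻¹ * (b * y * b⁻¹) := by rw [← e1]
          _ = _ := by group)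
      (by
        intro x hx y hy
        exact hcφ x hx _ (hmemφ y hy))
    apply hbc
    intro y hy
    have h1 : y⁻¹ * (b * y * b⁻¹) = 1 := hφ y hy
    have h2 : b * y * b⁻¹ = y := by
      have := mul_left_cancel (a := y⁻¹) (b := b * y * b⁻¹) (c := y) (by rw [h1, inv_mul_cancel])
      exact this
    exact mul_inv_eq_iff_eq_mul.mp h2

/-- Property P for all conjugates, as a hypothesis. -/
def PP (ρ : G →* Module.End (ZMod p) V) (A K : Subgroup G) (W : Submodule (ZMod p) V) : Prop :=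
  ∀ a ∈ A, a ∉ Nm K → ∀ l ∈ A, ∀ y ∈ cj l K, ∀ w ∈ W, ρ (hh a y p) (ρ a w - w) = ρ a w - w

/-- Minimality and the replacement give property P. -/
theorem Mn.pp [Finite G] {A K : Subgroup G} {W : Submodule (ZMod p) V} (hm : Mn ρ A K W)
    (h0 : ∃ b ∈ A, b ∈ Nm K ∧ b ≠ 1) : PP ρ A K W := by
  obtain ⟨b, hb, hbN, hb1, hq⟩ := hm.exists_b h0
  intro a ha hna l hl y hy w hw
  have hOl := hm.toOrb.cj hl
  have hlW : ∀ y ∈ cj l K, ∀ w ∈ W, ρ y w ∈ W := by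
    intro y hy w hw
    obtain ⟨x, hx, rfl⟩ := exists_of_mem_cj hy
    rw [act_conj]
    exact hm.invA l hl _ (hm.invK x hx _ (hm.invA _ (A.inv_mem hl) w hw))
  have hna' : a ∉ Nm (cj l K) := fun h => hna (mem_Nm_of_cj (hm.comm a ha l hl) h)
  have hbN' : b ∈ Nm (cj l K) := mem_Nm_cj (hm.comm b hb l hl) hbN
  have hbc' : ¬ ∀ y ∈ cj l K, b * y = y * b := by
    intro hall
    apply hb1
    apply hm.cent hb
    intro x hx
    have h1 := hall _ (conj_mem_cj (c := l) hx)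
    have hbl : b * l = l * b := hm.comm b hb l hl
    have e : l * (b * x) * l⁻¹ = l * (x * b) * l⁻¹ := by
      calc l * (b * x) * l⁻¹ = (l * b) * x * l⁻¹ := by group
        _ = (b * l) * x * l⁻¹ := by rw [hbl]
        _ = b * (l * x * l⁻¹) := by group
        _ = (l * x * l⁻¹) * b := h1
        _ = l * x * (l⁻¹ * b) := by group
        _ = l * x * (b * l⁻¹) := by
          have : Commute b l := hbl
          rw [this.inv_right.eq]
        _ = _ := by group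
    exact mul_left_cancel (mul_right_cancel e)
  exact prop_P hOl hm.invA hlW ha hna' hb hbN' hbc' (fun w hw => hq a ha w hw) y hy w hw

/-- The element `[z, a] = z (a z a⁻¹)⁻¹`. -/
def eta (a z : G) : G := z * (a * z⁻¹ * a⁻¹)

section T

variable {A K : Subgroup G} {W : Submodule (ZMod p) V}

theorem cj_inv_W (h : Orb p A K) (hA : ∀ c ∈ A, ∀ w ∈ W, ρ c w ∈ W)
    (hK : ∀ y ∈ K, ∀ w ∈ W, ρ y w ∈ W) {l : G} (hl : l ∈ A) :
    ∀ y ∈ cj l K, ∀ w ∈ W, ρ y w ∈ W := by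
  intro y hy w hw
  obtain ⟨x, hx, rfl⟩ := exists_of_mem_cj hy
  rw [act_conj]
  exact hA l hl _ (hK x hx _ (hA _ (A.inv_mem hl) w hw))

theorem eta_commute_cj (h : Orb p A K) {a l z y : G} (ha : a ∈ A) (hl : l ∈ A) (hz : z ∈ K)
    (hl0 : l ∉ Nm K) (hla : l * a⁻¹ ∉ Nm K) (hy : y ∈ cj l K) : y * eta a z = eta a z * y := by
  obtain ⟨x, hx, rfl⟩ := exists_of_mem_cj hy
  have h1 : Commute (l * x * l⁻¹) z := by
    have := (h.cc l hl).resolve_left hl0 z hz x hx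
    exact (show Commute z (l * x * l⁻¹) from this).symm
  have h2 : Commute (l * x * l⁻¹) (a * z⁻¹ * a⁻¹) :=
    h.cc2 hl ha hla hx (K.inv_mem hz)
  exact h1.mul_right h2

theorem eta_pow {a z : G} (h : Commute z (a * z⁻¹ * a⁻¹)) {n : ℕ} (hn : z ^ n = 1) :
    (eta a z) ^ n = 1 := by
  unfold eta
  rw [h.mul_pow, hn, one_mul, conj_pow, inv_pow, hn]
  group

theorem eta_comm_self (h : Orb p A K) {a z : G} (ha : a ∈ A) (hna : a ∉ Nm K) (hz : z ∈ K) :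
    Commute z (a * z⁻¹ * a⁻¹) := by
  have := (h.cc a ha).resolve_left hna z hz z⁻¹ (K.inv_mem hz)
  exact this

theorem noncentral_cj {K : Subgroup G} {z l : G} (hzc : ¬ ∀ y ∈ K, z * y = y * z) :
    ¬ ∀ y ∈ cj l K, (l * z * l⁻¹) * y = y * (l * z * l⁻¹) := by
  intro hall
  apply hzc
  intro y hy
  have h1 := hall _ (conj_mem_cj (c := l) hy)
  have e : l * (z * y) * l⁻¹ = l * (y * z) * l⁻¹ := by
    calc l * (z * y) * l⁻¹ = (l * z * l⁻¹) * (l * y * l⁻¹) := by group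
      _ = (l * y * l⁻¹) * (l * z * l⁻¹) := h1
      _ = _ := by group
  exact mul_left_cancel (mul_right_cancel e)

/-- The main step: `K^l` is trivial on `[W, [z, a]]`. -/
theorem T_main (h : Orb p A K) (hA : ∀ c ∈ A, ∀ w ∈ W, ρ c w ∈ W)
    (hK : ∀ y ∈ K, ∀ w ∈ W, ρ y w ∈ W) (hPP : PP ρ A K W) {a l z : G} (ha : a ∈ A)
    (hna : a ∉ Nm K) (hl : l ∈ A) (hl0 : l ∉ Nm K) (hla : l * a⁻¹ ∉ Nm K) (hz : z ∈ K)
    (hzc : ¬ ∀ y ∈ K, z * y = y * z)
    (hcg : hh a (l * z * l⁻¹) p * z = z * hh a (l * z * l⁻¹) p) :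
    ∀ y ∈ cj l K, ∀ u ∈ W, ρ y (ρ (eta a z) u - u) = ρ (eta a z) u - u := by
  have hp : p.Prime := Fact.out
  have hexpa := h.exp a ha
  have hOl := h.cj hl
  set u' := l * z * l⁻¹ with hu'
  have hu'm : u' ∈ cj l K := conj_mem_cj hz
  have hcl := hOl.hc ha (fun hh' => hna (mem_Nm_of_cj (h.comm a ha l hl) hh'))
  set g := hh a u' p with hg
  have hlW := cj_inv_W h hA hK hl
  have hAs : A ≤ stW ρ W := fun c hc w hw => ⟨hA c hc w hw, hA _ (A.inv_mem hc) w hw⟩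
  -- `g` fixes `[W, a]`, so `a` fixes `[W, g]`
  have h1 : ∀ w ∈ W, ρ g (ρ a w - w) = ρ a w - w := hPP a ha hna l hl u' hu'm
  have hga : g * a = a * g := hh_comm_s hp.pos hexpa hcl hu'm
  have h2 : ∀ w ∈ W, ρ a (ρ g w - w) = ρ g w - w := comm_fix hga h1
  -- the commutator fixes `[W, g]`
  have h3 : ∀ w ∈ W, ρ (eta a z) (ρ g w - w) = ρ g w - w :=
    comm_elt_fix hcg (fun w hw => hK _ (K.inv_mem hz) w hw) h2
  -- `g` commutes with the commutator
  have hgη : g * eta a z = eta a z * g := by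
    unfold eta
    have c1 : Commute g z := hcg
    have c2 : Commute g a := hga
    have c3 : Commute g (a * z⁻¹ * a⁻¹) :=
      ((c2.mul_right c1.inv_right).mul_right c2.inv_right)
    exact (c1.mul_right c3)
  have h4 : ∀ w ∈ W, ρ g (ρ (eta a z) w - w) = ρ (eta a z) w - w := by
    refine comm_fix hgη.symm h3
  -- now `u'` is central on `Q`
  set Q := W.map (ρ (eta a z) - 1) with hQ
  have hetaW : ∀ w ∈ W, ρ (eta a z) w ∈ W := by
    intro w hw
    unfold eta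
    rw [act_mul]
    refine hK z hz _ ?_
    rw [act_conj]
    exact hA a ha _ (hK _ (K.inv_mem hz) _ (hA _ (A.inv_mem ha) w hw))
  have hcη : ∀ y ∈ cj l K, y * eta a z = eta a z * y := fun y hy =>
    eta_commute_cj h ha hl hz hl0 hla hy
  have hQinv : ∀ y ∈ cj l K, ∀ x ∈ Q, ρ y x ∈ Q := by
    rintro y hy _ ⟨w, hw, rfl⟩
    refine ⟨ρ y w, hlW y hy w hw, ?_⟩
    show ρ (eta a z) (ρ y w) - ρ y w = ρ y (ρ (eta a z) w - w)
    rw [map_sub, act_comm ρ (hcη y hy).symm]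
  have hgQ : ∀ x ∈ Q, ρ (hh a u' p) x = x := by
    rintro _ ⟨w, hw, rfl⟩
    exact h4 w hw
  have hcen := hh_central_on hp.pos hcl hQinv hu'm hgQ
  have htr := triv_of_noncentral ρ hOl.qs hQinv hu'm (noncentral_cj hzc) hcen
  intro y hy u hu
  exact htr y hy _ ⟨u, hu, rfl⟩

/-- The contradiction from two elements. -/
theorem T_final (h : Orb p A K) (hA : ∀ c ∈ A, ∀ w ∈ W, ρ c w ∈ W)
    (hK : ∀ y ∈ K, ∀ w ∈ W, ρ y w ∈ W) (hntr : ∃ y ∈ K, ∃ w ∈ W, ρ y w ≠ w) {a a₁ z : G}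
    (ha : a ∈ A) (hna : a ∉ Nm K) (ha₁ : a₁ ∈ A) (hna₁ : a₁ ∉ Nm K)
    (hz : z ∈ K) (hzc : ¬ ∀ y ∈ K, z * y = y * z) {n : ℕ} (hn : n.Coprime p) (hzn : z ^ n = 1)
    (h1 : ∀ u ∈ W, ρ z (ρ (a * z * a⁻¹) (ρ (eta a z) u - u)) = ρ (eta a z) u - u)
    (h2 : ∀ y ∈ cj a₁ K, ∀ u ∈ W, ρ y (ρ (eta a z) u - u) = ρ (eta a z) u - u)
    (h3 : ∀ y ∈ cj a K, ∀ u ∈ W, ρ y (ρ (eta a₁ z) u - u) = ρ (eta a₁ z) u - u) : False := by
  have hηc := eta_comm_self h ha hna hz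
  have hηc₁ := eta_comm_self h ha₁ hna₁ hz
  have hηn := eta_pow hηc hzn
  have hηn₁ := eta_pow hηc₁ hzn
  set η := eta a z with hη
  set η₁ := eta a₁ z with hη₁
  set z' := a * z * a⁻¹ with hz'
  set Q := W.map (ρ η - 1) with hQ
  have hz'm : z' ∈ cj a K := conj_mem_cj hz
  have hηW : ∀ w ∈ W, ρ η w ∈ W := by
    intro w hw
    rw [hη]; unfold eta
    rw [act_mul]
    refine hK z hz _ ?_
    rw [act_conj]
    exact hA a ha _ (hK _ (K.inv_mem hz) _ (hA _ (A.inv_mem ha) w hw))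
  have hη₁W : ∀ w ∈ W, ρ η₁ w ∈ W := by
    intro w hw
    rw [hη₁]; unfold eta
    rw [act_mul]
    refine hK z hz _ ?_
    rw [act_conj]
    exact hA a₁ ha₁ _ (hK _ (K.inv_mem hz) _ (hA _ (A.inv_mem ha₁) w hw))
  have hQW : Q ≤ W := by
    rintro _ ⟨u, hu, rfl⟩
    exact W.sub_mem (hηW u hu) hu
  -- `z` commutes with `η`
  have hzη : z * η = η * z := by
    rw [hη]; unfold eta
    have : Commute z (z * (a * z⁻¹ * a⁻¹)) := (Commute.refl z).mul_right hηc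
    exact this
  have hQz : ∀ x ∈ Q, ρ z x ∈ Q := by
    rintro _ ⟨u, hu, rfl⟩
    refine ⟨ρ z u, hK z hz u hu, ?_⟩
    show ρ η (ρ z u) - ρ z u = ρ z (ρ η u - u)
    rw [map_sub, act_comm ρ hzη.symm]
  have hQzi : ∀ x ∈ Q, ρ z⁻¹ x ∈ Q := by
    rintro _ ⟨u, hu, rfl⟩
    have hc : z⁻¹ * η = η * z⁻¹ := (show Commute z η from hzη).inv_left.eq
    refine ⟨ρ z⁻¹ u, hK _ (K.inv_mem hz) u hu, ?_⟩
    show ρ η (ρ z⁻¹ u) - ρ z⁻¹ u = ρ z⁻¹ (ρ η u - u)
    rw [map_sub, act_comm ρ hc.symm]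
  -- `z' = z⁻¹` on `Q`
  have hz'Q : ∀ x ∈ Q, ρ z (ρ z' x) = x := by
    rintro _ ⟨u, hu, rfl⟩
    exact h1 u hu
  have hzz' : Commute z z' := by
    have := (h.cc a ha).resolve_left hna z hz z hz
    exact this
  -- the action of `η` on `Q`
  have hηQ : ∀ x ∈ Q, ρ η x = ρ z (ρ z x) := by
    intro x hx
    have e : η = z * z'⁻¹ := by
      rw [hη, hz']; unfold eta; group
    rw [e, act_mul]
    congr 1
    have h5 := hz'Q _ (hQz x hx)
    rw [act_comm ρ hzz'.symm.eq] at h5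
    have h6 := hz'Q _ (hQz x hx)
    have h7 : ρ z' (ρ z x) = x := by
      have := hz'Q x hx
      rw [act_comm ρ hzz'.eq] at this
      exact this
    conv_lhs => rw [← h7]
    exact act_inv_act ρ _ _
  -- fixed points
  have hηfix : ∀ x ∈ Q, ρ η x = x → x = 0 := by
    rintro _ ⟨u, hu, rfl⟩ hfix
    have h5 := cop_disj ρ hηn hn (u := u) hfix
    show ρ η u - u = 0
    exact sub_eq_zero.mpr h5
  have hzfix : ∀ x ∈ Q, ρ z x = x → x = 0 := by
    intro x hx hzx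
    apply hηfix x hx
    rw [hηQ x hx, hzx, hzx]
  -- `z₁` trivial on `Q`
  set z₁ := a₁ * z * a₁⁻¹ with hz₁
  have hz₁m : z₁ ∈ cj a₁ K := conj_mem_cj hz
  have hz₁Q : ∀ x ∈ Q, ρ z₁ x = x := by
    rintro _ ⟨u, hu, rfl⟩
    exact h2 _ hz₁m u hu
  have hz₁iQ : ∀ x ∈ Q, ρ z₁⁻¹ x = x := by
    intro x hx
    conv_lhs => rw [← hz₁Q x hx]
    exact act_inv_act ρ _ _
  have hη₁Q : ∀ x ∈ Q, ρ η₁ x = ρ z x := by
    intro x hx
    have e : η₁ = z * z₁⁻¹ := by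
      rw [hη₁, hz₁]; unfold eta; group
    rw [e, act_mul, hz₁iQ x hx]
  -- `Q ≤ [W, η₁]`
  have hQle : ∀ x ∈ Q, ∃ u ∈ W, ρ η₁ u - u = x := by
    intro x hx
    obtain ⟨u, hu, hux⟩ := surj_of_inj (ρ η₁ - 1) (Q := Q)
      (by
        intro y hy
        show ρ η₁ y - y ∈ Q
        rw [hη₁Q y hy]
        exact Q.sub_mem (hQz y hy) hy)
      (by
        intro y hy h0
        have h5 : ρ η₁ y - y = 0 := h0
        rw [hη₁Q y hy] at h5
        exact hzfix y hy (sub_eq_zero.mp h5))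
      hx
    exact ⟨u, hQW hu, hux⟩
  -- hence `z'` is trivial on `Q`
  have hz'tr : ∀ x ∈ Q, ρ z' x = x := by
    intro x hx
    obtain ⟨u, hu, rfl⟩ := hQle x hx
    exact h3 _ hz'm u hu
  have hQ0 : ∀ x ∈ Q, x = 0 := by
    intro x hx
    apply hzfix x hx
    have := hz'Q x hx
    rwa [hz'tr x hx] at this
  -- so `z = z'` on `W`
  have hzz'W : ∀ w ∈ W, ρ z w = ρ z' w := by
    intro w hw
    have hw' : ρ z' w ∈ W := by
      rw [hz', act_conj]
      exact hA a ha _ (hK _ hz _ (hA _ (A.inv_mem ha) w hw))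
    have h5 := hQ0 _ (show ρ η (ρ z' w) - ρ z' w ∈ Q from ⟨_, hw', rfl⟩)
    have e : η = z * z'⁻¹ := by
      rw [hη, hz']; unfold eta; group
    rw [e, act_mul, act_inv_act] at h5
    exact sub_eq_zero.mp h5
  apply hzc
  refine central_of_act ρ h.qs hK hntr hz ?_
  intro y hy w hw
  have hyz' : y * z' = z' * y := (h.cc a ha).resolve_left hna y hy z hz
  rw [hzz'W _ (hK y hy w hw), hzz'W w hw, act_comm ρ hyz'.symm]

/-- The norm of an element fixes `[W, [z, a]]`. -/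
theorem T_g (h : Orb p A K) (hA : ∀ c ∈ A, ∀ w ∈ W, ρ c w ∈ W)
    (hK : ∀ y ∈ K, ∀ w ∈ W, ρ y w ∈ W) (hPP : PP ρ A K W) {a l z u' : G} (ha : a ∈ A)
    (hna : a ∉ Nm K) (hl : l ∈ A) (hz : z ∈ K) (hu' : u' ∈ cj l K)
    (hcg : hh a u' p * z = z * hh a u' p) :
    ∀ w ∈ W, ρ (hh a u' p) (ρ (eta a z) w - w) = ρ (eta a z) w - w := by
  have hp : p.Prime := Fact.out
  have hexpa := h.exp a ha
  have hOl := h.cj hl
  have hcl := hOl.hc ha (fun hh' => hna (mem_Nm_of_cj (h.comm a ha l hl) hh'))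
  set g := hh a u' p with hg
  have h1 : ∀ w ∈ W, ρ g (ρ a w - w) = ρ a w - w := hPP a ha hna l hl u' hu'
  have hga : g * a = a * g := hh_comm_s hp.pos hexpa hcl hu'
  have h2 : ∀ w ∈ W, ρ a (ρ g w - w) = ρ g w - w := comm_fix hga h1
  have h3 : ∀ w ∈ W, ρ (eta a z) (ρ g w - w) = ρ g w - w :=
    comm_elt_fix hcg (fun w hw => hK _ (K.inv_mem hz) w hw) h2
  have hgη : g * eta a z = eta a z * g := by
    unfold eta
    have c1 : Commute g z := hcg
    have c2 : Commute g a := hga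
    have c3 : Commute g (a * z⁻¹ * a⁻¹) :=
      ((c2.mul_right c1.inv_right).mul_right c2.inv_right)
    exact (c1.mul_right c3)
  exact comm_fix hgη.symm h3

theorem mem_cj_one {K : Subgroup G} {z : G} (hz : z ∈ K) : z ∈ cj 1 K := by
  rw [mem_cj]; simpa using hz

/-- The case of odd `p`. -/
theorem T_odd [Finite G] (h : Orb p A K) (hA : ∀ c ∈ A, ∀ w ∈ W, ρ c w ∈ W)
    (hK : ∀ y ∈ K, ∀ w ∈ W, ρ y w ∈ W) (hntr : ∃ y ∈ K, ∃ w ∈ W, ρ y w ≠ w) (hPP : PP ρ A K W)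
    (hp2 : p ≠ 2) {a : G} (ha : a ∈ A) (hna : a ∉ Nm K) : False := by
  have hp : p.Prime := Fact.out
  have hp3 : 3 ≤ p := by
    have := hp.two_le
    omega
  obtain ⟨z, hz, hzc, n, hn, hzn⟩ := exists_noncentral_coprime p h.qs
  have hexpa := h.exp a ha
  have hc := h.hc ha hna
  -- powers of `a` do not normalize `K`
  have hpow : ∀ i : ℕ, 0 < i → i < p → a ^ i ∉ Nm K := by
    intro i hi hip hmem
    apply hna
    refine zpow_mem_of_not_dvd hexpa (i := (i : ℤ)) ?_ (by simpa using hmem)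
    intro hd
    have h2 := Int.natCast_dvd_natCast.mp hd
    have h3 := Nat.le_of_dvd hi h2
    omega
  have hgz : hh a z p * z = z * hh a z p :=
    (hh_self_comm hp.pos hc hz rfl hz).symm
  have hpowA : ∀ i : ℕ, a ^ i ∈ A := fun i => A.pow_mem ha i
  -- the large conjugates are trivial on `Q`
  have hlarge : ∀ i : ℕ, 2 ≤ i → i < p → ∀ y ∈ cj (a ^ i) K, ∀ u ∈ W,
      ρ y (ρ (eta a z) u - u) = ρ (eta a z) u - u := by
    intro i hi hip
    refine T_main h hA hK hPP ha hna (hpowA i) (hpow i (by omega) hip) ?_ hz hzc ?_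
    · have e : a ^ i * a⁻¹ = a ^ (i - 1) := by
        obtain ⟨j, rfl⟩ : ∃ j, i = j + 1 := ⟨i - 1, by omega⟩
        simp [pow_succ]
      rw [e]
      exact hpow (i - 1) (by omega) (by omega)
    · rw [hh_conj_pow hp.pos hexpa hc hz i]
      exact hgz
  have hg := T_g h hA hK hPP ha hna (A.one_mem) hz (mem_cj_one hz) hgz
  have hind : ∀ m : ℕ, 2 ≤ m → m ≤ p → ∀ u ∈ W,
      ρ (hh a z m) (ρ (eta a z) u - u) = ρ (hh a z 2) (ρ (eta a z) u - u) := by
    intro m hm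
    induction m, hm using Nat.le_induction with
    | base => intro _ u _; rfl
    | succ m hm ih =>
      intro hmp u hu
      rw [hh_succ, act_mul, hlarge m hm (by omega) _ (conj_mem_cj hz) u hu]
      exact ih (by omega) u hu
  have h2e : hh a z 2 = z * (a * z * a⁻¹) := by
    simp [hh_succ]
  -- the square of `a`
  have ha2 : a ^ 2 ∈ A := hpowA 2
  have hna2 : a ^ 2 ∉ Nm K := hpow 2 (by norm_num) (by omega)
  have hexpa2 : (a ^ 2) ^ p = 1 := h.exp _ ha2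
  have hc2 := h.hc ha2 hna2
  obtain ⟨k, hk⟩ : ∃ k : ℕ, (a ^ 2) ^ k = a := by
    obtain ⟨q, rfl⟩ := hp.odd_of_ne_two hp2
    refine ⟨q + 1, ?_⟩
    rw [← pow_mul]
    have e : 2 * (q + 1) = (2 * q + 1) + 1 := by ring
    rw [e, pow_succ, hexpa, one_mul]
  refine T_final h hA hK hntr ha hna ha2 hna2 hz hzc hn hzn ?_ ?_ ?_
  · intro u hu
    have e1 := hind p hp.two_le le_rfl u hu
    have e2 := hg u hu
    rw [e1, h2e, act_mul] at e2
    exact e2
  · exact hlarge 2 le_rfl (by omega)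
  · refine T_main h hA hK hPP ha2 hna2 ha (hna) ?_ hz hzc ?_
    · intro hmem
      apply hna
      have e : a * (a ^ 2)⁻¹ = a⁻¹ := by
        rw [pow_two]; group
      rw [e] at hmem
      have := (Nm K).inv_mem hmem
      simpa using this
    · have e : a * z * a⁻¹ = (a ^ 2) ^ k * z * ((a ^ 2) ^ k)⁻¹ := by rw [hk]
      rw [e, hh_conj_pow hp.pos hexpa2 hc2 hz k]
      exact (hh_self_comm hp.pos hc2 hz rfl hz).symm

/-- The case `p = 2` with a large orbit. -/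
theorem T_two [Finite G] (h : Orb p A K) (hA : ∀ c ∈ A, ∀ w ∈ W, ρ c w ∈ W)
    (hK : ∀ y ∈ K, ∀ w ∈ W, ρ y w ∈ W) (hntr : ∃ y ∈ K, ∃ w ∈ W, ρ y w ≠ w) (hPP : PP ρ A K W)
    (hp2 : p = 2) {a a' : G} (ha : a ∈ A) (hna : a ∉ Nm K) (ha' : a' ∈ A) (hna' : a' ∉ Nm K)
    (haa : a' * a⁻¹ ∉ Nm K) : False := by
  subst hp2
  have hp : Nat.Prime 2 := Nat.prime_two
  obtain ⟨z, hz, hzc, n, hn, hzn⟩ := exists_noncentral_coprime 2 h.qs
  have hc := h.hc ha hna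
  have hgz : hh a z 2 * z = z * hh a z 2 :=
    (hh_self_comm hp.pos hc hz rfl hz).symm
  have hg := T_g h hA hK hPP ha hna (A.one_mem) hz (mem_cj_one hz) hgz
  have h2e : hh a z 2 = z * (a * z * a⁻¹) := by
    simp [hh_succ]
  have hinv : ∀ x ∈ A, x⁻¹ = x := fun x hx =>
    inv_eq_of_mul_eq_one_left (by rw [← pow_two]; exact h.exp x hx)
  have hcomm2 : ∀ s l : G, s ∈ A → l ∈ A → l ∉ Nm K → l * s⁻¹ ∉ Nm K →
      hh s (l * z * l⁻¹) 2 * z = z * hh s (l * z * l⁻¹) 2 := by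
    intro s l hs hl hl0 hls
    refine Eq.symm ?_
    apply hh_commute_of_factor
    intro i hi
    have e : s ^ i * (l * z * l⁻¹) * (s ^ i)⁻¹ = (s ^ i * l) * z * (s ^ i * l)⁻¹ := by group
    rw [e]
    have hm : s ^ i * l ∈ A := A.mul_mem (A.pow_mem hs i) hl
    have hnot : s ^ i * l ∉ Nm K := by
      interval_cases i
      · simpa using hl0
      · rw [pow_one, h.comm s hs l hl, ← hinv s hs]
        exact hls
    exact (h.cc _ hm).resolve_left hnot z hz z hz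
  refine T_final h hA hK hntr ha hna ha' hna' hz hzc hn hzn ?_ ?_ ?_
  · intro u hu
    have e2 := hg u hu
    rw [h2e, act_mul] at e2
    exact e2
  · exact T_main h hA hK hPP ha hna ha' hna' haa hz hzc (hcomm2 a a' ha ha' hna' haa)
  · have haa' : a * a'⁻¹ ∉ Nm K := by
      intro hmem
      apply haa
      have := (Nm K).inv_mem hmem
      rw [mul_inv_rev, inv_inv] at this
      exact this
    exact T_main h hA hK hPP ha' hna' ha hna haa' hz hzc (hcomm2 a' a ha' ha hna haa')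

end T

end Cfsg.Agent.Lib.PGV.CaseII
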