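import Cfsg.Agent.Lib.PGV.HH

/-!
# The P(G,V) theorem: the minimal configuration
-/

set_option autoImplicit false
set_option linter.unusedSectionVars false
set_option linter.unusedSimpArgs false
set_option linter.style.haveILetI false

open scoped commutatorElement

namespace Cfsg.Agent.Lib.PGV.Data

open Cfsg.Agent.Lib.QuadAct.FFBasic Cfsg.Agent.Lib.PGV.Basic Cfsg.Agent.Lib.PGV.Best
open Cfsg.Agent.Lib.PGV.HH Cfsg.Agent.Lib.PGV.Timm
open Cfsg.Agent.Lib.Components.Basic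

universe u v

variable {G : Type u} [Group G]

/-- The normalizer of `K`. -/
abbrev Nm (K : Subgroup G) : Subgroup G := Subgroup.normalizer (K : Set G)

/-- Orbit data: `A` elementary abelian, `K` quasisimple, its `A`-conjugates equal or commuting. -/
structure Orb (p : ℕ) (A K : Subgroup G) : Prop where
  comm : ∀ x ∈ A, ∀ y ∈ A, x * y = y * x
  exp : ∀ x ∈ A, x ^ p = 1
  qs : IsQuasisimple K
  cc : ∀ c ∈ A, c ∈ Nm K ∨ ∀ x ∈ K, ∀ y ∈ K, x * (c * y * c⁻¹) = (c * y * c⁻¹) * x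

theorem Orb.mono {p : ℕ} {A A' K : Subgroup G} (h : Orb p A K) (hA : A' ≤ A) : Orb p A' K :=
  ⟨fun x hx y hy => h.comm x (hA hx) y (hA hy), fun x hx => h.exp x (hA hx), h.qs,
    fun c hc => h.cc c (hA hc)⟩

/-- The conjugates `cKc⁻¹` with `c d⁻¹` not normalizing `K` commute with `dKd⁻¹`. -/
theorem Orb.cc2 {p : ℕ} {A K : Subgroup G} (h : Orb p A K) {c d : G} (hc : c ∈ A) (hd : d ∈ A)
    (hn : c * d⁻¹ ∉ Nm K) {x y : G} (hx : x ∈ K) (hy : y ∈ K) :
    Commute (c * x * c⁻¹) (d * y * d⁻¹) := by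
  have he : c * d⁻¹ ∈ A := A.mul_mem hc (A.inv_mem hd)
  have h1 := (h.cc _ he).resolve_left hn y hy x hx
  set e := c * d⁻¹ with hedef
  have hce : c = d * e := by
    rw [hedef, ← mul_assoc, h.comm d hd c hc, mul_assoc, mul_inv_cancel, mul_one]
  have e1 : c * x * c⁻¹ = d * (e * x * e⁻¹) * d⁻¹ := by rw [hce]; group
  show (c * x * c⁻¹) * (d * y * d⁻¹) = (d * y * d⁻¹) * (c * x * c⁻¹)
  rw [e1]
  calc d * (e * x * e⁻¹) * d⁻¹ * (d * y * d⁻¹) = d * ((e * x * e⁻¹) * y) * d⁻¹ := by group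
    _ = d * (y * (e * x * e⁻¹)) * d⁻¹ := by rw [h1]
    _ = _ := by group

section prime

variable {p : ℕ} [Fact p.Prime]

/-- A prime-to-`p` power of an element of order dividing `p` generates it. -/
theorem zpow_mem_of_not_dvd {N : Subgroup G} {a : G} (ha : a ^ p = 1) {i : ℤ}
    (hi : ¬ (p : ℤ) ∣ i) (h : a ^ i ∈ N) : a ∈ N := by
  have hp : p.Prime := Fact.out
  have hcop : IsCoprime (p : ℤ) i :=
    (Nat.prime_iff_prime_int.mp hp).coprime_iff_not_dvd.mpr hi
  obtain ⟨u, v, huv⟩ := hcop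
  have e1 : a = a ^ ((u * (p : ℤ)) + v * i) := by rw [huv, zpow_one]
  rw [zpow_add, mul_comm u, zpow_mul, zpow_natCast, ha, one_zpow, one_mul, mul_comm v, zpow_mul]
    at e1
  rw [e1]
  exact N.zpow_mem h v

theorem Orb.hc {A K : Subgroup G} (h : Orb p A K) {a : G} (ha : a ∈ A) (hn : a ∉ Nm K) :
    Hc K a p := by
  have hp : p.Prime := Fact.out
  intro i j hi hj hij x hx y hy
  refine h.cc2 (A.pow_mem ha i) (A.pow_mem ha j) ?_ hx hy
  intro hmem
  apply hn
  have e : a ^ i * (a ^ j)⁻¹ = a ^ ((i : ℤ) - j) := by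
    rw [zpow_sub, zpow_natCast, zpow_natCast]
  rw [e] at hmem
  refine zpow_mem_of_not_dvd (h.exp a ha) ?_ hmem
  intro hd
  have h1 : ((i : ℤ) - j).natAbs < p := by omega
  have h2 := Int.natCast_dvd.mp hd
  have h3 := Nat.le_of_dvd (by omega) h2
  omega

end prime

/-- The conjugate of a subgroup. -/
def cj (c : G) (K : Subgroup G) : Subgroup G := K.map (MulAut.conj c).toMonoidHom

theorem mem_cj {c y : G} {K : Subgroup G} : y ∈ cj c K ↔ c⁻¹ * y * c ∈ K := by
  unfold cj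
  rw [Subgroup.mem_map]
  constructor
  · rintro ⟨x, hx, rfl⟩
    simpa [mul_assoc] using hx
  · intro h
    exact ⟨_, h, by simp [mul_assoc]⟩

theorem conj_mem_cj {c x : G} {K : Subgroup G} (hx : x ∈ K) : c * x * c⁻¹ ∈ cj c K := by
  rw [mem_cj]
  simpa [mul_assoc] using hx

theorem exists_of_mem_cj {c y : G} {K : Subgroup G} (h : y ∈ cj c K) :
    ∃ x ∈ K, y = c * x * c⁻¹ :=
  ⟨_, mem_cj.mp h, by group⟩

theorem mem_Nm_iff {K : Subgroup G} {a : G} :
    a ∈ Nm K ↔ (∀ x ∈ K, a * x * a⁻¹ ∈ K) ∧ ∀ x ∈ K, a⁻¹ * x * a ∈ K := by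
  rw [Subgroup.mem_normalizer_iff]
  constructor
  · intro h
    refine ⟨fun x hx => (h x).mp hx, fun x hx => ?_⟩
    rw [h (a⁻¹ * x * a)]
    simpa [mul_assoc] using hx
  · rintro ⟨h1, h2⟩ x
    refine ⟨h1 x, fun hx => ?_⟩
    have := h2 _ hx
    simpa [mul_assoc] using this

/-- Normalizing the conjugate. -/
theorem mem_Nm_cj {K : Subgroup G} {a c : G} (hc : a * c = c * a) (h : a ∈ Nm K) :
    a ∈ Nm (cj c K) := by
  rw [mem_Nm_iff] at h ⊢
  have hc' : a⁻¹ * c = c * a⁻¹ := by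
    have : Commute a c := hc
    exact (this.inv_left).eq
  have hc'' : a⁻¹ * c⁻¹ = c⁻¹ * a⁻¹ := by
    have : Commute a c := hc
    exact (this.inv_inv).eq
  have hc3 : a * c⁻¹ = c⁻¹ * a := by
    have : Commute a c := hc
    exact (this.inv_right).eq
  constructor
  · intro x hx
    obtain ⟨y, hy, rfl⟩ := exists_of_mem_cj hx
    have e : a * (c * y * c⁻¹) * a⁻¹ = c * (a * y * a⁻¹) * c⁻¹ := by
      calc a * (c * y * c⁻¹) * a⁻¹ = (a * c) * y * (a * c)⁻¹ := by group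
        _ = (c * a) * y * (c * a)⁻¹ := by rw [hc]
        _ = _ := by group
    rw [e]
    exact conj_mem_cj (h.1 y hy)
  · intro x hx
    obtain ⟨y, hy, rfl⟩ := exists_of_mem_cj hx
    have e : a⁻¹ * (c * y * c⁻¹) * a = c * (a⁻¹ * y * a) * c⁻¹ := by
      calc a⁻¹ * (c * y * c⁻¹) * a = (a⁻¹ * c) * y * (c⁻¹ * a) := by group
        _ = (c * a⁻¹) * y * (a * c⁻¹) := by rw [hc', hc3]
        _ = _ := by group
    rw [e]
    exact conj_mem_cj (h.2 y hy)

theorem mem_Nm_of_cj {K : Subgroup G} {a c : G} (hc : a * c = c * a) (h : a ∈ Nm (cj c K)) :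
    a ∈ Nm K := by
  have h1 : a * c⁻¹ = c⁻¹ * a := by
    have : Commute a c := hc
    exact (this.inv_right).eq
  have h2 := mem_Nm_cj h1 h
  have e : cj c⁻¹ (cj c K) = K := by
    ext x
    rw [mem_cj, mem_cj]
    simp only [inv_inv]
    have : c⁻¹ * (c * x * c⁻¹) * c = x := by group
    rw [show c⁻¹ * (c * x * c⁻¹) * c = x by group]
  rwa [e] at h2

theorem quasisimple_cj {K : Subgroup G} (h : IsQuasisimple K) (c : G) : IsQuasisimple (cj c K) :=
  quasisimple_of_mulEquiv ((MulAut.conj c).subgroupMap K) h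

theorem Orb.cj {p : ℕ} {A K : Subgroup G} (h : Orb p A K) {c : G} (hc : c ∈ A) :
    Orb p A (cj c K) := by
  refine ⟨h.comm, h.exp, quasisimple_cj h.qs c, fun d hd => ?_⟩
  have hdc : d * c = c * d := h.comm d hd c hc
  rcases h.cc d hd with h1 | h1
  · exact Or.inl (mem_Nm_cj hdc h1)
  · right
    intro x hx y hy
    obtain ⟨x', hx', rfl⟩ := exists_of_mem_cj hx
    obtain ⟨y', hy', rfl⟩ := exists_of_mem_cj hy
    have e : d * (c * y' * c⁻¹) * d⁻¹ = c * (d * y' * d⁻¹) * c⁻¹ := by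
      calc d * (c * y' * c⁻¹) * d⁻¹ = (d * c) * y' * (d * c)⁻¹ := by group
        _ = (c * d) * y' * (c * d)⁻¹ := by rw [hdc]
        _ = _ := by group
    rw [e]
    have h2 := h1 x' hx' y' hy'
    calc c * x' * c⁻¹ * (c * (d * y' * d⁻¹) * c⁻¹) = c * (x' * (d * y' * d⁻¹)) * c⁻¹ := by group
      _ = c * ((d * y' * d⁻¹) * x') * c⁻¹ := by rw [h2]
      _ = _ := by group

section data

variable {p : ℕ} [Fact p.Prime] {V : Type v} [AddCommGroup V] [Module (ZMod p) V] [Finite V]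
  (ρ : G →* Module.End (ZMod p) V)

/-- The configuration to be excluded. -/
structure Dat (A K : Subgroup G) (W : Submodule (ZMod p) V) : Prop extends Orb p A K where
  invA : ∀ c ∈ A, ∀ w ∈ W, ρ c w ∈ W
  invK : ∀ y ∈ K, ∀ w ∈ W, ρ y w ∈ W
  ntr : ∃ y ∈ K, ∃ w ∈ W, ρ y w ≠ w
  best : IsBestOn ρ W A
  moved : ∃ a ∈ A, a ∉ Nm K

/-- A minimal counterexample. -/
structure Mn (A K : Subgroup G) (W : Submodule (ZMod p) V) : Prop extends Dat ρ A K W where
  min : ∀ (A' K' : Subgroup G) (W' : Submodule (ZMod p) V), Dat ρ A' K' W' →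
    Nat.card A + Nat.card W ≤ Nat.card A' + Nat.card W'

/-- `K` abelian on `W` is trivial on `W`. -/
theorem triv_of_abelian {K : Subgroup G} (hK : ⁅K, K⁆ = K) {W : Submodule (ZMod p) V}
    (hW : ∀ y ∈ K, ∀ w ∈ W, ρ y w ∈ W)
    (h : ∀ x ∈ K, ∀ y ∈ K, ∀ w ∈ W, ρ x (ρ y w) = ρ y (ρ x w)) : ∀ y ∈ K, ∀ w ∈ W, ρ y w = w := by
  let T : Subgroup G :=
    { carrier := {x | ∀ w ∈ W, ρ x w = w}
      mul_mem' := by
        intro a b ha hb w hw
        rw [act_mul, hb w hw, ha w hw]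
      one_mem' := fun w _ => act_one ρ w
      inv_mem' := by
        intro a ha w hw
        conv_lhs => rw [← ha w hw]
        exact act_inv_act ρ a w }
  have hle : ⁅K, K⁆ ≤ T := by
    rw [Subgroup.commutator_le]
    intro x hx y hy w hw
    have hw1 : ρ y⁻¹ w ∈ W := hW _ (K.inv_mem hy) w hw
    have hw2 : ρ x⁻¹ (ρ y⁻¹ w) ∈ W := hW _ (K.inv_mem hx) _ hw1
    rw [commutatorElement_def, act_mul, act_mul, act_mul, h x hx y hy _ hw2, act_act_inv,
      act_act_inv]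
  rw [hK] at hle
  exact fun y hy w hw => hle hy w hw

variable {ρ} {A K : Subgroup G} {W : Submodule (ZMod p) V}

theorem card_lt_of_notMem [Finite G] {A' A : Subgroup G} (h : A' ≤ A) {s : G} (hs : s ∈ A)
    (hs' : s ∉ A') : Nat.card A' < Nat.card A := by
  by_contra hc
  have := Subgroup.eq_of_le_of_card_ge h (not_lt.mp hc)
  exact hs' (this ▸ hs)

theorem fix_zpowers_eq {s : G} (h : ∀ w ∈ W, ρ s w = w) : W ⊓ fix ρ (Subgroup.zpowers s) = W := by
  apply le_antisymm inf_le_left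
  intro w hw
  exact ⟨hw, (mem_fix_zpowers ρ).mpr (h w hw)⟩

/-- M1: `A` is faithful on `W`. -/
theorem Mn.faithful [Finite G] (hm : Mn ρ A K W) {s : G} (hs : s ∈ A)
    (htriv : ∀ w ∈ W, ρ s w = w) : s = 1 := by
  have hperf := commutator_self_of_quasisimple hm.qs
  by_contra hs1
  have hsinv : ∀ w ∈ W, ρ s⁻¹ w = w := by
    intro w hw
    conv_lhs => rw [← htriv w hw]
    exact act_inv_act ρ s w
  -- `s` normalizes `K`
  have hsN : s ∈ Nm K := by
    by_contra hn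
    have hc := (hm.cc s hs).resolve_left hn
    obtain ⟨y, hy, w, hw, hne⟩ := hm.ntr
    refine hne (triv_of_abelian ρ hperf hm.invK ?_ y hy w hw)
    intro x hx y hy w hw
    have e : ∀ u ∈ K, ∀ v ∈ W, ρ (s * u * s⁻¹) v = ρ u v := by
      intro u hu v hv
      rw [act_conj, hsinv v hv, htriv _ (hm.invK u hu v hv)]
    rw [← e y hy _ (hm.invK x hx w hw), ← e y hy w hw, ← act_mul, ← act_mul, hc x hx y hy]
  obtain ⟨a, ha, hna⟩ := hm.moved
  -- `s` is not a power of `a`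
  have hsa : s ∉ Subgroup.zpowers a := by
    intro hsz
    obtain ⟨i, hi⟩ := Subgroup.mem_zpowers_iff.mp hsz
    apply hna
    refine zpow_mem_of_not_dvd (hm.exp a ha) (i := i) ?_ ?_
    · rintro ⟨k, rfl⟩
      apply hs1
      rw [← hi, zpow_mul, zpow_natCast, hm.exp a ha, one_zpow]
    · rw [hi]; exact hsN
  obtain ⟨A', hDA', hA', hsA', hsup⟩ := exists_compl hm.comm hm.exp hs
    (by rwa [Subgroup.zpowers_le]) hsa
  have hbest := best_hyper ρ hm.best hm.comm hs (hm.exp s hs) hA' hsA' hsup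
  rw [fix_zpowers_eq htriv] at hbest
  have hd : Dat ρ A' K W :=
    { toOrb := hm.toOrb.mono hA'
      invA := fun c hc => hm.invA c (hA' hc)
      invK := hm.invK
      ntr := hm.ntr
      best := hbest
      moved := ⟨a, hDA' (Subgroup.mem_zpowers a), hna⟩ }
  have h1 := hm.min _ _ _ hd
  have h2 := card_lt_of_notMem hA' hs hsA'
  omega

/-- M3: `K` is trivial on proper invariant subspaces. -/
theorem Mn.sub [Finite G] (hm : Mn ρ A K W) {X : Submodule (ZMod p) V} (hXW : X ≤ W) (hne : X ≠ W)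
    (hA : ∀ c ∈ A, ∀ w ∈ X, ρ c w ∈ X) (hK : ∀ y ∈ K, ∀ w ∈ X, ρ y w ∈ X) :
    ∀ y ∈ K, ∀ x ∈ X, ρ y x = x := by
  intro y hy x hx
  by_contra hntr
  have hd : Dat ρ A K X :=
    { toOrb := hm.toOrb
      invA := hA
      invK := hK
      ntr := ⟨y, hy, x, hx, hntr⟩
      best := best_sub ρ hXW hm.best
      moved := hm.moved }
  have h1 := hm.min _ _ _ hd
  exact hne (eq_of_le_of_card_le hXW (by omega))

/-- M2: `A` is faithful on `K`. -/
theorem Mn.cent [Finite G] (hm : Mn ρ A K W) {s : G} (hs : s ∈ A)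
    (hc : ∀ y ∈ K, s * y = y * s) : s = 1 := by
  have hperf := commutator_self_of_quasisimple hm.qs
  apply hm.faithful hs
  set X := W ⊓ fix ρ (Subgroup.zpowers s) with hX
  have hXW : X ≤ W := inf_le_left
  have hXA : ∀ c ∈ A, ∀ w ∈ X, ρ c w ∈ X := by
    rintro c hc w ⟨hw1, hw2⟩
    refine ⟨hm.invA c hc w hw1, (mem_fix_zpowers ρ).mpr ?_⟩
    rw [act_comm ρ (hm.comm s hs c hc), (mem_fix_zpowers ρ).mp hw2]
  have hXK : ∀ y ∈ K, ∀ w ∈ X, ρ y w ∈ X := by
    rintro y hy w ⟨hw1, hw2⟩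
    refine ⟨hm.invK y hy w hw1, (mem_fix_zpowers ρ).mpr ?_⟩
    rw [act_comm ρ (hc y hy), (mem_fix_zpowers ρ).mp hw2]
  by_cases hXne : X = W
  · intro w hw
    rw [← hXne] at hw
    exact (mem_fix_zpowers ρ).mp hw.2
  · exfalso
    have h1 := hm.sub hXW hXne hXA hXK
    obtain ⟨y, hy, w, hw, hne⟩ := hm.ntr
    refine hne (triv_of_triv_on_fix ρ hperf hm.invK (hm.exp s hs) (hm.invA s hs) hc ?_ y hy w hw)
    intro v hv hsv z hz
    exact h1 z hz v ⟨hv, (mem_fix_zpowers ρ).mpr hsv⟩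

/-- M4: Timmesfeld replacement provides a nontrivial element of `N_A(K)` fixing `[W, A]`. -/
theorem Mn.exists_b [Finite G] (hm : Mn ρ A K W) (h0 : ∃ b ∈ A, b ∈ Nm K ∧ b ≠ 1) :
    ∃ b ∈ A, b ∈ Nm K ∧ b ≠ 1 ∧ ∀ c ∈ A, ∀ w ∈ W, ρ b (ρ c w - w) = ρ c w - w := by
  set S := stU ρ A (W : Set V) with hS
  have hSA : S ≤ A := stU_le ρ A _
  have hj := (timm_main ρ hm.comm hm.invA hm.best).1
  obtain ⟨a, ha, hna⟩ := hm.moved
  have ha1 : a ≠ 1 := fun h => hna (h ▸ Subgroup.one_mem _)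
  have hAntr : ∃ c ∈ A, ∃ w ∈ W, ρ c w ≠ w := by
    by_contra hcon
    push Not at hcon
    exact ha1 (hm.faithful ha (hcon a ha))
  obtain ⟨c, hc, w, hw, hne⟩ := timm_ntr ρ hm.comm hm.invA hm.exp hm.best hAntr
  have hc1 : c ≠ 1 := by
    rintro rfl
    exact hne (act_one ρ w)
  have hSprop : ∀ b ∈ S, ∀ d ∈ A, ∀ u ∈ W, ρ b (ρ d u - u) = ρ d u - u :=
    fun b hb d hd u hu => hb.2 d hd u hu
  by_cases hle : S ≤ Nm K
  · exact ⟨c, hSA hc, hle hc, hc1, hSprop c hc⟩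
  · -- otherwise `S = A`
    obtain ⟨a', ha', hna'⟩ := SetLike.not_le_iff_exists.mp hle
    have hd : Dat ρ S K W :=
      { toOrb := hm.toOrb.mono hSA
        invA := fun c hc => hm.invA c (hSA hc)
        invK := hm.invK
        ntr := hm.ntr
        best := fun B hB => by
          rw [hj]
          exact hm.best B (hB.trans hSA)
        moved := ⟨a', ha', hna'⟩ }
    have h1 := hm.min _ _ _ hd
    have h2 : S = A := Subgroup.eq_of_le_of_card_ge hSA (by omega)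
    obtain ⟨b, hb, hbN, hb1⟩ := h0
    refine ⟨b, hb, hbN, hb1, hSprop b (h2 ▸ hb)⟩

end data

/-- Solvability lifts through the centre. -/
theorem solvable_of_quot_center {Q : Type*} [Group Q] (h : Group.IsSolvable (Q ⧸ Subgroup.center Q)) :
    Group.IsSolvable Q := by
  haveI : Group.IsSolvable (Subgroup.center Q) := Group.isSolvable_of_comm (fun a b => by
    apply Subtype.ext
    exact Subgroup.mem_center_iff.mp b.2 a)
  exact Group.isSolvable_of_ker_le_range (Subgroup.center Q).subtype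
    (QuotientGroup.mk' (Subgroup.center Q)) (by simp)

/-- Non-central elements of order prime to `p` exist. -/
theorem exists_noncentral_coprime [Finite G] (p : ℕ) [Fact p.Prime] {K : Subgroup G}
    (hK : IsQuasisimple K) :
    ∃ z ∈ K, (¬ ∀ y ∈ K, z * y = y * z) ∧ ∃ n : ℕ, n.Coprime p ∧ z ^ n = 1 := by
  have hp : p.Prime := Fact.out
  by_contra hcon
  have hpg : IsPGroup p (K ⧸ Subgroup.center K) := by
    rw [isPGroup_iff_pow_pow_eq_one]
    intro x
    obtain ⟨g, rfl⟩ := QuotientGroup.mk'_surjective _ x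
    have hord : orderOf g ≠ 0 := (orderOf_pos g).ne'
    obtain ⟨k, m, hm, hkm⟩ := Nat.exists_eq_pow_mul_and_not_dvd hord p hp.ne_one
    refine ⟨k, ?_⟩
    rw [← map_pow, QuotientGroup.mk'_apply, QuotientGroup.eq_one_iff, Subgroup.mem_center_iff]
    intro y
    have hgm : ((g : G) ^ p ^ k) ^ m = 1 := by
      rw [← pow_mul, ← Subgroup.coe_pow, ← hkm, pow_orderOf_eq_one]
      rfl
    have hcop : m.Coprime p := ((Nat.Prime.coprime_iff_not_dvd hp).mpr hm).symm
    by_contra hne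
    apply hcon
    refine ⟨(g : G) ^ p ^ k, K.pow_mem g.2 _, ?_, m, hcop, hgm⟩
    intro hall
    apply hne
    apply Subtype.ext
    exact (hall y y.2).symm
  haveI : Group.IsNilpotent (K ⧸ Subgroup.center K) := hpg.isNilpotent
  exact quasisimple_not_solvable hK (solvable_of_quot_center inferInstance)

end Cfsg.Agent.Lib.PGV.Data
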