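import Cfsg.Agent.Lib.PGV.CaseII
import Cfsg.Agent.Lib.PGV.BS

/-!
# The P(G,V) theorem: the final case, `p = 2` and two conjugates
-/

set_option autoImplicit false
set_option linter.unusedSectionVars false
set_option linter.unusedSimpArgs false
set_option linter.style.haveILetI false

open scoped commutatorElement

namespace Cfsg.Agent.Lib.PGV.Final

open Cfsg.Agent.Lib.QuadAct.FFBasic Cfsg.Agent.Lib.PGV.Basic Cfsg.Agent.Lib.PGV.Best
open Cfsg.Agent.Lib.PGV.HH Cfsg.Agent.Lib.PGV.Timm Cfsg.Agent.Lib.PGV.Data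
open Cfsg.Agent.Lib.PGV.Quad Cfsg.Agent.Lib.PGV.CaseI Cfsg.Agent.Lib.PGV.CaseII
open Cfsg.Agent.Lib.PGV.BS
open Cfsg.Agent.Lib.Components.Basic

universe u v

variable {G : Type u} [Group G] {V : Type v} [AddCommGroup V] [Module (ZMod 2) V] [Finite V]
  {ρ : G →* Module.End (ZMod 2) V}

theorem ch2 (x : V) : x + x = 0 := by
  rw [← two_smul (ZMod 2) x]
  have : (2 : ZMod 2) = 0 := rfl
  rw [this, zero_smul]

theorem sub_eq_add2 (x y : V) : x - y = x + y := by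
  rw [sub_eq_iff_eq_add, add_assoc, ch2, add_zero]

theorem hh2 (a y : G) : hh a y 2 = y * (a * y * a⁻¹) := by
  simp [hh_succ]

theorem pow_inv_W {W : Submodule (ZMod 2) V} {g : G} (h : ∀ x ∈ W, ρ g x ∈ W) (k : ℕ) :
    ∀ x ∈ W, ρ (g ^ k) x ∈ W := by
  induction k with
  | zero => intro x hx; simpa using hx
  | succ k ih =>
    intro x hx
    rw [pow_succ, act_mul]
    exact ih _ (h x hx)

/-- Freeness: an involution inverting a fixed-point-free element of odd order. -/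
theorem free_two {b ν : G} {X : Submodule (ZMod 2) V} (hbν : b * ν * b⁻¹ = ν⁻¹) {m : ℕ}
    (hν : ν ^ (2 * m + 1) = 1) (hXν : ∀ x ∈ X, ρ ν x ∈ X) (hfp : ∀ x ∈ X, ρ ν x = x → x = 0) :
    ∀ v ∈ X, ρ b v = v → ∃ t ∈ X, v = ρ b t - t := by
  have hXp := pow_inv_W hXν
  have hinv : ν⁻¹ = ν ^ (2 * m) := by
    rw [pow_succ] at hν
    exact (eq_inv_of_mul_eq_one_left hν).symm
  have hXνi : ∀ x ∈ X, ρ ν⁻¹ x ∈ X := by
    intro x hx
    rw [hinv]
    exact hXp _ x hx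
  have hXpi := pow_inv_W hXνi
  -- the operators
  let TT : ℕ → V → V := fun k x => ∑ i ∈ Finset.range k, ρ (ν ^ (i + 1)) x
  let TT' : ℕ → V → V := fun k x => ∑ i ∈ Finset.range k, ρ (ν⁻¹ ^ (i + 1)) x
  have hA : ∀ k x, ρ (ν ^ k) (x + TT k x + TT' k x) = ∑ i ∈ Finset.range (2 * k + 1), ρ (ν ^ i) x := by
    intro k x
    induction k with
    | zero => simp [TT, TT']
    | succ k ih =>
      have e1 : TT (k + 1) x = TT k x + ρ (ν ^ (k + 1)) x := Finset.sum_range_succ _ _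
      have e2 : TT' (k + 1) x = TT' k x + ρ (ν⁻¹ ^ (k + 1)) x := Finset.sum_range_succ _ _
      have e3 : ∑ i ∈ Finset.range (2 * (k + 1) + 1), ρ (ν ^ i) x =
          ρ ν (∑ i ∈ Finset.range (2 * k + 1), ρ (ν ^ i) x) + ρ (ν ^ (2 * k + 2)) x + x := by
        have e4 : 2 * (k + 1) + 1 = (2 * k + 2) + 1 := by ring
        rw [e4, Finset.sum_range_succ, Finset.sum_range_succ', map_sum]
        have e5 : ∀ i, ρ (ν ^ (i + 1)) x = ρ ν (ρ (ν ^ i) x) := by
          intro i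
          rw [pow_succ', act_mul]
        simp only [e5, pow_zero, act_one]
        abel
      rw [e3, ← ih, e1, e2, ← act_mul, ← pow_succ', map_add, map_add, map_add, map_add]
      have e6 : ρ (ν ^ (k + 1)) (ρ (ν ^ (k + 1)) x) = ρ (ν ^ (2 * k + 2)) x := by
        rw [← act_mul, ← pow_add]
        congr 3
        ring
      have e7 : ρ (ν ^ (k + 1)) (ρ (ν⁻¹ ^ (k + 1)) x) = x := by
        rw [← act_mul, inv_pow, mul_inv_cancel, act_one]
      rw [e6, e7, map_add, map_add]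
      abel
  have hS : ∀ x ∈ X, x + TT m x + TT' m x = 0 := by
    intro x hx
    have hmem : ∑ i ∈ Finset.range (2 * m + 1), ρ (ν ^ i) x ∈ X :=
      X.sum_mem (fun i _ => hXp i x hx)
    have hfix : ρ ν (∑ i ∈ Finset.range (2 * m + 1), ρ (ν ^ i) x) =
        ∑ i ∈ Finset.range (2 * m + 1), ρ (ν ^ i) x := by
      have e5 : ∀ i, ρ ν (ρ (ν ^ i) x) = ρ (ν ^ (i + 1)) x := by
        intro i
        rw [pow_succ', act_mul]
      rw [map_sum]
      simp only [e5]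
      have h1 := Finset.sum_range_succ (fun i => ρ (ν ^ i) x) (2 * m + 1)
      have h2 := Finset.sum_range_succ' (fun i => ρ (ν ^ i) x) (2 * m + 1)
      rw [h1] at h2
      simp only [hν, pow_zero, act_one] at h2
      exact (add_right_cancel h2).symm
    have h0 := hfp _ hmem hfix
    rw [← hA m x] at h0
    have h1 := congrArg (ρ (ν ^ m)⁻¹) h0
    rwa [act_inv_act, map_zero] at h1
  intro v hv hbv
  refine ⟨TT m v, X.sum_mem (fun i _ => hXp _ v hv), ?_⟩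
  have hC : ρ b (TT m v) = TT' m v := by
    show ρ b (∑ i ∈ Finset.range m, ρ (ν ^ (i + 1)) v) = ∑ i ∈ Finset.range m, ρ (ν⁻¹ ^ (i + 1)) v
    rw [map_sum]
    refine Finset.sum_congr rfl (fun i _ => ?_)
    have e1 : b * ν ^ (i + 1) * b⁻¹ = ν⁻¹ ^ (i + 1) := by
      rw [← conj_pow, hbν]
    rw [← e1, act_conj, ← hbv, act_inv_act, hbv]
  rw [hC, sub_eq_add2]
  have h1 := hS v hv
  have h2 : v + TT m v + TT' m v + (TT' m v + TT m v) = TT' m v + TT m v := by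
    rw [h1, zero_add]
  have h3 : v + TT m v + TT' m v + (TT' m v + TT m v) =
      v + (TT m v + TT m v) + (TT' m v + TT' m v) := by abel
  rw [h3, ch2, ch2, add_zero, add_zero] at h2
  exact h2

/-- `g⁻¹` has the same commutator space as `g`. -/
theorem inv_sub_mem {W : Submodule (ZMod 2) V} {g : G} (hW : ∀ x ∈ W, ρ g⁻¹ x ∈ W) {u : V}
    (hu : u ∈ W) : ρ g⁻¹ u - u ∈ W.map (ρ g - 1) := by
  refine ⟨ρ g⁻¹ u, hW u hu, ?_⟩
  show ρ g (ρ g⁻¹ u) - ρ g⁻¹ u = _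
  rw [act_act_inv, sub_eq_add2, sub_eq_add2, add_comm]

/-- Conjugates act on commutator spaces. -/
theorem conj_sub_mem {W : Submodule (ZMod 2) V} {c g g' : G} (hc : c * g * c⁻¹ = g')
    (hcW : ∀ x ∈ W, ρ c x ∈ W) {u : V} (hu : u ∈ W) :
    ρ c (ρ g u - u) = ρ g' (ρ c u) - ρ c u := by
  rw [← hc, map_sub, act_conj, act_inv_act]

/-- The half lemma. -/
theorem half {W : Submodule (ZMod 2) V} {c z z' : G} (hcz : z * z' = z' * z)
    (h1 : c * z * c⁻¹ = z') (h2 : c * z' * c⁻¹ = z) (hzW : ∀ w ∈ W, ρ z⁻¹ w ∈ W)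
    (hP : ∀ w ∈ W, ρ (z * z') (ρ c w - w) = ρ c w - w) :
    (∀ w ∈ W, ρ c (ρ (z * z') w - w) = ρ (z * z') w - w) ∧
      (∀ w ∈ W, ρ (z * z'⁻¹) (ρ (z * z') w - w) = ρ (z * z') w - w) ∧
      (∀ w ∈ W, ρ (z * z') (ρ (z * z'⁻¹) w - w) = ρ (z * z'⁻¹) w - w) := by
  have hcν : (z * z') * c = c * (z * z') := by
    have e1 : c * z = z' * c := mul_inv_eq_iff_eq_mul.mp h1
    have e2 : c * z' = z * c := mul_inv_eq_iff_eq_mul.mp h2
    calc (z * z') * c = (z' * z) * c := by rw [hcz]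
      _ = z' * (z * c) := by group
      _ = z' * (c * z') := by rw [e2]
      _ = (z' * c) * z' := by group
      _ = (c * z) * z' := by rw [e1]
      _ = _ := by group
  have h3 : ∀ w ∈ W, ρ c (ρ (z * z') w - w) = ρ (z * z') w - w := comm_fix hcν hP
  have e : c * z⁻¹ * c⁻¹ = z'⁻¹ := by
    rw [← h1]; group
  have h4 : ∀ w ∈ W, ρ (z * z'⁻¹) (ρ (z * z') w - w) = ρ (z * z') w - w := by
    have hgz : (z * z') * z = z * (z * z') :=
      ((Commute.refl z).mul_left (show Commute z z' from hcz).symm).eq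
    have := comm_elt_fix (ρ := ρ) (W := W) (g := z * z') (s := c) (z := z) hgz hzW h3
    rwa [e] at this
  have hcm : (z * z'⁻¹) * (z * z') = (z * z') * (z * z'⁻¹) := by
    have c1 : Commute z z' := hcz
    have c2 : Commute z (z'⁻¹) := c1.inv_right
    have c3 : Commute (z * z'⁻¹) z := ((Commute.refl z).mul_left c2.symm)
    have c4 : Commute (z * z'⁻¹) z' := (c1.mul_left (Commute.refl z').inv_left)
    exact c3.mul_right c4
  exact ⟨h3, h4, comm_fix hcm h4⟩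

/-- Decomposition along `ν`, respecting an element commuting with `ν`. -/
theorem dec {W : Submodule (ZMod 2) V} {g ν : G} {n : ℕ} (hn : n.Coprime 2) (hν : ν ^ n = 1)
    (hνW : ∀ w ∈ W, ρ ν w ∈ W) (hgν : g * ν = ν * g) {w : V} (hw : w ∈ W) (hgw : ρ g w = w) :
    ∃ m ∈ W, ∃ u ∈ W, w = m + (ρ ν u - u) ∧ ρ ν m = m ∧ ρ g m = m ∧ ρ g (ρ ν u - u) = ρ ν u - u := by
  obtain ⟨m, hm, u, hu, hνm, hwm⟩ := cop_sum ρ hν hn hνW hw
  refine ⟨m, hm, u, hu, hwm, hνm, ?_⟩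
  have ht : ρ g m - m = (ρ ν u - u) - ρ g (ρ ν u - u) := by
    have h1 : ρ g m + ρ g (ρ ν u - u) = m + (ρ ν u - u) := by
      rw [← map_add, ← hwm, hgw, hwm]
    have h2 : ρ g m = m + (ρ ν u - u) - ρ g (ρ ν u - u) := eq_sub_of_add_eq h1
    rw [h2]; abel
  have h3 : ρ g m - m = ρ ν (u - ρ g u) - (u - ρ g u) := by
    rw [ht]
    simp only [map_sub]
    rw [act_comm ρ hgν]
    abel
  have h4 : ρ ν (ρ ν (u - ρ g u) - (u - ρ g u)) = ρ ν (u - ρ g u) - (u - ρ g u) := by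
    rw [← h3, map_sub, ← act_comm ρ hgν, hνm]
  have h5 := cop_disj ρ hν hn h4
  have h6 : ρ g m = m := by
    have : ρ g m - m = 0 := by rw [h3, h5, sub_self]
    exact sub_eq_zero.mp this
  refine ⟨h6, ?_⟩
  rw [h6, sub_self] at ht
  exact (sub_eq_zero.mp ht.symm).symm

section main

variable {A K : Subgroup G} {W : Submodule (ZMod 2) V}

/-- `ρ` of `x⁻¹` fixes what `x` fixes. -/
theorem inv_fix {x : G} {v : V} (h : ρ x v = v) : ρ x⁻¹ v = v := by
  conv_lhs => rw [← h]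
  exact act_inv_act ρ x v

/-- Property P for all elements moving `K`, in the case `p = 2`. -/
def P2 (ρ : G →* Module.End (ZMod 2) V) (A K : Subgroup G) (W : Submodule (ZMod 2) V) : Prop :=
  ∀ c ∈ A, c ∉ Nm K → ∀ y ∈ K, ∀ w ∈ W, ρ (y * (c * y * c⁻¹)) (ρ c w - w) = ρ c w - w

theorem sq_one (h : Orb 2 A K) {c : G} (hc : c ∈ A) : c * c = 1 := by
  rw [← pow_two]; exact h.exp c hc

theorem inv_eq_self (h : Orb 2 A K) {c : G} (hc : c ∈ A) : c⁻¹ = c :=
  inv_eq_of_mul_eq_one_left (sq_one h hc)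

theorem conj_conj_two (h : Orb 2 A K) {c : G} (hc : c ∈ A) (z : G) :
    c * (c * z * c⁻¹) * c⁻¹ = z := by
  rw [inv_eq_self h hc]
  calc c * (c * z * c) * c = (c * c) * z * (c * c) := by group
    _ = z := by rw [sq_one h hc]; group

theorem W_conj (hA : ∀ c ∈ A, ∀ w ∈ W, ρ c w ∈ W) (hK : ∀ y ∈ K, ∀ w ∈ W, ρ y w ∈ W) {c y : G}
    (hc : c ∈ A) (hy : y ∈ K) : ∀ w ∈ W, ρ (c * y * c⁻¹) w ∈ W := by
  intro w hw
  rw [act_conj]
  exact hA c hc _ (hK y hy _ (hA _ (A.inv_mem hc) w hw))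

/-- Non-central elements of odd order are fixed-point-free. -/
theorem fpf [Finite G] (hm : Mn ρ A K W) (hP : P2 ρ A K W) {a : G} (ha : a ∈ A) (hna : a ∉ Nm K)
    (hr : ∀ c ∈ A, c ∉ Nm K → c * a⁻¹ ∈ Nm K) {z : G} (hz : z ∈ K)
    (hzc : ¬ ∀ y ∈ K, z * y = y * z) {n : ℕ} (hn : n.Coprime 2) (hzn : z ^ n = 1) :
    ∀ x ∈ W, ρ z x = x → x = 0 := by
  have hperf := commutator_self_of_quasisimple hm.qs
  have ha2 := sq_one hm.toOrb ha
  have hcc := (hm.cc a ha).resolve_left hna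
  set z' := a * z * a⁻¹ with hz'
  have hzz' : z * z' = z' * z := hcc z hz z hz
  have h1 : a * z * a⁻¹ = z' := rfl
  have h2 : a * z' * a⁻¹ = z := conj_conj_two hm.toOrb ha z
  have hzW : ∀ w ∈ W, ρ z w ∈ W := hm.invK z hz
  have hziW : ∀ w ∈ W, ρ z⁻¹ w ∈ W := hm.invK _ (K.inv_mem hz)
  have hz'W : ∀ w ∈ W, ρ z' w ∈ W := W_conj hm.invA hm.invK ha hz
  obtain ⟨h3, h4, h5⟩ := half hzz' h1 h2 hziW (hP a ha hna z hz)
  have hνW : ∀ w ∈ W, ρ (z * z') w ∈ W := by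
    intro w hw
    rw [act_mul]
    exact hzW _ (hz'W w hw)
  have hz'n : z' ^ n = 1 := by
    rw [hz', conj_pow, hzn]; group
  have hνn : (z * z') ^ n = 1 := by
    rw [(show Commute z z' from hzz').mul_pow, hzn, hz'n, one_mul]
  have hzν : z * (z * z') = (z * z') * z :=
    ((Commute.refl z).mul_left (show Commute z z' from hzz').symm).eq.symm
  have hz'ν : z' * (z * z') = (z * z') * z' :=
    ((show Commute z z' from hzz').symm.mul_right (Commute.refl z')).eq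
  -- fixed points of `z` and `z'`
  have hto : ∀ w ∈ W, ρ z w = w → ρ z' w = w := by
    intro w hw hfix
    obtain ⟨m, hm', u, hu, rfl, hνm, hgm, hgx⟩ := dec hn hνn hνW hzν hw hfix
    rw [map_add]
    congr 1
    · have := hνm
      rw [act_mul, act_comm ρ hzz', hgm] at this
      rw [act_mul, act_comm ρ hzz'] at hνm
      exact this
    · have e := h4 u hu
      rw [act_mul, act_comm ρ (show Commute z z'⁻¹ from (show Commute z z' from hzz').inv_right).eq,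
        hgx] at e
      have e2 := congrArg (ρ z') e
      rw [act_act_inv] at e2
      exact e2.symm
  have hfrom : ∀ w ∈ W, ρ z' w = w → ρ z w = w := by
    intro w hw hfix
    obtain ⟨m, hm', u, hu, rfl, hνm, hgm, hgx⟩ := dec hn hνn hνW hz'ν hw hfix
    rw [map_add]
    congr 1
    · have := hνm
      rw [act_mul, hgm] at this
      exact this
    · have e := h4 u hu
      rw [act_mul, inv_fix hgx] at e
      exact e
  -- `K` and `K'` are trivial on these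
  have hXK : ∀ y ∈ K, ∀ x ∈ W ⊓ LinearMap.ker (ρ z - 1), ρ y x ∈ W ⊓ LinearMap.ker (ρ z - 1) := by
    rintro y hy x ⟨hx, hxk⟩
    have hxz : ρ z x = x := by
      have : (ρ z - 1) x = 0 := hxk
      simpa [sub_eq_zero] using this
    refine ⟨hm.invK y hy x hx, ?_⟩
    show (ρ z - 1) (ρ y x) = 0
    simp only [LinearMap.sub_apply, Module.End.one_apply, sub_eq_zero]
    apply hfrom _ (hm.invK y hy x hx)
    have hyz' : y * z' = z' * y := hcc y hy z hz
    rw [← act_comm ρ hyz', hto x hx hxz]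
  have hmemX : ∀ x, x ∈ W → ρ z x = x → x ∈ W ⊓ LinearMap.ker (ρ z - 1) := by
    intro x hx hxz
    refine ⟨hx, ?_⟩
    show (ρ z - 1) x = 0
    simp [hxz]
  have htrK : ∀ y ∈ K, ∀ x ∈ W, ρ z x = x → ρ y x = x := by
    intro y hy x hx hxz
    refine triv_of_noncentral_triv ρ hm.qs hXK hz hzc ?_ y hy x (hmemX x hx hxz)
    rintro w ⟨-, hwk⟩
    have : (ρ z - 1) w = 0 := hwk
    simpa [sub_eq_zero] using this
  have hz'K' : z' ∈ cj a K := conj_mem_cj hz
  have hcK' : ∀ y ∈ cj a K, y * z = z * y := by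
    intro y hy
    obtain ⟨x, hx, rfl⟩ := exists_of_mem_cj hy
    exact (hcc z hz x hx).symm
  have hK'W : ∀ y ∈ cj a K, ∀ w ∈ W, ρ y w ∈ W := by
    intro y hy
    obtain ⟨x, hx, rfl⟩ := exists_of_mem_cj hy
    exact W_conj hm.invA hm.invK ha hx
  have hXK' : ∀ y ∈ cj a K, ∀ x ∈ W ⊓ LinearMap.ker (ρ z - 1), ρ y x ∈ W ⊓ LinearMap.ker (ρ z - 1) := by
    rintro y hy x ⟨hx, hxk⟩
    have hxz : ρ z x = x := by
      have : (ρ z - 1) x = 0 := hxk
      simpa [sub_eq_zero] using this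
    refine hmemX _ (hK'W y hy x hx) ?_
    rw [← act_comm ρ (hcK' y hy), hxz]
  have htrK' : ∀ y ∈ cj a K, ∀ x ∈ W, ρ z x = x → ρ y x = x := by
    intro y hy x hx hxz
    refine triv_of_noncentral_triv ρ (quasisimple_cj hm.qs a) hXK' hz'K' (noncentral_cj hzc) ?_
      y hy x (hmemX x hx hxz)
    rintro w ⟨hw, hwk⟩
    have : (ρ z - 1) w = 0 := hwk
    exact hto w hw (by simpa [sub_eq_zero] using this)
  -- commutator spaces
  have hz'n' := hz'n
  have hYK : ∀ y ∈ K, ∀ w ∈ W, ρ y w - w ∈ W.map (ρ z' - 1) := by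
    intro y hy w hw
    obtain ⟨m, hm', u, hu, hm2, hwm⟩ := cop_sum ρ hz'n hn hz'W hw
    have hmy : ρ y m = m := htrK y hy m hm' (hfrom m hm' hm2)
    have hyz' : y * z' = z' * y := hcc y hy z hz
    refine ⟨ρ y u - u, W.sub_mem (hm.invK y hy u hu) hu, ?_⟩
    show ρ z' (ρ y u - u) - (ρ y u - u) = _
    rw [hwm, map_add, hmy, map_sub, map_sub, act_comm ρ hyz']
    abel
  have hYK' : ∀ y ∈ cj a K, ∀ w ∈ W, ρ y w - w ∈ W.map (ρ z - 1) := by
    intro y hy w hw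
    obtain ⟨m, hm', u, hu, hm2, hwm⟩ := cop_sum ρ hzn hn hzW hw
    have hmy : ρ y m = m := htrK' y hy m hm' hm2
    refine ⟨ρ y u - u, W.sub_mem (hK'W y hy u hu) hu, ?_⟩
    show ρ z (ρ y u - u) - (ρ y u - u) = _
    rw [hwm, map_add, hmy, map_sub, map_sub, act_comm ρ (hcK' y hy)]
    abel
  have hIeq : W.map (ρ z - 1) = W.map (ρ z' - 1) := by
    apply le_antisymm
    · rintro _ ⟨u, hu, rfl⟩
      exact hYK z hz u hu
    · rintro _ ⟨u, hu, rfl⟩
      exact hYK' z' hz'K' u hu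
  set I := W.map (ρ z - 1) with hI
  have hIW : I ≤ W := by
    rintro _ ⟨u, hu, rfl⟩
    exact W.sub_mem (hzW u hu) hu
  have hIA : ∀ c ∈ A, ∀ x ∈ I, ρ c x ∈ I := by
    rintro c hc _ ⟨u, hu, rfl⟩
    show ρ c (ρ z u - u) ∈ I
    rw [conj_sub_mem rfl (hm.invA c hc) hu]
    by_cases hcN : c ∈ Nm K
    · rw [hIeq]
      exact hYK _ ((mem_Nm_iff.mp hcN).1 z hz) _ (hm.invA c hc u hu)
    · refine hYK' _ ?_ _ (hm.invA c hc u hu)
      rw [mem_cj]
      have h6 := hr c hc hcN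
      have e : a⁻¹ * (c * z * c⁻¹) * a = (c * a⁻¹) * z * (c * a⁻¹)⁻¹ := by
        have h7 : c * a⁻¹ = a⁻¹ * c := hm.comm c hc _ (A.inv_mem ha)
        rw [h7]; group
      rw [e]
      exact (mem_Nm_iff.mp h6).1 z hz
  have hIK : ∀ y ∈ K, ∀ x ∈ I, ρ y x ∈ I := by
    intro y hy x hx
    rw [hIeq] at hx ⊢
    obtain ⟨u, hu, rfl⟩ := hx
    have hyz' : y * z' = z' * y := hcc y hy z hz
    refine ⟨ρ y u, hm.invK y hy u hu, ?_⟩
    show ρ z' (ρ y u) - ρ y u = ρ y (ρ z' u - u)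
    rw [map_sub, act_comm ρ hyz']
  have hItop : I = W := by
    by_contra hne
    have htr := hm.sub hIW hne hIA hIK
    obtain ⟨y, hy, w, hw, hw'⟩ := hm.ntr
    apply hw'
    refine fix_of_two_step ρ hperf ?_ y hy
    intro x hx y' hy'
    refine htr x hx _ ?_
    rw [hIeq]
    exact hYK y' hy' w hw
  -- conclude
  have hcard := card_eq_ker_mul_map (ρ z - 1) W
  rw [← hI, hItop] at hcard
  have hpos : 0 < Nat.card W := Nat.card_pos
  have h1' : Nat.card ↥(W ⊓ LinearMap.ker (ρ z - 1)) = 1 := by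
    have : Nat.card W * 1 = Nat.card W * Nat.card ↥(W ⊓ LinearMap.ker (ρ z - 1)) := by
      rw [mul_one, mul_comm]
      exact hcard
    exact (Nat.eq_of_mul_eq_mul_left hpos this).symm
  intro x hx hxz
  haveI : Subsingleton ↥(W ⊓ LinearMap.ker (ρ z - 1)) :=
    Finite.card_le_one_iff_subsingleton.mp h1'.le
  have : (⟨x, hmemX x hx hxz⟩ : ↥(W ⊓ LinearMap.ker (ρ z - 1))) = 0 := Subsingleton.elim _ _
  exact congrArg Subtype.val this


/-- The structure of `W` given an element of `N_A(K)` inverting `z`. -/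
theorem split [Finite G] (hm : Mn ρ A K W) (hP : P2 ρ A K W) {a : G} (ha : a ∈ A) (hna : a ∉ Nm K)
    (hr : ∀ c ∈ A, c ∉ Nm K → c * a⁻¹ ∈ Nm K) {b : G} (hb : b ∈ A) (hbN : b ∈ Nm K) {z : G}
    (hz : z ∈ K) (hzc : ¬ ∀ y ∈ K, z * y = y * z) {n : ℕ} (hn : n.Coprime 2) (hzn : z ^ n = 1)
    (hbz : b * z * b⁻¹ = z⁻¹) :
    (∀ w ∈ W, ρ b (ρ a w - w) = ρ a w - w) ∧
      (∀ w ∈ W, ∀ w' ∈ W, ρ a w - w = ρ (a * b) w' - w' → ρ a w - w = 0) ∧
      (∀ v ∈ W, ρ a v = v → ρ b v = v → ∃ t ∈ W, v = (ρ a t - t) + (ρ (a * b) t - t)) ∧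
      (∃ f ∈ W, ρ a f = f ∧ ρ b f ≠ f) := by
  have hO := hm.toOrb
  have hainv := inv_eq_self hO ha
  have hbinv := inv_eq_self hO hb
  have hab : a * b = b * a := hm.comm a ha b hb
  have hcc := (hm.cc a ha).resolve_left hna
  have hfp := fpf hm hP ha hna hr hz hzc hn hzn
  set z' := a * z * a⁻¹ with hz'
  have hzz' : z * z' = z' * z := hcc z hz z hz
  have c0 : Commute z z' := hzz'
  have h1 : a * z * a⁻¹ = z' := rfl
  have h2 : a * z' * a⁻¹ = z := conj_conj_two hO ha z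
  have ha'A : a * b ∈ A := A.mul_mem ha hb
  have hna' : a * b ∉ Nm K := by
    intro h
    apply hna
    have : a = (a * b) * b⁻¹ := by group
    rw [this]
    exact (Nm K).mul_mem h ((Nm K).inv_mem hbN)
  have h1' : (a * b) * z * (a * b)⁻¹ = z'⁻¹ := by
    have e : (a * b) * z * (a * b)⁻¹ = a * (b * z * b⁻¹) * a⁻¹ := by group
    rw [e, hbz, hz']; group
  have h2' : (a * b) * z'⁻¹ * (a * b)⁻¹ = z := by
    rw [← h1']
    exact conj_conj_two hO ha'A z
  have hbz' : b * z' * b⁻¹ = z'⁻¹ := by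
    have e : b * z' * b⁻¹ = (b * a) * z * (b * a)⁻¹ := by rw [hz']; group
    rw [e, ← hab, h1']
  have hzW : ∀ w ∈ W, ρ z w ∈ W := hm.invK z hz
  have hziW : ∀ w ∈ W, ρ z⁻¹ w ∈ W := hm.invK _ (K.inv_mem hz)
  have hz'W : ∀ w ∈ W, ρ z' w ∈ W := W_conj hm.invA hm.invK ha hz
  have hz'iW : ∀ w ∈ W, ρ z'⁻¹ w ∈ W := W_conj hm.invA hm.invK ha (K.inv_mem hz) |> fun h => by
    have e : z'⁻¹ = a * z⁻¹ * a⁻¹ := by rw [hz']; group
    rw [e]; exact h
  have hPa : ∀ w ∈ W, ρ (z * z') (ρ a w - w) = ρ a w - w := hP a ha hna z hz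
  have hPa' : ∀ w ∈ W, ρ (z * z'⁻¹) (ρ (a * b) w - w) = ρ (a * b) w - w := by
    have := hP (a * b) ha'A hna' z hz
    rwa [h1'] at this
  obtain ⟨h3, h4, h5⟩ := half hzz' h1 h2 hziW hPa
  obtain ⟨h3', -, -⟩ := half c0.inv_right.eq h1' h2' hziW hPa'
  set ν := z * z' with hν
  set η := z * z'⁻¹ with hη
  have hνη : ν * η = η * ν := by
    have c1 : Commute z (z'⁻¹) := c0.inv_right
    have c3 : Commute ν z := (Commute.refl z).mul_left c0.symm
    have c4 : Commute ν z'⁻¹ := c1.mul_left (Commute.refl z').inv_right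
    exact c3.mul_right c4
  have hνW : ∀ w ∈ W, ρ ν w ∈ W := fun w hw => by
    rw [hν, act_mul]; exact hzW _ (hz'W w hw)
  have hηW : ∀ w ∈ W, ρ η w ∈ W := fun w hw => by
    rw [hη, act_mul]; exact hzW _ (hz'iW w hw)
  have hz'n : z' ^ n = 1 := by
    rw [hz', conj_pow, hzn]; group
  have hνn : ν ^ n = 1 := by
    rw [hν, c0.mul_pow, hzn, hz'n, one_mul]
  have hηn : η ^ n = 1 := by
    rw [hη, c0.inv_right.mul_pow, hzn, inv_pow, hz'n, one_mul, inv_one]
  -- conjugation formulas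
  have hbν : b * ν * b⁻¹ = ν⁻¹ := by
    have e : b * ν * b⁻¹ = (b * z * b⁻¹) * (b * z' * b⁻¹) := by rw [hν]; group
    rw [e, hbz, hbz', hν, show (z * z')⁻¹ = z'⁻¹ * z⁻¹ from mul_inv_rev z z']
    exact c0.inv_inv.eq
  have haη : a * η * a⁻¹ = η⁻¹ := by
    have e : a * η * a⁻¹ = (a * z * a⁻¹) * (a * z' * a⁻¹)⁻¹ := by rw [hη]; group
    rw [e, h1, h2, hη]; group
  have hbη : b * η * b⁻¹ = η⁻¹ := by
    have e : b * η * b⁻¹ = (b * z * b⁻¹) * (b * z' * b⁻¹)⁻¹ := by rw [hη]; group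
    rw [e, hbz, hbz', hη, inv_inv, mul_inv_rev, inv_inv]
    exact c0.inv_left.eq
  have ha'ν : (a * b) * ν * (a * b)⁻¹ = ν⁻¹ := by
    have e : (a * b) * ν * (a * b)⁻¹ = a * (b * ν * b⁻¹) * a⁻¹ := by group
    rw [e, hbν]
    have e2 : a * ν⁻¹ * a⁻¹ = (a * ν * a⁻¹)⁻¹ := by group
    have e3 : a * ν * a⁻¹ = ν := by
      have e4 : a * ν * a⁻¹ = (a * z * a⁻¹) * (a * z' * a⁻¹) := by rw [hν]; group
      rw [e4, h1, h2, hν]
      exact c0.symm.eq
    rw [e2, e3]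
  -- the two spaces
  set Vp := W.map (ρ ν - 1) with hVp
  set Vm := W.map (ρ η - 1) with hVm
  have memp : ∀ u ∈ W, ρ ν u - u ∈ Vp := fun u hu => ⟨u, hu, rfl⟩
  have memm : ∀ u ∈ W, ρ η u - u ∈ Vm := fun u hu => ⟨u, hu, rfl⟩
  have hVpW : Vp ≤ W := by
    rintro _ ⟨u, hu, rfl⟩
    exact W.sub_mem (hνW u hu) hu
  have hVmW : Vm ≤ W := by
    rintro _ ⟨u, hu, rfl⟩
    exact W.sub_mem (hηW u hu) hu
  have haVp : ∀ x ∈ Vp, ρ a x = x := by
    rintro _ ⟨u, hu, rfl⟩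
    exact h3 u hu
  have ha'Vm : ∀ x ∈ Vm, ρ (a * b) x = x := by
    rintro _ ⟨u, hu, rfl⟩
    exact h3' u hu
  have hηVp : ∀ x ∈ Vp, ρ η x = x := by
    rintro _ ⟨u, hu, rfl⟩
    exact h4 u hu
  have hgen : ∀ {c g g' : G}, c * g * c⁻¹ = g'⁻¹ → c ∈ A → ∀ (hg' : ∀ w ∈ W, ρ g'⁻¹ w ∈ W),
      g' = g → ∀ x ∈ W.map (ρ g - 1), ρ c x ∈ W.map (ρ g - 1) := by
    rintro c g g' hc hcA hg' rfl _ ⟨u, hu, rfl⟩
    show ρ c (ρ g' u - u) ∈ _
    rw [conj_sub_mem hc (hm.invA c hcA) hu]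
    exact inv_sub_mem hg' (hm.invA c hcA u hu)
  have hνiW : ∀ w ∈ W, ρ ν⁻¹ w ∈ W := by
    intro w hw
    have e : ν⁻¹ = z'⁻¹ * z⁻¹ := by rw [hν]; group
    rw [e, act_mul]
    exact hz'iW _ (hziW w hw)
  have hηiW : ∀ w ∈ W, ρ η⁻¹ w ∈ W := by
    intro w hw
    have e : η⁻¹ = z' * z⁻¹ := by rw [hη]; group
    rw [e, act_mul]
    exact hz'W _ (hziW w hw)
  have haVm : ∀ x ∈ Vm, ρ a x ∈ Vm := hgen haη ha hηiW rfl
  have hbVm : ∀ x ∈ Vm, ρ b x ∈ Vm := hgen hbη hb hηiW rfl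
  have hbVp : ∀ x ∈ Vp, ρ b x ∈ Vp := hgen hbν hb hνiW rfl
  have ha'Vp : ∀ x ∈ Vp, ρ (a * b) x ∈ Vp := hgen ha'ν ha'A hνiW rfl
  have hbVm' : ∀ d ∈ Vm, ρ b d = ρ a d := by
    intro d hd
    have e := ha'Vm d hd
    rw [act_mul] at e
    have e2 := congrArg (ρ a⁻¹) e
    rw [act_inv_act, hainv] at e2
    exact e2
  have hbVp' : ∀ d ∈ Vp, ρ (a * b) d = ρ b d := by
    intro d hd
    rw [act_mul, haVp _ (hbVp d hd)]
  have hνVp : ∀ x ∈ Vp, ρ ν x ∈ Vp := by
    rintro _ ⟨u, hu, rfl⟩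
    show ρ ν (ρ ν u - u) ∈ Vp
    rw [map_sub]
    exact memp _ (hνW u hu)
  have hηVm : ∀ x ∈ Vm, ρ η x ∈ Vm := by
    rintro _ ⟨u, hu, rfl⟩
    show ρ η (ρ η u - u) ∈ Vm
    rw [map_sub]
    exact memm _ (hηW u hu)
  have hνfp : ∀ x ∈ Vp, ρ ν x = x → x = 0 := by
    rintro _ ⟨u, hu, rfl⟩ hfix
    show ρ ν u - u = 0
    exact sub_eq_zero.mpr (cop_disj ρ hνn hn hfix)
  have hηfp : ∀ x ∈ Vm, ρ η x = x → x = 0 := by
    rintro _ ⟨u, hu, rfl⟩ hfix
    show ρ η u - u = 0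
    exact sub_eq_zero.mpr (cop_disj ρ hηn hn hfix)
  have hdisj : ∀ x ∈ Vp, x ∈ Vm → x = 0 := fun x hx hx' => hηfp x hx' (hηVp x hx)
  -- oddness
  obtain ⟨k, hk⟩ : ∃ k, n = 2 * k + 1 := by
    have : Odd n := Nat.Coprime.odd_of_right hn
    exact this
  have hνn' : ν ^ (2 * k + 1) = 1 := hk ▸ hνn
  have hηn' : η ^ (2 * k + 1) = 1 := hk ▸ hηn
  have hfreep := free_two (ρ := ρ) hbν hνn' hνVp hνfp
  have hfreem := free_two (ρ := ρ) haη hηn' hηVm hηfp
  -- the odd square root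
  have hsq : ∀ x : V, ρ (z * z) x = x → ρ z x = x := by
    intro x hx
    have e : z = (z * z) ^ (k + 1) := by
      rw [← pow_two, ← pow_mul]
      have e2 : 2 * (k + 1) = (2 * k + 1) + 1 := by ring
      rw [e2, pow_succ, ← hk, hzn, one_mul]
    have : ∀ j : ℕ, ρ ((z * z) ^ j) x = x := by
      intro j
      induction j with
      | zero => simp
      | succ j ih => rw [pow_succ, act_mul, hx, ih]
    rw [e]
    exact this _
  -- the sum decomposition
  have hsum : ∀ w ∈ W, ∃ x ∈ W, ∃ t ∈ W, w = (ρ ν x - x) + (ρ η t - t) := by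
    intro w hw
    obtain ⟨m, hm', u, hu, hm2, hwm⟩ := cop_sum ρ hνn hn hνW hw
    have hmM : m ∈ W ⊓ LinearMap.ker (ρ ν - 1) := by
      refine ⟨hm', ?_⟩
      show (ρ ν - 1) m = 0
      simp [hm2]
    have hMfix : ∀ y ∈ W ⊓ LinearMap.ker (ρ ν - 1), ρ ν y = y := by
      rintro y ⟨-, hy⟩
      have : (ρ ν - 1) y = 0 := hy
      simpa [sub_eq_zero] using this
    obtain ⟨t, htM, htm⟩ := surj_of_inj (ρ η - 1) (Q := W ⊓ LinearMap.ker (ρ ν - 1))
      (by
        intro y hy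
        refine ⟨W.sub_mem (hηW y hy.1) hy.1, ?_⟩
        show (ρ ν - 1) ((ρ η - 1) y) = 0
        simp only [LinearMap.sub_apply, Module.End.one_apply, map_sub]
        rw [act_comm ρ hνη, hMfix y hy]
        simp)
      (by
        intro y hy h0
        have hy' : ρ η y = y := by
          have : ρ η y - y = 0 := h0
          exact sub_eq_zero.mp this
        have hyν := hMfix y hy
        have e : ρ z' (ρ z y) = y := by
          rw [← act_comm ρ hzz']
          rw [hν, act_mul] at hyν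
          exact hyν
        have e2 : ρ z'⁻¹ y = ρ z y := by
          conv_lhs => rw [← e]
          exact act_inv_act ρ _ _
        rw [hη, act_mul, e2] at hy'
        exact hfp y hy.1 (hsq y (by rw [act_mul]; exact hy')))
      hmM
    refine ⟨u, hu, t, htM.1, ?_⟩
    have htm' : ρ η t - t = m := htm
    rw [htm', hwm, add_comm]
  -- the commutator of `a`
  have hUa : ∀ w ∈ W, ∃ y ∈ Vm, ρ a w - w = ρ a y - y := by
    intro w hw
    obtain ⟨x, hx, t, ht, rfl⟩ := hsum w hw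
    refine ⟨_, memm t ht, ?_⟩
    rw [map_add, haVp _ (memp x hx)]
    abel
  have hUa' : ∀ w ∈ W, ∃ y ∈ Vp, ρ (a * b) w - w = ρ (a * b) y - y := by
    intro w hw
    obtain ⟨x, hx, t, ht, rfl⟩ := hsum w hw
    refine ⟨_, memp x hx, ?_⟩
    rw [map_add, ha'Vm _ (memm t ht)]
    abel
  refine ⟨?_, ?_, ?_, ?_⟩
  · -- (b - 1)(a - 1) = 0
    intro w hw
    obtain ⟨y, hy, e⟩ := hUa w hw
    rw [e]
    have hd : ρ a y - y ∈ Vm := Vm.sub_mem (haVm y hy) hy
    rw [hbVm' _ hd, map_sub]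
    have e2 : ρ a (ρ a y) = y := by
      rw [← act_mul, ← pow_two, hO.exp a ha, act_one]
    rw [e2, sub_eq_add2, sub_eq_add2, add_comm]
  · -- the intersection
    intro w hw w' hw' heq
    obtain ⟨y, hy, e⟩ := hUa w hw
    obtain ⟨y', hy', e'⟩ := hUa' w' hw'
    have h6 : ρ a w - w ∈ Vm := e ▸ Vm.sub_mem (haVm y hy) hy
    have h7 : ρ a w - w ∈ Vp := by
      rw [heq, e']
      exact Vp.sub_mem (ha'Vp y' hy') hy'
    exact hdisj _ h7 h6
  · -- fixed points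
    intro v hv hav hbv
    obtain ⟨x, hx, t, ht, hvs⟩ := hsum v hv
    have hxp := memp x hx
    have htm := memm t ht
    set vp := ρ ν x - x with hvpdef
    set vm := ρ η t - t with hvmdef
    have h6 : ρ a vm = vm := by
      have : ρ a (vp + vm) = vp + vm := hvs ▸ hav
      rw [map_add, haVp vp hxp] at this
      exact add_left_cancel this
    have h7 : ρ b vp = vp := by
      have h8 : ρ b (vp + vm) = vp + vm := hvs ▸ hbv
      rw [map_add] at h8
      have h9 : ρ b vp - vp = vm - ρ b vm := by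
        rw [sub_eq_sub_iff_add_eq_add, h8, add_comm]
      have h10 : ρ b vp - vp ∈ Vp := Vp.sub_mem (hbVp vp hxp) hxp
      have h11 : ρ b vp - vp ∈ Vm := h9 ▸ Vm.sub_mem htm (hbVm vm htm)
      exact sub_eq_zero.mp (hdisj _ h10 h11)
    obtain ⟨tp, htp, htpe⟩ := hfreep vp hxp h7
    obtain ⟨tm, htm', htme⟩ := hfreem vm htm h6
    refine ⟨tp + tm, W.add_mem (hVpW htp) (hVmW htm'), ?_⟩
    have e1 : ρ a (tp + tm) - (tp + tm) = vm := by
      rw [map_add, haVp tp htp, htme]; abel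
    have e2 : ρ (a * b) (tp + tm) - (tp + tm) = vp := by
      rw [map_add, ha'Vm tm htm', hbVp' tp htp, htpe]; abel
    rw [e1, e2, hvs, add_comm]
  · -- a vector
    by_contra hcon
    push Not at hcon
    have hVp0 : ∀ x ∈ Vp, x = 0 := by
      intro x hx
      have hxW := hVpW hx
      obtain ⟨t, ht, e⟩ := hfreep x hx (hcon x hxW (haVp x hx))
      rw [e, hcon t (hVpW ht) (haVp t ht), sub_self]
    have hν1 : ∀ u ∈ W, ρ ν u = u := fun u hu => sub_eq_zero.mp (hVp0 _ (memp u hu))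
    apply hzc
    refine central_of_act ρ hm.qs hm.invK hm.ntr hz ?_
    intro y hy w hw
    have e : ∀ u ∈ W, ρ z u = ρ z'⁻¹ u := by
      intro u hu
      have e3 := hν1 u hu
      rw [hν, act_mul, act_comm ρ hzz'] at e3
      conv_rhs => rw [← e3]
      rw [act_inv_act]
    have hyz' : y * z'⁻¹ = z'⁻¹ * y := by
      have h8 : y * z' = z' * y := hcc y hy z hz
      exact (show Commute y z' from h8).inv_right.eq
    rw [e _ (hm.invK y hy w hw), e w hw, act_comm ρ hyz'.symm]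

/-- The final case. -/
theorem final_stage [Finite G] (hm : Mn ρ A K W) (hP : P2 ρ A K W) {a : G} (ha : a ∈ A)
    (hna : a ∉ Nm K) (hr : ∀ c ∈ A, c ∉ Nm K → c * a⁻¹ ∈ Nm K) (h0 : ∃ b ∈ A, b ∈ Nm K ∧ b ≠ 1) :
    False := by
  classical
  have hO := hm.toOrb
  -- every moved element has the same properties
  have hr1 : ∀ a₁ ∈ A, a₁ ∉ Nm K → ∀ c ∈ A, c ∉ Nm K → c * a₁⁻¹ ∈ Nm K := by
    intro a₁ ha₁ hna₁ c hc hnc
    have e : c * a₁⁻¹ = (c * a⁻¹) * (a₁ * a⁻¹)⁻¹ := by group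
    rw [e]
    exact (Nm K).mul_mem (hr c hc hnc) ((Nm K).inv_mem (hr a₁ ha₁ hna₁))
  have hcent : ∀ b ∈ A, b ≠ 1 → ¬ ∀ y ∈ K, b * y = y * b := fun b hb hb1 hall =>
    hb1 (hm.cent hb hall)
  have hsplit : ∀ a₁ ∈ A, a₁ ∉ Nm K → ∀ b ∈ A, b ∈ Nm K → b ≠ 1 →
      (∀ w ∈ W, ρ b (ρ a₁ w - w) = ρ a₁ w - w) ∧
      (∀ w ∈ W, ∀ w' ∈ W, ρ a₁ w - w = ρ (a₁ * b) w' - w' → ρ a₁ w - w = 0) ∧
      (∀ v ∈ W, ρ a₁ v = v → ρ b v = v → ∃ t ∈ W, v = (ρ a₁ t - t) + (ρ (a₁ * b) t - t)) ∧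
      (∃ f ∈ W, ρ a₁ f = f ∧ ρ b f ≠ f) := by
    intro a₁ ha₁ hna₁ b hb hbN hb1
    obtain ⟨z, hz, hzc, ⟨n, hn, hzn⟩, hbz⟩ :=
      exists_inverted hm.qs hbN (sq_one hO hb) (hcent b hb hb1)
    exact split hm hP ha₁ hna₁ (hr1 a₁ ha₁ hna₁) hb hbN hz hzc hn hzn hbz
  -- all of `A` fixes the commutators of the moved elements
  have hsq : ∀ c ∈ A, ∀ w : V, ρ c (ρ c w - w) = ρ c w - w := by
    intro c hc w
    rw [map_sub, ← act_mul, ← pow_two, hO.exp c hc, act_one, sub_eq_add2, sub_eq_add2, add_comm]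
  have hquad1 : ∀ a₁ ∈ A, a₁ ∉ Nm K → ∀ c ∈ A, ∀ w ∈ W, ρ c (ρ a₁ w - w) = ρ a₁ w - w := by
    have hN : ∀ a₁ ∈ A, a₁ ∉ Nm K → ∀ c ∈ A, c ∈ Nm K → ∀ w ∈ W, ρ c (ρ a₁ w - w) = ρ a₁ w - w := by
      intro a₁ ha₁ hna₁ c hc hcN w hw
      by_cases hc1 : c = 1
      · rw [hc1, act_one]
      · exact (hsplit a₁ ha₁ hna₁ c hc hcN hc1).1 w hw
    intro a₁ ha₁ hna₁ c hc w hw
    by_cases hcN : c ∈ Nm K
    · exact hN a₁ ha₁ hna₁ c hc hcN w hw
    · have hd := hr1 a₁ ha₁ hna₁ c hc hcN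
      have e : c = (c * a₁⁻¹) * a₁ := by group
      rw [e, act_mul, hsq a₁ ha₁ w]
      exact hN a₁ ha₁ hna₁ _ (A.mul_mem hc (A.inv_mem ha₁)) hd w hw
  have hquad : ∀ c ∈ A, ∀ c' ∈ A, ∀ w ∈ W, ρ c' (ρ c w - w) = ρ c w - w := by
    intro c hc c' hc' w hw
    by_cases hcN : c ∈ Nm K
    · by_cases hc1 : c = 1
      · rw [hc1, act_one, sub_self, map_zero]
      -- `c = a (a c)`
      have hac : a * c ∈ A := A.mul_mem ha hc
      have hnac : a * c ∉ Nm K := by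
        intro h
        apply hna
        have : a = (a * c) * c⁻¹ := by group
        rw [this]
        exact (Nm K).mul_mem h ((Nm K).inv_mem hcN)
      have e : c = a * (a * c) := by
        rw [← mul_assoc, sq_one hO ha, one_mul]
      have h1 := hquad1 (a * c) hac hnac a ha w hw
      have h2 : ρ c w - w = (ρ (a * c) w - w) + (ρ a w - w) := by
        conv_lhs => rw [e, act_mul]
        have h3 : ρ a (ρ (a * c) w) = ρ (a * c) w - w + ρ a w := by
          have h4 := h1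
          rw [map_sub] at h4
          rw [← h4]; abel
        rw [h3]; abel
      rw [h2, map_add, hquad1 (a * c) hac hnac c' hc' w hw, hquad1 a ha hna c' hc' w hw]
    · exact hquad1 c hc hcN c' hc' w hw
  set L := W ⊓ fix ρ A with hL
  have hU : ∀ c ∈ A, ∀ w ∈ W, ρ c w - w ∈ L := by
    intro c hc w hw
    exact ⟨W.sub_mem (hm.invA c hc w hw) hw, fun c' hc' => hquad c hc c' hc' w hw⟩
  obtain ⟨b₀, hb₀, hb₀N, hb₀1⟩ := h0
  obtain ⟨-, hb2, hb3, f, hfW, hfa, hfb⟩ := hsplit a ha hna b₀ hb₀ hb₀N hb₀1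
  have ha'A : a * b₀ ∈ A := A.mul_mem ha hb₀
  -- the operator
  set τ : Module.End (ZMod 2) V := (ρ a - 1) + (ρ (a * b₀) - 1) with hτ
  have hτa : ∀ u, τ u = (ρ a u - u) + (ρ (a * b₀) u - u) := fun u => rfl
  have hker : W ⊓ LinearMap.ker τ = L := by
    apply le_antisymm
    · rintro u ⟨hu, huk⟩
      have h1 : τ u = 0 := huk
      rw [hτa] at h1
      have h2 : ρ a u - u = ρ (a * b₀) u - u := by
        have h3 := ch2 (ρ (a * b₀) u - u)
        calc ρ a u - u = (ρ a u - u) + ((ρ (a * b₀) u - u) + (ρ (a * b₀) u - u)) := by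
              rw [h3, add_zero]
          _ = ((ρ a u - u) + (ρ (a * b₀) u - u)) + (ρ (a * b₀) u - u) := by abel
          _ = _ := by rw [h1, zero_add]
      have h3 := hb2 u hu u hu h2
      have hau : ρ a u = u := sub_eq_zero.mp h3
      have hab : ρ (a * b₀) u = u := by
        rw [h3] at h2
        exact sub_eq_zero.mp h2.symm
      have hbu : ρ b₀ u = u := by
        rw [act_mul] at hab
        have h4 := congrArg (ρ a⁻¹) hab
        rw [act_inv_act, inv_eq_self hO ha, hau] at h4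
        exact h4
      obtain ⟨t, ht, e⟩ := hb3 u hu hau hbu
      rw [e]
      exact L.add_mem (hU a ha t ht) (hU _ ha'A t ht)
    · rintro u ⟨hu, huf⟩
      refine ⟨hu, ?_⟩
      show τ u = 0
      rw [hτa, huf a ha, huf _ ha'A]
      simp
  have hmap : W.map τ = L := by
    apply le_antisymm
    · rintro _ ⟨u, hu, rfl⟩
      rw [hτa]
      exact L.add_mem (hU a ha u hu) (hU _ ha'A u hu)
    · rintro v ⟨hv, hvf⟩
      obtain ⟨t, ht, e⟩ := hb3 v hv (hvf a ha) (hvf b₀ hb₀)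
      exact ⟨t, ht, e.symm⟩
  have hcardW : Nat.card W = Nat.card L * Nat.card L := by
    have := card_eq_ker_mul_map τ W
    rwa [hker, hmap] at this
  have hbest := hm.best ⊥ bot_le
  unfold jW at hbest
  rw [fix_bot, inf_top_eq, Subgroup.card_bot, one_mul, hcardW] at hbest
  have hLA : Nat.card L ≤ Nat.card A :=
    Nat.le_of_mul_le_mul_right hbest Nat.card_pos
  -- the index of `N_A(K)`
  set A₀ := A ⊓ Nm K with hA₀
  have hcA : Nat.card A = 2 * Nat.card A₀ := by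
    have hsup : A₀ ⊔ Subgroup.zpowers a = A := by
      apply le_antisymm
      · exact sup_le inf_le_left (by rwa [Subgroup.zpowers_le])
      · intro c hc
        by_cases hcN : c ∈ Nm K
        · exact Subgroup.mem_sup_left ⟨hc, hcN⟩
        · have e : c = (c * a⁻¹) * a := by group
          rw [e]
          exact Subgroup.mul_mem _ (Subgroup.mem_sup_left
            ⟨A.mul_mem hc (A.inv_mem ha), hr c hc hcN⟩)
            (Subgroup.mem_sup_right (Subgroup.mem_zpowers a))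
    have := card_sup_zpowers (p := 2) (B := A₀) (s := a)
      (fun x hx => hm.comm a ha x hx.1) (hO.exp a ha) (fun h => hna h.2)
    rwa [hsup] at this
  -- the injection
  set U := W.map (ρ a - 1) with hUdef
  have hUL : U ≤ L := by
    rintro _ ⟨u, hu, rfl⟩
    exact hU a ha u hu
  let g : A₀ × U → L := fun x => ⟨ρ (x.1 : G) f - f + (x.2 : V), L.add_mem (hU _ x.1.2.1 f hfW) (hUL x.2.2)⟩
  have hg : Function.Injective g := by
    rintro ⟨c, u⟩ ⟨d, v⟩ h
    have h0' : ρ (c : G) f - f + (u : V) = ρ (d : G) f - f + (v : V) := congrArg Subtype.val h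
    -- the difference
    set e : G := (d : G)⁻¹ * c with he
    have heA : e ∈ A := A.mul_mem (A.inv_mem d.2.1) c.2.1
    have heN : e ∈ Nm K := (Nm K).mul_mem ((Nm K).inv_mem d.2.2) c.2.2
    have hx : ρ (c : G) f - ρ (d : G) f = (v : V) - u := by
      have : ρ (c : G) f = ρ (d : G) f - f + (v : V) - u + f := by
        rw [← h0']; abel
      rw [this]; abel
    have hxU : (v : V) - u ∈ U := U.sub_mem v.2 u.2
    have hfix : ∀ c' ∈ A, ρ c' ((v : V) - u) = (v : V) - u := (hUL hxU).2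
    have hef : ρ e f - f = (v : V) - u := by
      have h2 : ρ e f - f = ρ (d : G)⁻¹ (ρ (c : G) f - ρ (d : G) f) := by
        rw [map_sub, act_inv_act, he, act_mul]
      rw [h2, hx, hfix _ (A.inv_mem d.2.1)]
    have he1 : e = 1 := by
      by_contra hne
      obtain ⟨-, hb2', hb3', -⟩ := hsplit a ha hna e heA heN hne
      obtain ⟨w, hw, hwe⟩ := hxU
      have hwe' : ρ a w - w = (v : V) - u := hwe
      have hae : ρ (a * e) f - f = (v : V) - u := by
        have h3 : ρ (a * e) f = ρ a (ρ e f - f) + ρ a f := by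
          rw [act_mul, map_sub]; abel
        rw [h3, hef, hfix a ha, hfa]
        abel
      have h4 := hb2' w hw f hfW (by rw [hwe', hae])
      rw [hwe'] at h4
      have h5 : ρ e f = f := by
        rw [h4] at hef
        exact sub_eq_zero.mp hef
      obtain ⟨t, ht, h6⟩ := hb3' f hfW hfa h5
      have h7 : f ∈ L := by
        rw [h6]
        exact L.add_mem (hU a ha t ht) (hU _ (A.mul_mem ha heA) t ht)
      exact hfb (h7.2 b₀ hb₀)
    have hcd : c = d := by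
      apply Subtype.ext
      have : (d : G)⁻¹ * c = 1 := he1
      exact (inv_mul_eq_one.mp this).symm
    subst hcd
    have huv : u = v := Subtype.ext (add_left_cancel h0')
    rw [huv]
  have hcardg := Nat.card_le_card_of_injective g hg
  rw [Nat.card_prod] at hcardg
  have hU2 : Nat.card U ≤ 2 := by
    refine Nat.le_of_mul_le_mul_left ?_ (Nat.card_pos (α := A₀))
    calc Nat.card A₀ * Nat.card U ≤ Nat.card L := hcardg
      _ ≤ Nat.card A := hLA
      _ = 2 * Nat.card A₀ := hcA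
      _ = Nat.card A₀ * 2 := mul_comm _ _
  exact transvection_final rfl hm.qs hm.invK (hm.invA a ha) (sq_one hO ha)
    ((hm.cc a ha).resolve_left hna) hm.ntr hU2

end main

end Cfsg.Agent.Lib.PGV.Final
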