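import Cfsg.Agent.Lib.PGV.Timm

/-!
# The P(G,V) theorem: norm maps `y ↦ ∏ sⁱ y s⁻ⁱ` and orbits of quasisimple subgroups
-/

set_option autoImplicit false
set_option linter.unusedSectionVars false
set_option linter.unusedSimpArgs false
set_option linter.style.haveILetI false

open scoped commutatorElement

namespace Cfsg.Agent.Lib.PGV.HH

open Cfsg.Agent.Lib.QuadAct.FFBasic Cfsg.Agent.Lib.PGV.Basic Cfsg.Agent.Lib.PGV.Best
open Cfsg.Agent.Lib.Components.Basic

universe u v

variable {G : Type u} [Group G]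

/-- `∏_{i < n} sⁱ y s⁻ⁱ`. -/
def hh (s y : G) : ℕ → G
  | 0 => 1
  | n + 1 => hh s y n * (s ^ n * y * (s ^ n)⁻¹)

@[simp] theorem hh_zero (s y : G) : hh s y 0 = 1 := rfl

theorem hh_succ (s y : G) (n : ℕ) : hh s y (n + 1) = hh s y n * (s ^ n * y * (s ^ n)⁻¹) := rfl

theorem hh_mem {N : Subgroup G} {s y : G} (hs : s ∈ N) (hy : y ∈ N) (n : ℕ) : hh s y n ∈ N := by
  induction n with
  | zero => exact N.one_mem
  | succ n ih =>
    rw [hh_succ]
    exact N.mul_mem ih (N.mul_mem (N.mul_mem (N.pow_mem hs n) hy) (N.inv_mem (N.pow_mem hs n)))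

theorem hh_commute_of_factor {s y t : G} {n : ℕ}
    (h : ∀ i < n, Commute t (s ^ i * y * (s ^ i)⁻¹)) : Commute t (hh s y n) := by
  induction n with
  | zero => exact Commute.one_right t
  | succ n ih =>
    rw [hh_succ]
    exact (ih fun i hi => h i (Nat.lt_succ_of_lt hi)).mul_right (h n (Nat.lt_succ_self n))

/-- The commutation hypothesis for the conjugates of `K` under powers of `s`. -/
def Hc (K : Subgroup G) (s : G) (n : ℕ) : Prop :=
  ∀ i j : ℕ, i < n → j < n → i ≠ j → ∀ x ∈ K, ∀ y ∈ K,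
    Commute (s ^ i * x * (s ^ i)⁻¹) (s ^ j * y * (s ^ j)⁻¹)

theorem Hc.mono {K : Subgroup G} {s : G} {n m : ℕ} (h : Hc K s n) (hm : m ≤ n) : Hc K s m :=
  fun i j hi hj hij x hx y hy => h i j (hi.trans_le hm) (hj.trans_le hm) hij x hx y hy

theorem conj_mul (c x y : G) : c * (x * y) * c⁻¹ = (c * x * c⁻¹) * (c * y * c⁻¹) := by group

theorem hh_mul {K : Subgroup G} {s : G} {n : ℕ} (hc : Hc K s n) {x y : G} (hx : x ∈ K)
    (hy : y ∈ K) : hh s (x * y) n = hh s x n * hh s y n := by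
  induction n with
  | zero => simp
  | succ n ih =>
    rw [hh_succ, hh_succ, hh_succ, ih (hc.mono (Nat.le_succ n)), conj_mul]
    have hcm : Commute (s ^ n * x * (s ^ n)⁻¹) (hh s y n) := by
      apply hh_commute_of_factor
      intro i hi
      exact hc n i (Nat.lt_succ_self n) (Nat.lt_succ_of_lt hi) (Nat.ne_of_gt hi) x hx y hy
    calc hh s x n * hh s y n * (s ^ n * x * (s ^ n)⁻¹ * (s ^ n * y * (s ^ n)⁻¹))
        = hh s x n * (hh s y n * (s ^ n * x * (s ^ n)⁻¹)) * (s ^ n * y * (s ^ n)⁻¹) := by group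
      _ = hh s x n * ((s ^ n * x * (s ^ n)⁻¹) * hh s y n) * (s ^ n * y * (s ^ n)⁻¹) := by
        rw [hcm.eq]
      _ = _ := by group

@[simp] theorem hh_one_left (s : G) (n : ℕ) : hh s 1 n = 1 := by
  induction n with
  | zero => rfl
  | succ n ih => rw [hh_succ, ih]; simp

theorem hh_inv {K : Subgroup G} {s : G} {n : ℕ} (hc : Hc K s n) {x : G} (hx : x ∈ K) :
    hh s x⁻¹ n = (hh s x n)⁻¹ := by
  have h := hh_mul hc (K.inv_mem hx) hx
  rw [inv_mul_cancel, hh_one_left] at h
  exact eq_inv_of_mul_eq_one_left h.symm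

theorem hh_pow {K : Subgroup G} {s : G} {n : ℕ} (hc : Hc K s n) {x : G} (hx : x ∈ K) (k : ℕ) :
    hh s (x ^ k) n = (hh s x n) ^ k := by
  induction k with
  | zero => simp
  | succ k ih =>
    rw [pow_succ, hh_mul hc (K.pow_mem hx k) hx, ih, pow_succ]

theorem hh_conj {b s : G} (hb : b * s = s * b) (y : G) (n : ℕ) :
    b * hh s y n * b⁻¹ = hh s (b * y * b⁻¹) n := by
  induction n with
  | zero => simp
  | succ n ih =>
    rw [hh_succ, hh_succ, ← ih]
    have hb' : Commute b (s ^ n) := (show Commute b s from hb).pow_right n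
    have e : s ^ n * (b * y * b⁻¹) * (s ^ n)⁻¹ = b * (s ^ n * y * (s ^ n)⁻¹) * b⁻¹ := by
      have h2 : s ^ n * b = b * s ^ n := hb'.eq.symm
      calc s ^ n * (b * y * b⁻¹) * (s ^ n)⁻¹ = (s ^ n * b) * y * (s ^ n * b)⁻¹ := by group
        _ = (b * s ^ n) * y * (b * s ^ n)⁻¹ := by rw [h2]
        _ = _ := by group
    rw [e]
    group

theorem hh_succ' (s y : G) (n : ℕ) : hh s y (n + 1) = y * (s * hh s y n * s⁻¹) := by
  induction n with
  | zero => simp [hh_succ]
  | succ n ih =>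
    calc hh s y (n + 1 + 1) = hh s y (n + 1) * (s ^ (n + 1) * y * (s ^ (n + 1))⁻¹) := rfl
      _ = (y * (s * hh s y n * s⁻¹)) * (s ^ (n + 1) * y * (s ^ (n + 1))⁻¹) := by rw [ih]
      _ = y * (s * (hh s y n * (s ^ n * y * (s ^ n)⁻¹)) * s⁻¹) := by rw [pow_succ']; group
      _ = _ := by rw [← hh_succ]

/-- The rest of the product commutes with `K`. -/
theorem hh_rest_commute {K : Subgroup G} {s : G} {n : ℕ} (hc : Hc K s (n + 1)) {x y : G}
    (hx : x ∈ K) (hy : y ∈ K) : Commute x (s * hh s y n * s⁻¹) := by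
  have key : ∀ m, m ≤ n → Commute x (s * hh s y m * s⁻¹) := by
    intro m
    induction m with
    | zero => intro _; simp
    | succ m ih =>
      intro hm
      rw [hh_succ, conj_mul]
      refine (ih (Nat.le_of_succ_le hm)).mul_right ?_
      have h0 := hc 0 (m + 1) (Nat.succ_pos n) (Nat.succ_lt_succ hm) (Nat.succ_ne_zero m).symm
        x hx y hy
      simp only [pow_zero, one_mul, inv_one, mul_one] at h0
      have e : s * (s ^ m * y * (s ^ m)⁻¹) * s⁻¹ = s ^ (m + 1) * y * (s ^ (m + 1))⁻¹ := by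
        rw [pow_succ']; group
      rw [e]
      exact h0
  exact key n le_rfl

theorem hh_self_commute {K : Subgroup G} {s : G} {n : ℕ} (hc : Hc K s n) {x y : G} (hx : x ∈ K)
    (hy : y ∈ K) (hn : ∀ i < n, i ≠ 0) : Commute x (hh s y n) := by
  apply hh_commute_of_factor
  intro i hi
  have hi0 := hn i hi
  have h0 := hc 0 i (by omega) hi hi0.symm x hx y hy
  simpa using h0

/-- `H(y)` commutes with `s`. -/
theorem hh_s_comm {K : Subgroup G} {s : G} {n : ℕ} (hn : 0 < n) (hs : s ^ n = 1) (hc : Hc K s n)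
    {y : G} (hy : y ∈ K) : s * hh s y n * s⁻¹ = hh s y n := by
  have h1 := hh_succ' s y n
  rw [hh_succ, hs, one_mul, inv_one, mul_one] at h1
  have h2 : Commute y (hh s y n) := by
    apply hh_commute_of_factor
    intro i hi
    by_cases hi0 : i = 0
    · subst hi0; simp [Commute.refl]
    · have h0 := hc 0 i hn hi (Ne.symm hi0) y hy y hy
      simpa using h0
  rw [h2.symm.eq] at h1
  exact (mul_left_cancel h1).symm

/-- `H` is unchanged on conjugates by powers of `s`. -/
theorem hh_conj_pow {K : Subgroup G} {s : G} {n : ℕ} (hn : 0 < n) (hs : s ^ n = 1) (hc : Hc K s n)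
    {y : G} (hy : y ∈ K) (i : ℕ) : hh s (s ^ i * y * (s ^ i)⁻¹) n = hh s y n := by
  rw [← hh_conj (pow_succ' s i ▸ pow_succ s i ▸ rfl)]
  have h1 : Commute s (hh s y n) := by
    have := hh_s_comm hn hs hc hy
    exact (mul_inv_eq_iff_eq_mul.mp this)
  have h2 : Commute (s ^ i) (hh s y n) := h1.pow_left i
  rw [h2.eq, mul_inv_cancel_right]

end Cfsg.Agent.Lib.PGV.HH
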