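import Cfsg.Agent.Lib.PGV.Final

/-!
# The P(G,V) theorem
-/

set_option autoImplicit false
set_option linter.unusedSectionVars false
set_option linter.unusedSimpArgs false
set_option linter.style.haveILetI false

open scoped commutatorElement

namespace Cfsg.Agent.Lib.PGV.Main

open Cfsg.Agent.Lib.QuadAct.FFBasic Cfsg.Agent.Lib.PGV.Basic Cfsg.Agent.Lib.PGV.Best
open Cfsg.Agent.Lib.PGV.HH Cfsg.Agent.Lib.PGV.Timm Cfsg.Agent.Lib.PGV.Data
open Cfsg.Agent.Lib.PGV.Quad Cfsg.Agent.Lib.PGV.CaseI Cfsg.Agent.Lib.PGV.CaseII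
open Cfsg.Agent.Lib.PGV.Final
open Cfsg.Agent.Lib.Components.Basic

universe u v

variable {G : Type u} [Group G] {p : ℕ} [Fact p.Prime] {V : Type v} [AddCommGroup V]
  [Module (ZMod p) V] [Finite V] {ρ : G →* Module.End (ZMod p) V}

/-- No minimal counterexample. -/
theorem mn_elim [Finite G] {A K : Subgroup G} {W : Submodule (ZMod p) V} (hm : Mn ρ A K W) :
    False := by
  by_cases h0 : ∀ c ∈ A, c ∈ Nm K → c = 1
  · exact CaseI.Mn.caseI hm h0
  have h0' : ∃ b ∈ A, b ∈ Nm K ∧ b ≠ 1 := by
    push Not at h0
    exact h0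
  have hPP := CaseII.Mn.pp hm h0'
  obtain ⟨a, ha, hna⟩ := hm.moved
  by_cases hp2 : p = 2
  · subst hp2
    by_cases h2 : ∃ a' ∈ A, a' ∉ Nm K ∧ a' * a⁻¹ ∉ Nm K
    · obtain ⟨a', ha', hna', haa⟩ := h2
      exact T_two hm.toOrb hm.invA hm.invK hm.ntr hPP rfl ha hna ha' hna' haa
    · push Not at h2
      refine final_stage hm ?_ ha hna h2 h0'
      intro c hc hnc y hy w hw
      have := hPP c hc hnc 1 A.one_mem y (mem_cj_one hy) w hw
      rwa [hh2] at this
  · exact T_odd hm.toOrb hm.invA hm.invK hm.ntr hPP hp2 ha hna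

/-- The configuration does not exist. -/
theorem no_dat [Finite G] : ∀ (A K : Subgroup G) (W : Submodule (ZMod p) V), Dat ρ A K W → False := by
  have key : ∀ n : ℕ, ∀ (A K : Subgroup G) (W : Submodule (ZMod p) V),
      Nat.card A + Nat.card W = n → Dat ρ A K W → False := by
    intro n
    induction n using Nat.strong_induction_on with
    | _ n ih =>
      intro A K W hn hd
      refine mn_elim (ρ := ρ) (A := A) (K := K) (W := W) ⟨hd, ?_⟩
      intro A' K' W' hd'
      by_contra hlt
      rw [not_le] at hlt
      exact ih _ (hn ▸ hlt) A' K' W' rfl hd'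
  exact fun A K W => key _ A K W rfl

/-- The P(G,V)-theorem in module language. -/
theorem pgv [Finite G] (hρ : Function.Injective ρ) {A : Subgroup G}
    (hAel : Cfsg.IsElementaryAbelian p A)
    (hP : ∀ B : Subgroup G, B ≤ A →
      Nat.card ↥B * Nat.card {v : V // ∀ b ∈ B, ρ b v = v} ≤
        Nat.card ↥A * Nat.card {v : V // ∀ a ∈ A, ρ a v = v})
    {K : Subgroup G} (hK : Cfsg.IsComponent K) : A ≤ Subgroup.normalizer (K : Set G) := by
  intro a ha
  by_contra hna
  have hcard : ∀ B : Subgroup G, Nat.card ↥((⊤ : Submodule (ZMod p) V) ⊓ fix ρ B) =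
      Nat.card {v : V // ∀ b ∈ B, ρ b v = v} := by
    intro B
    rw [top_inf_eq]
    rfl
  have hcomm : ∀ x ∈ A, ∀ y ∈ A, x * y = y * x := by
    intro x hx y hy
    haveI := hAel.1
    have := mul_comm' (⟨x, hx⟩ : A) ⟨y, hy⟩
    exact congrArg Subtype.val this
  refine no_dat (ρ := ρ) A K ⊤ ?_
  exact
    { comm := hcomm
      exp := hAel.2
      qs := hK.2
      cc := by
        intro c hc
        rcases component_eq_or_commutator_eq_bot hK (isComponent_conj c hK) with h | h
        · left
          rw [mem_Nm_iff]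
          constructor
          · intro x hx
            have : c * x * c⁻¹ ∈ K.map (MulAut.conj c).toMonoidHom :=
              Subgroup.mem_map_of_mem _ hx
            rwa [← h] at this
          · intro x hx
            have hx' : x ∈ K.map (MulAut.conj c).toMonoidHom := h ▸ hx
            obtain ⟨y, hy, rfl⟩ := hx'
            simpa [mul_assoc] using hy
        · right
          intro x hx y hy
          have hm : ⁅x, c * y * c⁻¹⁆ ∈ ⁅K, K.map (MulAut.conj c).toMonoidHom⁆ :=
            Subgroup.commutator_mem_commutator hx (Subgroup.mem_map_of_mem _ hy)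
          rw [h, Subgroup.mem_bot] at hm
          exact commutatorElement_eq_one_iff_mul_comm.mp hm
      invA := fun _ _ _ _ => Submodule.mem_top
      invK := fun _ _ _ _ => Submodule.mem_top
      ntr := by
        have hne := ne_bot_of_quasisimple hK.2
        obtain ⟨y, hy, hy1⟩ := (Subgroup.bot_or_exists_ne_one K).resolve_left hne
        by_contra hcon
        push Not at hcon
        apply hy1
        apply hρ
        rw [map_one]
        ext w
        exact hcon y hy w Submodule.mem_top
      best := by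
        intro B hB
        unfold jW
        rw [hcard, hcard]
        exact hP B hB
      moved := ⟨a, ha, hna⟩ }

end Cfsg.Agent.Lib.PGV.Main
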