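import Cfsg.Agent.Lib.PGV.Data
import Cfsg.Agent.Lib.Char.Burnside

/-!
# The P(G,V) theorem: quadratic elements and transvections
-/

set_option autoImplicit false
set_option linter.unusedSectionVars false
set_option linter.unusedSimpArgs false
set_option linter.style.haveILetI false

open scoped commutatorElement

namespace Cfsg.Agent.Lib.PGV.Quad

open Cfsg.Agent.Lib.QuadAct.FFBasic Cfsg.Agent.Lib.PGV.Basic Cfsg.Agent.Lib.PGV.Best
open Cfsg.Agent.Lib.PGV.HH Cfsg.Agent.Lib.PGV.Timm Cfsg.Agent.Lib.PGV.Data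
open Cfsg.Agent.Lib.Components.Basic

universe u v

section alg

variable {p : ℕ} [Fact p.Prime] {E : Type*} [Ring E] [Algebra (ZMod p) E]

/-- The Quadratic Lemma in an algebra. -/
theorem quad_alg (hp2 : p ≠ 2) {a a' : E} (h1 : a * a' = 1) (h2 : a' * a = 1)
    (hδ : (a - 1) * (a - 1) = 0) {S : Set E} (hS1 : ∀ s ∈ S, a * s * a' ∈ S)
    (hS2 : ∀ s ∈ S, a' * s * a ∈ S) (hcomm : ∀ s ∈ S, ∀ t ∈ S, s * t = t * s) {n : ℕ}
    (hn : n.Coprime p) (hpow : ∀ s ∈ S, s ^ n = 1) : ∀ s ∈ S, a * s * a' = s := by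
  classical
  have hp : p.Prime := Fact.out
  rcases subsingleton_or_nontrivial E with hsub | hnt
  · intro s _; exact Subsingleton.elim _ _
  haveI : CharP E p := charP_of_injective_algebraMap (algebraMap (ZMod p) E).injective p
  set R := Algebra.adjoin (ZMod p) S with hR
  haveI hcR : IsMulCommutative R := Algebra.isMulCommutative_adjoin (ZMod p) hcomm
  have hRc : ∀ x ∈ R, ∀ y ∈ R, x * y = y * x := by
    intro x hx y hy
    exact congrArg Subtype.val (mul_comm' (⟨x, hx⟩ : R) ⟨y, hy⟩)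
  have hn0 : 0 < n := by
    rcases Nat.eq_zero_or_pos n with h | h
    · subst h
      rw [Nat.coprime_zero_left] at hn
      exact absurd hn hp.ne_one
    · exact h
  set q := p ^ Nat.totient n with hq
  have hφ : 0 < Nat.totient n := Nat.totient_pos.mpr hn0
  have hq2 : 2 ≤ q := by
    calc 2 ≤ p := hp.two_le
      _ = p ^ 1 := (pow_one p).symm
      _ ≤ q := Nat.pow_le_pow_right hp.pos hφ
  have hqmod : n ∣ q - 1 :=
    (Nat.modEq_iff_dvd' (by omega)).mp (Nat.ModEq.pow_totient hn.symm).symm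
  have hFrob : ∀ x ∈ R, x ^ q = x := by
    intro x hx
    induction hx using Algebra.adjoin_induction with
    | mem x hx =>
      obtain ⟨t, ht⟩ := hqmod
      have : q = n * t + 1 := by omega
      rw [this, pow_succ, pow_mul, hpow x hx, one_pow, one_mul]
    | algebraMap r =>
      rw [← map_pow, hq, ZMod.pow_card_pow]
    | add x y hx hy ihx ihy =>
      rw [hq, add_pow_char_pow_of_commute _ _ (hRc x hx y hy), ← hq, ihx, ihy]
    | mul x y hx hy ihx ihy =>
      rw [(show Commute x y from hRc x hx y hy).mul_pow, ihx, ihy]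
  have hred : ∀ x ∈ R, x * x = 0 → x = 0 := by
    intro x hx h0
    have e : q = (q - 2) + 2 := by omega
    rw [← hFrob x hx, e, pow_add, pow_two, h0, mul_zero]
  -- conjugation preserves `R`
  have hconj1 : ∀ x ∈ R, a * x * a' ∈ R := by
    intro x hx
    induction hx using Algebra.adjoin_induction with
    | mem x hx => exact Algebra.subset_adjoin (hS1 x hx)
    | algebraMap r =>
      rw [Algebra.commutes r a |>.symm, mul_assoc, h1, mul_one]
      exact Subalgebra.algebraMap_mem _ r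
    | add x y hx hy ihx ihy =>
      rw [mul_add, add_mul]
      exact add_mem ihx ihy
    | mul x y hx hy ihx ihy =>
      have e : a * (x * y) * a' = (a * x * a') * (a * y * a') := by
        calc a * (x * y) * a' = a * x * 1 * y * a' := by simp [mul_assoc]
          _ = a * x * (a' * a) * y * a' := by rw [h2]
          _ = _ := by simp only [mul_assoc]
      rw [e]
      exact mul_mem ihx ihy
  have hconj2 : ∀ x ∈ R, a' * x * a ∈ R := by
    intro x hx
    induction hx using Algebra.adjoin_induction with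
    | mem x hx => exact Algebra.subset_adjoin (hS2 x hx)
    | algebraMap r =>
      rw [Algebra.commutes r a' |>.symm, mul_assoc, h2, mul_one]
      exact Subalgebra.algebraMap_mem _ r
    | add x y hx hy ihx ihy =>
      rw [mul_add, add_mul]
      exact add_mem ihx ihy
    | mul x y hx hy ihx ihy =>
      have e : a' * (x * y) * a = (a' * x * a) * (a' * y * a) := by
        calc a' * (x * y) * a = a' * x * 1 * y * a := by simp [mul_assoc]
          _ = a' * x * (a * a') * y * a := by rw [h1]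
          _ = _ := by simp only [mul_assoc]
      rw [e]
      exact mul_mem ihx ihy
  -- coordinates
  set δ := a - 1 with hδdef
  have ha : a = 1 + δ := by rw [hδdef]; abel
  have ha' : a' = 1 - δ := by
    have h3 : a * (1 - δ) = 1 := by
      rw [ha]
      have : (1 + δ) * (1 - δ) = 1 - δ * δ := by noncomm_ring
      rw [this, hδ, sub_zero]
    calc a' = a' * (a * (1 - δ)) := by rw [h3, mul_one]
      _ = (a' * a) * (1 - δ) := by rw [mul_assoc]
      _ = 1 - δ := by rw [h2, one_mul]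
  have h2ne : (2 : ZMod p) ≠ 0 := by
    intro h
    have h3 : ((2 : ℕ) : ZMod p) = 0 := by exact_mod_cast h
    rw [ZMod.natCast_eq_zero_iff] at h3
    exact hp2 ((Nat.prime_dvd_prime_iff_eq hp Nat.prime_two).mp h3)
  have hhalf : ∀ x : E, x + x ∈ R → x ∈ R := by
    intro x hx
    have e : x = (2 : ZMod p)⁻¹ • (x + x) := by
      rw [← two_smul (ZMod p) x, smul_smul, inv_mul_cancel₀ h2ne, one_smul]
    rw [e]
    exact Subalgebra.smul_mem _ hx _
  have hhalf0 : ∀ x : E, x + x = 0 → x = 0 := by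
    intro x hx
    have e : x = (2 : ZMod p)⁻¹ • (x + x) := by
      rw [← two_smul (ZMod p) x, smul_smul, inv_mul_cancel₀ h2ne, one_smul]
    rw [e, hx, smul_zero]
  -- the basic identity
  have hstar : ∀ r ∈ R, a * r * a' + a' * r * a = r + r := by
    intro r hr
    have e1 : a * r * a' + a' * r * a = r + r - (δ * r * δ + δ * r * δ) := by
      rw [ha', ha]
      noncomm_ring
    have hξ : δ * r * δ ∈ R := by
      apply hhalf
      have : δ * r * δ + δ * r * δ = r + r - (a * r * a' + a' * r * a) := by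
        rw [e1]; abel
      rw [this]
      exact sub_mem (add_mem hr hr) (add_mem (hconj1 r hr) (hconj2 r hr))
    have hξ2 : (δ * r * δ) * (δ * r * δ) = 0 := by
      calc (δ * r * δ) * (δ * r * δ) = δ * r * (δ * δ) * r * δ := by noncomm_ring
        _ = 0 := by rw [hδ]; simp
    have := hred _ hξ hξ2
    rw [e1, this]
    simp
  intro z hz
  have hzR : z ∈ R := Algebra.subset_adjoin hz
  set κ := a * z * a' - z with hκ
  have hz1 : a * z * a' = z + κ := by rw [hκ]; abel
  have hz2 : a' * z * a = z - κ := by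
    have := hstar z hzR
    rw [hz1] at this
    have e : a' * z * a = (z + κ + a' * z * a) - κ - z + z - z := by abel
    rw [e, this]; abel
  have hκR : κ ∈ R := sub_mem (hconj1 z hzR) hzR
  have h3 := hstar (z * z) (mul_mem hzR hzR)
  have e1 : a * (z * z) * a' = (z + κ) * (z + κ) := by
    rw [← hz1]
    calc a * (z * z) * a' = a * z * 1 * z * a' := by simp [mul_assoc]
      _ = a * z * (a' * a) * z * a' := by rw [h2]
      _ = _ := by simp only [mul_assoc]
  have e2 : a' * (z * z) * a = (z - κ) * (z - κ) := by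
    rw [← hz2]
    calc a' * (z * z) * a = a' * z * 1 * z * a := by simp [mul_assoc]
      _ = a' * z * (a * a') * z * a := by rw [h1]
      _ = _ := by simp only [mul_assoc]
  rw [e1, e2] at h3
  have h4 : κ * κ + κ * κ = 0 := by
    have e3 : (z + κ) * (z + κ) + (z - κ) * (z - κ) = z * z + z * z + (κ * κ + κ * κ) := by
      noncomm_ring
    rw [e3] at h3
    have : z * z + z * z + (κ * κ + κ * κ) = z * z + z * z + 0 := by rw [h3, add_zero]
    exact add_left_cancel this
  have h5 := hred κ hκR (hhalf0 _ h4)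
  rw [hz1, h5, add_zero]

end alg

section transv

variable {E : Type*} [Ring E]

theorem transv_I (h2 : ∀ x : E, x + x = 0) {δ δ' : E} (h1 : δ * δ = 0) (h1' : δ' * δ' = 0)
    (h3 : δ * δ' * δ = 0) (h3' : δ' * δ * δ' = 0) : ((1 + δ) * (1 + δ')) ^ 4 = 1 := by
  set N := δ + δ' + δ * δ' with hN
  set P := δ * δ' + δ' * δ with hP
  have hT : (1 + δ) * (1 + δ') = 1 + N := by rw [hN]; noncomm_ring
  have hNN : N * N = P := by
    rw [hN, hP]
    linear_combination (norm := noncomm_ring)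
      h1 + h1 * δ' + h1' + h3' + h3 + δ * h1' + h3 * δ'
  have hTT : (1 + N) * (1 + N) = 1 + P := by
    have e : (1 + N) * (1 + N) = 1 + (N + N) + N * N := by noncomm_ring
    rw [e, h2 N, hNN, add_zero]
  have hPP : P * P = 0 := by
    rw [hP]
    linear_combination (norm := noncomm_ring)
      h3 * δ' + δ * h1' * δ + δ' * h1 * δ' + h3' * δ
  rw [hT]
  calc (1 + N) ^ 4 = ((1 + N) * (1 + N)) * ((1 + N) * (1 + N)) := by noncomm_ring
    _ = (1 + P) * (1 + P) := by rw [hTT]
    _ = 1 + (P + P) + P * P := by noncomm_ring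
    _ = 1 := by rw [h2 P, hPP]; simp

theorem transv_II (h2 : ∀ x : E, x + x = 0) {δ δ' : E} (h1 : δ * δ = 0) (h1' : δ' * δ' = 0)
    (h3 : δ * δ' * δ = δ) (h3' : δ' * δ * δ' = δ') : ((1 + δ) * (1 + δ')) ^ 3 = 1 := by
  set N := δ + δ' + δ * δ' with hN
  have hT : (1 + δ) * (1 + δ') = 1 + N := by rw [hN]; noncomm_ring
  have hNN : N * N = δ' * δ + δ + δ' + (δ * δ' + δ * δ') := by
    rw [hN]
    linear_combination (norm := noncomm_ring)
      h1 + h1 * δ' + h1' + h3' + h3 + δ * h1' + h3 * δ'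
  have hTT : (1 + N) * (1 + N) = 1 + δ + δ' + δ' * δ := by
    have e : (1 + N) * (1 + N) = 1 + (N + N) + N * N := by noncomm_ring
    rw [e, h2 N, hNN, h2 (δ * δ')]
    abel
  rw [hT]
  calc (1 + N) ^ 3 = ((1 + N) * (1 + N)) * (1 + N) := by noncomm_ring
    _ = (1 + δ + δ' + δ' * δ) * (1 + N) := by rw [hTT]
    _ = 1 := by
      rw [hN]
      linear_combination (norm := noncomm_ring)
        h2 δ + h2 δ' + h2 (δ * δ') + h2 (δ' * δ) + h2 (δ' * δ * δ') + h1 + h1 * δ' + h1' +
          δ' * h1 + δ' * h1 * δ'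

theorem transv_12 (h2 : ∀ x : E, x + x = 0) {δ δ' : E} (h1 : δ * δ = 0) (h1' : δ' * δ' = 0)
    (h3 : δ * δ' * δ = 0 ∨ δ * δ' * δ = δ) (h3' : δ' * δ * δ' = 0 ∨ δ' * δ * δ' = δ') :
    ((1 + δ) * (1 + δ')) ^ 12 = 1 := by
  have hI : δ * δ' * δ = 0 → δ' * δ * δ' = 0 → ((1 + δ) * (1 + δ')) ^ 12 = 1 := by
    intro a b
    have := transv_I h2 h1 h1' a b
    calc ((1 + δ) * (1 + δ')) ^ 12 = (((1 + δ) * (1 + δ')) ^ 4) ^ 3 := by rw [← pow_mul]
      _ = 1 := by rw [this, one_pow]
  have hII : δ * δ' * δ = δ → δ' * δ * δ' = δ' → ((1 + δ) * (1 + δ')) ^ 12 = 1 := by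
    intro a b
    have := transv_II h2 h1 h1' a b
    calc ((1 + δ) * (1 + δ')) ^ 12 = (((1 + δ) * (1 + δ')) ^ 3) ^ 4 := by rw [← pow_mul]
      _ = 1 := by rw [this, one_pow]
  rcases h3 with a | a <;> rcases h3' with b | b
  · exact hI a b
  · -- `δ' δ = 0`
    have e : δ' * δ = 0 := by
      calc δ' * δ = (δ' * δ * δ') * δ := by rw [b]
        _ = δ' * (δ * δ' * δ) := by noncomm_ring
        _ = 0 := by rw [a, mul_zero]
    have e2 : δ' * δ * δ' = 0 := by rw [e, zero_mul]
    exact hI a e2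
  · have e : δ * δ' = 0 := by
      calc δ * δ' = (δ * δ' * δ) * δ' := by rw [a]
        _ = δ * (δ' * δ * δ') := by noncomm_ring
        _ = 0 := by rw [b, mul_zero]
    have e2 : δ * δ' * δ = 0 := by rw [e, zero_mul]
    exact hI e2 b
  · exact hII a b

end transv

variable {G : Type u} [Group G] {p : ℕ} [Fact p.Prime] {V : Type v} [AddCommGroup V]
  [Module (ZMod p) V] [Finite V] (ρ : G →* Module.End (ZMod p) V)

/-- The stabilizer of a subspace. -/
def stW (W : Submodule (ZMod p) V) : Subgroup G where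
  carrier := {g | ∀ w ∈ W, ρ g w ∈ W ∧ ρ g⁻¹ w ∈ W}
  mul_mem' := by
    intro a b ha hb w hw
    constructor
    · rw [act_mul]
      exact (ha _ (hb w hw).1).1
    · rw [mul_inv_rev, act_mul]
      exact (hb _ (ha w hw).2).2
  one_mem' := fun w hw => by simpa using hw
  inv_mem' := by
    intro a ha w hw
    simpa using (ha w hw).symm

/-- The action on a subspace. -/
def rsH (W : Submodule (ZMod p) V) : stW ρ W →* Module.End (ZMod p) W where
  toFun g := (ρ (g : G)).restrict (fun w hw => (g.2 w hw).1)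
  map_one' := by
    ext w
    show ρ 1 w = w
    exact act_one ρ _
  map_mul' := by
    intro x y
    ext w
    show ρ ((x : G) * y) w = ρ (x : G) (ρ (y : G) w)
    exact act_mul ρ _ _ _

theorem rsH_coe (W : Submodule (ZMod p) V) (g : stW ρ W) (w : W) :
    ((rsH ρ W g w : W) : V) = ρ (g : G) w := rfl

variable {ρ}

theorem orb_zpow_comm {A K : Subgroup G} (h : Orb p A K) {a : G} (ha : a ∈ A) (hn : a ∉ Nm K)
    {c d : G} (hc : c ∈ Subgroup.zpowers a) (hd : d ∈ Subgroup.zpowers a) {z : G} (hz : z ∈ K) :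
    Commute (c * z * c⁻¹) (d * z * d⁻¹) := by
  by_cases hcd : c = d
  · subst hcd; exact Commute.refl _
  have hle : Subgroup.zpowers a ≤ A := by rwa [Subgroup.zpowers_le]
  refine h.cc2 (hle hc) (hle hd) ?_ hz hz
  intro hmem
  have h1 : c * d⁻¹ ∈ Subgroup.zpowers a :=
    Subgroup.mul_mem _ hc (Subgroup.inv_mem _ hd)
  obtain ⟨i, hi⟩ := Subgroup.mem_zpowers_iff.mp h1
  apply hn
  refine zpow_mem_of_not_dvd (h.exp a ha) (i := i) ?_ ?_
  · rintro ⟨k, rfl⟩
    apply hcd
    have : c * d⁻¹ = 1 := by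
      rw [← hi, zpow_mul, zpow_natCast, h.exp a ha, one_zpow]
    exact mul_inv_eq_one.mp this
  · rw [hi]; exact hmem

/-- The Quadratic Lemma on `W`. -/
theorem quad_central [Finite G] {A K : Subgroup G} {W : Submodule (ZMod p) V} (h : Orb p A K)
    (hp2 : p ≠ 2) (hA : ∀ c ∈ A, ∀ w ∈ W, ρ c w ∈ W) (hK : ∀ y ∈ K, ∀ w ∈ W, ρ y w ∈ W)
    (hntr : ∃ y ∈ K, ∃ w ∈ W, ρ y w ≠ w) {a : G} (ha : a ∈ A) (hn : a ∉ Nm K)
    (hq : ∀ w ∈ W, ρ a (ρ a w - w) = ρ a w - w) {z : G} (hz : z ∈ K) {m : ℕ} (hm : m.Coprime p)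
    (hzm : z ^ m = 1) : ∀ y ∈ K, z * y = y * z := by
  have hAs : A ≤ stW ρ W := fun c hc w hw => ⟨hA c hc w hw, hA _ (A.inv_mem hc) w hw⟩
  have hKs : K ≤ stW ρ W := fun c hc w hw => ⟨hK c hc w hw, hK _ (K.inv_mem hc) w hw⟩
  have hle : Subgroup.zpowers a ≤ A := by rwa [Subgroup.zpowers_le]
  let ga : stW ρ W := ⟨a, hAs ha⟩
  let gz : stW ρ W := ⟨z, hKs hz⟩
  let r := rsH ρ W
  let T : Set (stW ρ W) := {g | ∃ c ∈ Subgroup.zpowers a, (g : G) = c * z * c⁻¹}
  have hzT : gz ∈ T := ⟨1, Subgroup.one_mem _, by simp [gz]⟩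
  have key := quad_alg (p := p) (a := r ga) (a' := r ga⁻¹) (S := r '' T) hp2
    (by rw [← map_mul, mul_inv_cancel, map_one]) (by rw [← map_mul, inv_mul_cancel, map_one])
    (by
      ext w
      have h1 := hq w w.2
      show ρ a (ρ a w - w) - (ρ a w - w) = 0
      rw [h1, sub_self])
    (by
      rintro _ ⟨g, ⟨c, hc, hg⟩, rfl⟩
      refine ⟨ga * g * ga⁻¹, ⟨a * c, Subgroup.mul_mem _ (Subgroup.mem_zpowers a) hc, ?_⟩, ?_⟩
      · show a * (g : G) * a⁻¹ = _
        rw [hg]; group
      · rw [map_mul, map_mul])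
    (by
      rintro _ ⟨g, ⟨c, hc, hg⟩, rfl⟩
      refine ⟨ga⁻¹ * g * ga, ⟨a⁻¹ * c, Subgroup.mul_mem _
        (Subgroup.inv_mem _ (Subgroup.mem_zpowers a)) hc, ?_⟩, ?_⟩
      · show a⁻¹ * (g : G) * a = _
        rw [hg]; group
      · rw [map_mul, map_mul])
    (by
      rintro _ ⟨g, ⟨c, hc, hg⟩, rfl⟩ _ ⟨g', ⟨d, hd, hg'⟩, rfl⟩
      rw [← map_mul, ← map_mul]
      congr 1
      apply Subtype.ext
      show (g : G) * g' = g' * g
      rw [hg, hg']
      exact orb_zpow_comm h ha hn hc hd hz)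
    hm
    (by
      rintro _ ⟨g, ⟨c, hc, hg⟩, rfl⟩
      rw [← map_pow]
      have : g ^ m = 1 := by
        apply Subtype.ext
        show (g : G) ^ m = 1
        rw [hg, conj_pow, hzm]
        group
      rw [this, map_one])
    (r gz) ⟨gz, hzT, rfl⟩
  have hact : ∀ w ∈ W, ρ (a * z * a⁻¹) w = ρ z w := by
    intro w hw
    have h1 := congrArg (fun T : Module.End (ZMod p) W => ((T ⟨w, hw⟩ : W) : V)) key
    rw [act_conj]
    exact h1
  refine central_of_act ρ h.qs hK hntr hz ?_
  intro y hy w hw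
  have hc : y * (a * z * a⁻¹) = (a * z * a⁻¹) * y := by
    rcases h.cc a ha with h1 | h1
    · exact absurd h1 hn
    · exact h1 y hy z hz
  rw [← hact _ (hK y hy w hw), ← hact w hw, act_comm ρ hc.symm]

/-- Two-valued maps and the triple product. -/
theorem triple_dichotomy {X : Type*} [AddCommGroup X] [Module (ZMod p) X]
    (δ δ' : Module.End (ZMod p) X) {v : X} (hv : ∀ w, δ w = 0 ∨ δ w = v) :
    δ * δ' * δ = 0 ∨ δ * δ' * δ = δ := by
  by_cases h : δ (δ' v) = 0
  · left
    ext w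
    show δ (δ' (δ w)) = 0
    rcases hv w with h1 | h1
    · rw [h1]; simp
    · rw [h1, h]
  · right
    ext w
    show δ (δ' (δ w)) = δ w
    have h2 := (hv (δ' v)).resolve_left h
    rcases hv w with h1 | h1
    · rw [h1]; simp
    · rw [h1, h2]

theorem card_three_le {S : Type*} [Finite S] {x y z : S} (hxy : x ≠ y) (hxz : x ≠ z) (hyz : y ≠ z) :
    3 ≤ Nat.card S := by
  have hinj : Function.Injective ![x, y, z] := by
    intro i j hij
    fin_cases i <;> fin_cases j <;> simp_all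
  have := Nat.card_le_card_of_injective _ hinj
  simpa using this

/-- The Transvection Final: no transvection over `𝔽₂` moves a component. -/
theorem transvection_final [Finite G] {K : Subgroup G} {W : Submodule (ZMod p) V} (hp : p = 2)
    (hK : IsQuasisimple K) (hWK : ∀ y ∈ K, ∀ w ∈ W, ρ y w ∈ W) {a : G}
    (haW : ∀ w ∈ W, ρ a w ∈ W) (ha2 : a * a = 1)
    (hc : ∀ x ∈ K, ∀ y ∈ K, x * (a * y * a⁻¹) = (a * y * a⁻¹) * x)
    (hntr : ∃ y ∈ K, ∃ w ∈ W, ρ y w ≠ w)
    (hcard : Nat.card ↥(W.map (ρ a - 1)) ≤ 2) : False := by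
  subst hp
  have hainv : a⁻¹ = a := inv_eq_of_mul_eq_one_left ha2
  have hKs : K ≤ stW ρ W := fun c hc w hw => ⟨hWK c hc w hw, hWK _ (K.inv_mem hc) w hw⟩
  have has : a ∈ stW ρ W := fun w hw => ⟨haW w hw, by rw [hainv]; exact haW w hw⟩
  let r := rsH ρ W
  let ga : stW ρ W := ⟨a, has⟩
  have h2 : ∀ x : Module.End (ZMod 2) W, x + x = 0 := by
    intro x
    rw [← two_smul (ZMod 2) x]
    have : (2 : ZMod 2) = 0 := rfl
    rw [this, zero_smul]
  have hga2 : r ga * r ga = 1 := by
    rw [← map_mul]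
    have : ga * ga = 1 := Subtype.ext ha2
    rw [this, map_one]
  -- involutions square to zero
  have hinv0 : ∀ t : Module.End (ZMod 2) W, t * t = 1 → (t - 1) * (t - 1) = 0 := by
    intro t ht
    have e : (t - 1) * (t - 1) = t * t + 1 - (t + t) := by noncomm_ring
    rw [e, ht, h2 t, sub_zero, h2 1]
  -- the range of `a - 1`
  obtain ⟨v, hv⟩ : ∃ v : W, ∀ w : W, (r ga - 1) w = 0 ∨ (r ga - 1) w = v := by
    by_cases hex : ∃ v : W, v ≠ 0 ∧ ∃ w : W, (r ga - 1) w = v
    · obtain ⟨v, hv0, w₀, hw₀⟩ := hex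
      refine ⟨v, fun w => ?_⟩
      by_contra hcon
      push Not at hcon
      have mem : ∀ u : W, (((r ga - 1) u : W) : V) ∈ W.map (ρ a - 1) := by
        intro u
        exact ⟨u, u.2, rfl⟩
      let x0 : ↥(W.map (ρ a - 1)) := 0
      let x1 : ↥(W.map (ρ a - 1)) := ⟨_, mem w₀⟩
      let x2 : ↥(W.map (ρ a - 1)) := ⟨_, mem w⟩
      have h01 : x0 ≠ x1 := by
        intro h
        have h3 : (0 : V) = (((r ga - 1) w₀ : W) : V) := congrArg Subtype.val h
        rw [hw₀] at h3
        exact hv0 (Subtype.ext h3.symm)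
      have h02 : x0 ≠ x2 := by
        intro h
        have h3 : (0 : V) = (((r ga - 1) w : W) : V) := congrArg Subtype.val h
        exact hcon.1 (Subtype.ext h3.symm)
      have h12 : x1 ≠ x2 := by
        intro h
        have h3 : x1.1 = x2.1 := congrArg Subtype.val h
        change (((r ga - 1) w₀ : W) : V) = (((r ga - 1) w : W) : V) at h3
        rw [hw₀] at h3
        exact hcon.2 (Subtype.ext h3.symm)
      have := card_three_le h01 h02 h12
      omega
    · push Not at hex
      refine ⟨0, fun w => Or.inl ?_⟩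
      by_contra hne
      exact hex _ hne w rfl
  -- the main computation
  have hpow12 : ∀ y ∈ K, ∀ w ∈ W, ρ ((a * y * a⁻¹) ^ 12) w = ρ (y ^ 12) w := by
    intro y hy w hw
    let gy : stW ρ W := ⟨y, hKs hy⟩
    let gc : stW ρ W := gy * ga * gy⁻¹
    have hgc2 : r gc * r gc = 1 := by
      rw [← map_mul]
      have : gc * gc = 1 := by
        show gy * ga * gy⁻¹ * (gy * ga * gy⁻¹) = 1
        have e : ga * ga = 1 := Subtype.ext ha2
        calc gy * ga * gy⁻¹ * (gy * ga * gy⁻¹) = gy * (ga * ga) * gy⁻¹ := by group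
          _ = 1 := by rw [e]; group
      rw [this, map_one]
    set δ := r ga - 1 with hδ
    set δ' := r gc - 1 with hδ'
    have hv' : ∀ w : W, δ' w = 0 ∨ δ' w = r gy v := by
      intro w
      have e : δ' w = r gy (δ (r gy⁻¹ w)) := by
        have e2 : r gc = r gy * r ga * r gy⁻¹ := by
          show r (gy * ga * gy⁻¹) = _
          rw [map_mul, map_mul]
        rw [hδ', hδ, e2]
        show (r gy * r ga * r gy⁻¹) w - w = _
        have e3 : r gy (r gy⁻¹ w) = w := by
          have := congrArg (fun T : Module.End (ZMod 2) W => T w)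
            (show r gy * r gy⁻¹ = 1 by rw [← map_mul, mul_inv_cancel, map_one])
          exact this
        show r gy (r ga (r gy⁻¹ w)) - w = r gy (r ga (r gy⁻¹ w) - r gy⁻¹ w)
        rw [map_sub, e3]
      rw [e]
      rcases hv (r gy⁻¹ w) with h3 | h3
      · left
        rw [h3, map_zero]
      · right
        rw [h3]
    have hT := transv_12 h2 (hinv0 _ hga2) (hinv0 _ hgc2)
      (triple_dichotomy δ δ' hv) (triple_dichotomy δ' δ hv')
    have hδ1 : 1 + δ = r ga := by rw [hδ]; abel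
    have hδ2 : 1 + δ' = r gc := by rw [hδ']; abel
    rw [hδ1, hδ2, ← map_mul, ← map_pow] at hT
    have hfix : ∀ u ∈ W, ρ ((a * (y * a * y⁻¹)) ^ 12) u = u := by
      intro u hu
      have h3 := congrArg (fun T : Module.End (ZMod 2) W => ((T ⟨u, hu⟩ : W) : V)) hT
      exact h3
    have hcomm1 : Commute (a * y * a⁻¹) y⁻¹ := by
      have h4 := hc y hy y hy
      have h5 : Commute (a * y * a⁻¹) y := (show Commute y (a * y * a⁻¹) from h4).symm
      exact h5.inv_right
    have he : a * (y * a * y⁻¹) = (a * y * a⁻¹) * y⁻¹ := by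
      rw [hainv]; group
    rw [he, hcomm1.mul_pow] at hfix
    have h6 := hfix (ρ (y ^ 12) w) (by
      have : y ^ 12 ∈ K := K.pow_mem hy 12
      exact hWK _ this w hw)
    rw [act_mul] at h6
    have h7 : ρ (y⁻¹ ^ 12) (ρ (y ^ 12) w) = w := by
      rw [← act_mul, inv_pow, inv_mul_cancel, act_one]
    rw [h7] at h6
    exact h6
  have hcentral : ∀ y ∈ K, ∀ u ∈ K, y ^ 12 * u = u * y ^ 12 := by
    intro y hy
    refine central_of_act ρ hK hWK hntr (K.pow_mem hy 12) ?_
    intro u hu w hw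
    have hcm : u * (a * y * a⁻¹) ^ 12 = (a * y * a⁻¹) ^ 12 * u := by
      have h4 : Commute u (a * y * a⁻¹) := hc u hu y hy
      exact (h4.pow_right 12).eq
    rw [← hpow12 y hy _ (hWK u hu w hw), ← hpow12 y hy w hw, act_comm ρ hcm.symm]
  -- the quotient has exponent dividing 12
  have hexp : ∀ g : K ⧸ Subgroup.center K, g ^ 12 = 1 := by
    intro g
    obtain ⟨y, rfl⟩ := QuotientGroup.mk'_surjective _ g
    rw [← map_pow, QuotientGroup.mk'_apply, QuotientGroup.eq_one_iff, Subgroup.mem_center_iff]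
    intro u
    apply Subtype.ext
    exact (hcentral y y.2 u u.2).symm
  have hprime : ∀ q : ℕ, q.Prime → q ∣ Nat.card (K ⧸ Subgroup.center K) → q = 2 ∨ q = 3 := by
    intro q hq hd
    haveI : Fact q.Prime := ⟨hq⟩
    obtain ⟨g, hg⟩ := exists_prime_orderOf_dvd_card' q hd
    have h12 : q ∣ 12 := hg ▸ orderOf_dvd_of_pow_eq_one (hexp g)
    have : q ∣ 2 ^ 2 * 3 := by simpa using h12
    rcases (Nat.Prime.dvd_mul hq).mp this with h3 | h3
    · exact Or.inl ((Nat.prime_dvd_prime_iff_eq hq Nat.prime_two).mp (hq.dvd_of_dvd_pow h3))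
    · exact Or.inr ((Nat.prime_dvd_prime_iff_eq hq Nat.prime_three).mp h3)
  set n := Nat.card (K ⧸ Subgroup.center K) with hn
  have hn0 : n ≠ 0 := Nat.card_pos.ne'
  obtain ⟨α, m, hm, hαm⟩ := Nat.exists_eq_pow_mul_and_not_dvd hn0 2 (by norm_num)
  have hm0 : m ≠ 0 := by
    rintro rfl
    exact hm (dvd_zero 2)
  obtain ⟨β, m', hm', hβm⟩ := Nat.exists_eq_pow_mul_and_not_dvd hm0 3 (by norm_num)
  have hm1 : m' = 1 := by
    by_contra hne
    obtain ⟨q, hq, hqd⟩ := Nat.exists_prime_and_dvd hne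
    have hqm : q ∣ m := hβm ▸ Dvd.dvd.mul_left hqd _
    have hqn : q ∣ n := hαm ▸ Dvd.dvd.mul_left hqm _
    rcases hprime q hq hqn with rfl | rfl
    · exact hm hqm
    · exact hm' hqd
  have hcardn : Nat.card (K ⧸ Subgroup.center K) = 2 ^ α * 3 ^ β := by
    rw [← hn, hαm, hβm, hm1, mul_one]
  have hsol := Cfsg.Agent.Lib.Char.Burnside.isSolvable_of_card_eq 2 3 α β Nat.prime_two
    Nat.prime_three hcardn
  exact quasisimple_not_solvable hK (solvable_of_quot_center hsol)

end Cfsg.Agent.Lib.PGV.Quad
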