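import Cfsg.Agent.Lib.PGV.Best

/-!
# The P(G,V) theorem: Timmesfeld replacement on a subspace
-/

set_option autoImplicit false
set_option linter.unusedSectionVars false
set_option linter.unusedSimpArgs false
set_option linter.style.haveILetI false

namespace Cfsg.Agent.Lib.PGV.Timm

open Cfsg.Agent.Lib.QuadAct.FFBasic Cfsg.Agent.Lib.PGV.Basic Cfsg.Agent.Lib.PGV.Best
open Cfsg.Agent.Lib.QuadAct.Basic

universe u v

variable {G : Type u} [Group G] {p : ℕ} [Fact p.Prime] {V : Type v} [AddCommGroup V]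
  [Module (ZMod p) V] [Finite V] (ρ : G →* Module.End (ZMod p) V)

/-- `C_A([S, A])`. -/
def stU (A : Subgroup G) (S : Set V) : Subgroup G where
  carrier := {b | b ∈ A ∧ ∀ a ∈ A, ∀ u ∈ S, ρ b (ρ a u - u) = ρ a u - u}
  mul_mem' := by
    rintro x y ⟨hx, hx'⟩ ⟨hy, hy'⟩
    refine ⟨A.mul_mem hx hy, fun a ha u hu => ?_⟩
    rw [act_mul, hy' a ha u hu, hx' a ha u hu]
  one_mem' := ⟨A.one_mem, fun a _ u _ => act_one ρ _⟩
  inv_mem' := by
    rintro x ⟨hx, hx'⟩
    refine ⟨A.inv_mem hx, fun a ha u hu => ?_⟩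
    conv_lhs => rw [← hx' a ha u hu]
    exact act_inv_act ρ x _

/-- `[S, A]`. -/
def cmU (A : Subgroup G) (S : Set V) : Submodule (ZMod p) V :=
  Submodule.span (ZMod p) {x | ∃ a ∈ A, ∃ u ∈ S, x = ρ a u - u}

theorem stU_le (A : Subgroup G) (S : Set V) : stU ρ A S ≤ A := fun _ h => h.1

theorem mem_stU {A : Subgroup G} {S : Set V} {b : G} :
    b ∈ stU ρ A S ↔ b ∈ A ∧ ∀ a ∈ A, ∀ u ∈ S, ρ b (ρ a u - u) = ρ a u - u := Iff.rfl

variable {A : Subgroup G} {W : Submodule (ZMod p) V}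
  (hcomm : ∀ x ∈ A, ∀ y ∈ A, x * y = y * x) (hinv : ∀ a ∈ A, ∀ w ∈ W, ρ a w ∈ W)

include hinv in
theorem cmU_sup_le {S : Set V} (hS : S ⊆ W) :
    cmU ρ A S ⊔ (W ⊓ fix ρ A) ≤ W ⊓ fix ρ (stU ρ A S) := by
  refine sup_le ?_ (inf_le_inf_left _ (fix_anti (stU_le ρ A S)))
  refine Submodule.span_le.mpr ?_
  rintro _ ⟨a, ha, u, hu, rfl⟩
  refine ⟨W.sub_mem (hinv a ha u (hS hu)) (hS hu), ?_⟩
  intro b hb
  exact hb.2 a ha u hu

include hcomm in
theorem key_cardU [Finite G] {u : V} (hu : u ∈ W) :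
    jW ρ W A ≤ Nat.card ↥(cmU ρ A {u} ⊔ (W ⊓ fix ρ A)) * Nat.card (stU ρ A {u}) := by
  classical
  set C := W ⊓ fix ρ A with hC
  set X := cmU ρ A {u} ⊔ C with hX
  let B : Subgroup A := (stU ρ A {u}).subgroupOf A
  have hB : Nat.card B = Nat.card (stU ρ A {u}) :=
    Nat.card_congr (Subgroup.subgroupOfEquivOfLe (stU_le ρ A {u})).toEquiv
  rw [← hB]
  let f : A × C → X := fun x => ⟨ρ (x.1 : G) u - u + (x.2 : V), by
    refine X.add_mem (Submodule.mem_sup_left (Submodule.subset_span ⟨x.1, x.1.2, u, rfl, rfl⟩))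
      (Submodule.mem_sup_right x.2.2)⟩
  refine card_mul_card_le_of_fiber B f ?_ ?_ ⟨0⟩
  · rintro ⟨b, c⟩ ⟨b', c'⟩ h
    have h0 : ρ (b : G) u - u + (c : V) = ρ (b' : G) u - u + (c' : V) := congrArg Subtype.val h
    rw [Subgroup.mem_subgroupOf]
    simp only [Subgroup.coe_mul, Subgroup.coe_inv]
    refine ⟨A.mul_mem (A.inv_mem b.2) b'.2, ?_⟩
    intro a ha v hv
    have hv' : v = u := hv
    rw [hv']
    set d : V := (c : V) - c' with hd
    have hdA : ∀ g ∈ A, ρ g d = d := by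
      intro g hg
      rw [hd, map_sub, c.2.2 g hg, c'.2.2 g hg]
    have h1 : ρ (b' : G) u = ρ (b : G) u + d := by
      rw [hd]
      have : ρ (b' : G) u = ρ (b : G) u - u + (c : V) + u - c' := by
        rw [h0]; abel
      rw [this]; abel
    have h2 : ρ ((b : G)⁻¹ * b') u = u + d := by
      rw [act_mul, h1, map_add, act_inv_act, hdA _ (A.inv_mem b.2)]
    have hcz : ((b : G)⁻¹ * b') * a = a * ((b : G)⁻¹ * b') :=
      hcomm _ (A.mul_mem (A.inv_mem b.2) b'.2) a ha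
    rw [map_sub, act_comm ρ hcz, h2, map_add, hdA a ha]
    abel
  · intro a c c' h
    have h0 : ρ (a : G) u - u + (c : V) = ρ (a : G) u - u + (c' : V) := congrArg Subtype.val h
    exact Subtype.ext (add_left_cancel h0)

include hcomm hinv in
theorem stab_bestU [Finite G] (hbest : IsBestOn ρ W A) {u : V} (hu : u ∈ W) :
    jW ρ W (stU ρ A {u}) = jW ρ W A ∧
      W ⊓ fix ρ (stU ρ A {u}) = cmU ρ A {u} ⊔ (W ⊓ fix ρ A) := by
  have h1 := key_cardU ρ hcomm hu
  have hS : ({u} : Set V) ⊆ W := by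
    intro x hx
    rw [Set.mem_singleton_iff] at hx
    rw [hx]; exact hu
  have hle := cmU_sup_le ρ hinv hS
  have h2 := Nat.card_le_card_of_injective _ (Submodule.inclusion_injective hle)
  have h3 := hbest (stU ρ A {u}) (stU_le ρ A {u})
  have hpos : 0 < Nat.card (stU ρ A {u}) := Nat.card_pos
  have h5 : Nat.card ↥(cmU ρ A {u} ⊔ (W ⊓ fix ρ A)) * Nat.card (stU ρ A {u}) ≤
      jW ρ W (stU ρ A {u}) := by
    unfold jW
    rw [mul_comm]
    exact Nat.mul_le_mul_left _ h2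
  constructor
  · omega
  · have h6 : jW ρ W (stU ρ A {u}) =
        Nat.card ↥(cmU ρ A {u} ⊔ (W ⊓ fix ρ A)) * Nat.card (stU ρ A {u}) := by omega
    unfold jW at h6
    rw [mul_comm] at h6
    have h7 := Nat.eq_of_mul_eq_mul_right hpos h6
    exact (eq_of_le_of_card_le hle (le_of_eq h7)).symm

include hcomm in
theorem opt_infU [Finite G] (hbest : IsBestOn ρ W A) {B₁ B₂ : Subgroup G} (h₁ : B₁ ≤ A)
    (h₂ : B₂ ≤ A) (e₁ : jW ρ W B₁ = jW ρ W A) (e₂ : jW ρ W B₂ = jW ρ W A) :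
    jW ρ W (B₁ ⊓ B₂) = jW ρ W A ∧
      W ⊓ fix ρ (B₁ ⊓ B₂) = (W ⊓ fix ρ B₁) ⊔ (W ⊓ fix ρ B₂) := by
  have hn : B₁ ≤ Subgroup.normalizer (B₂ : Set G) := by
    intro x hx
    rw [Subgroup.mem_normalizer_iff]
    intro h
    have hxA := h₁ hx
    constructor
    · intro hh
      rw [hcomm x hxA h (h₂ hh), mul_inv_cancel_right]
      exact hh
    · intro hh
      have hy := h₂ hh
      have h3 : h = x⁻¹ * (x * h * x⁻¹) * x := by group
      rw [h3, hcomm _ (A.inv_mem hxA) _ hy, mul_assoc, inv_mul_cancel, mul_one]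
      exact hh
  set Y₁ := W ⊓ fix ρ B₁ with hY₁
  set Y₂ := W ⊓ fix ρ B₂ with hY₂
  have hcB := card_sup_mul_card_inf_of_le_normalizer B₁ B₂ hn
  have hcY := card_sup_mul_inf Y₁ Y₂
  have hsup : W ⊓ fix ρ (B₁ ⊔ B₂) = Y₁ ⊓ Y₂ := by
    rw [fix_sup, hY₁, hY₂]
    ext x
    simp only [Submodule.mem_inf]
    tauto
  have hle : Y₁ ⊔ Y₂ ≤ W ⊓ fix ρ (B₁ ⊓ B₂) := by
    refine sup_le ?_ ?_
    · exact inf_le_inf_left _ (fix_anti inf_le_left)
    · exact inf_le_inf_left _ (fix_anti inf_le_right)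
  have hb1 := hbest (B₁ ⊔ B₂) (sup_le h₁ h₂)
  have hb2 := hbest (B₁ ⊓ B₂) (inf_le_of_left_le h₁)
  have e1 : jW ρ W (B₁ ⊔ B₂) = Nat.card (B₁ ⊔ B₂ : Subgroup G) * Nat.card ↥(Y₁ ⊓ Y₂) := by
    unfold jW; rw [hsup]
  have hcle := Nat.card_le_card_of_injective _ (Submodule.inclusion_injective hle)
  set M := jW ρ W A with hM
  have hMpos : 0 < M := jW_pos ρ W A
  set a := Nat.card (B₁ ⊔ B₂ : Subgroup G)
  set b := Nat.card (B₁ ⊓ B₂ : Subgroup G)
  set c := Nat.card ↥(Y₁ ⊔ Y₂)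
  set d := Nat.card ↥(Y₁ ⊓ Y₂)
  set e := Nat.card ↥(W ⊓ fix ρ (B₁ ⊓ B₂))
  have hbpos : 0 < b := Nat.card_pos
  have hprod : M * M = (a * d) * (b * c) := by
    have h3 : M * M = (Nat.card B₁ * Nat.card Y₁) * (Nat.card B₂ * Nat.card Y₂) := by
      have h4 : M * M = jW ρ W B₁ * jW ρ W B₂ := by rw [e₁, e₂]
      rw [h4]; rfl
    rw [h3]
    calc (Nat.card B₁ * Nat.card Y₁) * (Nat.card B₂ * Nat.card Y₂)
        = (Nat.card B₁ * Nat.card B₂) * (Nat.card Y₁ * Nat.card Y₂) := by ring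
      _ = (a * b) * (c * d) := by rw [← hcB, ← hcY]
      _ = (a * d) * (b * c) := by ring
  have hadM : a * d ≤ M := by rw [← e1]; exact hb1
  have hMbc : M ≤ b * c := by
    by_contra hlt
    rw [not_le] at hlt
    have : (a * d) * (b * c) < M * M :=
      Nat.mul_lt_mul_of_le_of_lt hadM hlt hMpos
    omega
  have hbe : b * e ≤ M := hb2
  have hbc : b * c ≤ b * e := Nat.mul_le_mul_left _ hcle
  have hce : c = e := by
    have : b * c = b * e := by omega
    exact Nat.eq_of_mul_eq_mul_left hbpos this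
  constructor
  · show b * e = M
    omega
  · exact (eq_of_le_of_card_le hle (le_of_eq hce.symm)).symm

include hcomm hinv in
theorem finset_optU [Finite G] (hbest : IsBestOn ρ W A) (s : Finset V) (hs : ∀ u ∈ s, u ∈ W) :
    jW ρ W (stU ρ A (s : Set V)) = jW ρ W A ∧
      W ⊓ fix ρ (stU ρ A (s : Set V)) = cmU ρ A (s : Set V) ⊔ (W ⊓ fix ρ A) := by
  classical
  induction s using Finset.induction_on with
  | empty =>
    have h0 : stU ρ A ((∅ : Finset V) : Set V) = A := by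
      ext x
      simp [mem_stU]
    have h1 : cmU ρ A ((∅ : Finset V) : Set V) = ⊥ := by
      unfold cmU
      simp
    rw [h0, h1, bot_sup_eq]
    exact ⟨rfl, rfl⟩
  | insert u s hu ih =>
    have hsV : ∀ v ∈ s, v ∈ W := fun v hv => hs v (Finset.mem_insert_of_mem hv)
    have huW : u ∈ W := hs u (Finset.mem_insert_self u s)
    obtain ⟨ih1, ih2⟩ := ih hsV
    obtain ⟨hst1, hst2⟩ := stab_bestU ρ hcomm hinv hbest huW
    obtain ⟨h1, h2⟩ := opt_infU ρ hcomm hbest (stU_le ρ A {u}) (stU_le ρ A _) hst1 ih1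
    have e : stU ρ A ((insert u s : Finset V) : Set V) = stU ρ A {u} ⊓ stU ρ A (s : Set V) := by
      ext x
      simp only [mem_stU, Subgroup.mem_inf, Finset.coe_insert, Set.mem_insert_iff,
        Set.mem_singleton_iff, Finset.mem_coe]
      constructor
      · rintro ⟨hx, h⟩
        refine ⟨⟨hx, fun a ha v hv => h a ha v (Or.inl hv)⟩, hx, fun a ha v hv => h a ha v (Or.inr hv)⟩
      · rintro ⟨⟨hx, h⟩, -, h'⟩
        exact ⟨hx, fun a ha v hv => hv.elim (h a ha v) (h' a ha v)⟩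
    have e2 : cmU ρ A ((insert u s : Finset V) : Set V) = cmU ρ A {u} ⊔ cmU ρ A (s : Set V) := by
      unfold cmU
      rw [← Submodule.span_union]
      congr 1
      ext x
      simp only [Finset.coe_insert, Set.mem_insert_iff, Finset.mem_coe, Set.mem_union,
        Set.mem_ofPred_eq, Set.mem_singleton_iff]
      constructor
      · rintro ⟨a, ha, v, hv | hv, rfl⟩
        · exact Or.inl ⟨a, ha, v, hv, rfl⟩
        · exact Or.inr ⟨a, ha, v, hv, rfl⟩
      · rintro (⟨a, ha, v, hv, rfl⟩ | ⟨a, ha, v, hv, rfl⟩)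
        · exact ⟨a, ha, v, Or.inl hv, rfl⟩
        · exact ⟨a, ha, v, Or.inr hv, rfl⟩
    rw [e, e2]
    refine ⟨h1, ?_⟩
    rw [h2, hst2, ih2]
    rw [sup_sup_sup_comm, sup_idem]

include hcomm hinv in
/-- Timmesfeld replacement on `W`. -/
theorem timm_main [Finite G] (hbest : IsBestOn ρ W A) :
    jW ρ W (stU ρ A (W : Set V)) = jW ρ W A ∧
      W ⊓ fix ρ (stU ρ A (W : Set V)) = cmU ρ A (W : Set V) ⊔ (W ⊓ fix ρ A) := by
  classical
  have hfin : (W : Set V).Finite := Set.toFinite _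
  have := finset_optU ρ hcomm hinv hbest hfin.toFinset (fun u hu => by simpa using hu)
  rwa [hfin.coe_toFinset] at this

/-- A `p`-group acting on a nonzero invariant subspace has a nonzero invariant functional. -/
theorem exists_cofixed [Finite G] {D : Submodule (ZMod p) V}
    (hcomm : ∀ x ∈ A, ∀ y ∈ A, x * y = y * x) (hexp : ∀ x ∈ A, x ^ p = 1)
    (hD : ∀ a ∈ A, ∀ x ∈ D, ρ a x ∈ D) (hne : D ≠ ⊥) :
    ∃ f : Module.Dual (ZMod p) D, f ≠ 0 ∧ ∀ a (ha : a ∈ A) (x : D),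
      f ⟨ρ a x, hD a ha x x.2⟩ = f x := by
  haveI : Module.Finite (ZMod p) ↥D := Module.Finite.of_finite
  haveI : Module.Finite (ZMod p) (Module.Dual (ZMod p) D) := inferInstance
  haveI : Finite (Module.Dual (ZMod p) D) := Module.finite_of_finite (ZMod p)
  let r : A →* Module.End (ZMod p) (Module.Dual (ZMod p) D) :=
    { toFun := fun a => ((ρ (a : G)).restrict (hD a a.2)).dualMap
      map_one' := by
        ext f x
        show f ⟨ρ 1 x, _⟩ = f x
        congr 1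
        exact Subtype.ext (act_one ρ _)
      map_mul' := by
        intro a b
        ext f x
        have h1 : ρ ((a : G) * b) x = ρ (b : G) (ρ (a : G) x) := by
          rw [hcomm a a.2 b b.2, act_mul]
        simp only [Module.End.mul_apply, LinearMap.dualMap_apply]
        congr 1
        apply Subtype.ext
        simpa using h1 }
  have hR : IsPGroup p (⊤ : Subgroup A) := by
    rw [isPGroup_iff_pow_pow_eq_one]
    rintro ⟨a, -⟩
    refine ⟨1, ?_⟩
    apply Subtype.ext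
    apply Subtype.ext
    simpa using hexp a a.2
  have hne' : (⊤ : Submodule (ZMod p) (Module.Dual (ZMod p) D)) ≠ ⊥ := by
    obtain ⟨x, hx, hx0⟩ := (Submodule.ne_bot_iff D).mp hne
    have hx1 : (⟨x, hx⟩ : D) ≠ 0 := fun h => hx0 (congrArg Subtype.val h)
    have := (Module.forall_dual_apply_eq_zero_iff (ZMod p) (⟨x, hx⟩ : D)).not.mpr hx1
    rw [not_forall] at this
    obtain ⟨f, hf⟩ := this
    intro hh
    have : f ∈ (⊤ : Submodule (ZMod p) (Module.Dual (ZMod p) D)) := Submodule.mem_top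
    rw [hh, Submodule.mem_bot] at this
    rw [this] at hf
    exact hf rfl
  obtain ⟨f, -, hf0, hf⟩ := exists_fixed_ne_zero r hR ⊤ (fun _ _ _ _ => Submodule.mem_top) hne'
  refine ⟨f, hf0, fun a ha x => ?_⟩
  have := hf ⟨a, ha⟩ (Subgroup.mem_top _)
  have h2 := congrArg (fun g => g x) this
  exact h2

include hcomm hinv in
/-- The replacement acts nontrivially. -/
theorem timm_ntr [Finite G] (hexp : ∀ x ∈ A, x ^ p = 1) (hbest : IsBestOn ρ W A)
    (hntr : ∃ c ∈ A, ∃ w ∈ W, ρ c w ≠ w) :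
    ∃ c ∈ stU ρ A (W : Set V), ∃ w ∈ W, ρ c w ≠ w := by
  by_contra hcon
  push Not at hcon
  have hmain := (timm_main ρ hcomm hinv hbest).2
  set D := cmU ρ A (W : Set V) with hDdef
  have hWsplit : ∀ w ∈ W, w ∈ D ⊔ (W ⊓ fix ρ A) := by
    intro w hw
    rw [← hmain]
    exact ⟨hw, fun c hc => hcon c hc w hw⟩
  have hDW : D ≤ W := by
    refine Submodule.span_le.mpr ?_
    rintro _ ⟨a, ha, u, hu, rfl⟩
    exact W.sub_mem (hinv a ha u hu) hu
  have hDinv : ∀ a ∈ A, ∀ x ∈ D, ρ a x ∈ D := by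
    intro a ha x hx
    have : D ≤ D.comap (ρ a) := by
      refine Submodule.span_le.mpr ?_
      rintro _ ⟨c, hc, u, hu, rfl⟩
      refine Submodule.subset_span ⟨c, hc, ρ a u, hinv a ha u hu, ?_⟩
      rw [map_sub, act_comm ρ (hcomm a ha c hc)]
    exact this hx
  have hDbot : D = ⊥ := by
    by_contra hne
    obtain ⟨f, hf0, hf⟩ := exists_cofixed ρ hcomm hexp hDinv hne
    apply hf0
    have hle : D ≤ (LinearMap.ker f).map D.subtype := by
      refine Submodule.span_le.mpr ?_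
      rintro _ ⟨a, ha, u, hu, rfl⟩
      obtain ⟨d, hd, c, hc, rfl⟩ := Submodule.mem_sup.mp (hWsplit u hu)
      have hcA : ρ a c = c := hc.2 a ha
      have e : ρ a (d + c) - (d + c) = ρ a d - d := by
        rw [map_add, hcA]; abel
      rw [e]
      refine ⟨⟨ρ a d - d, D.sub_mem (hDinv a ha d hd) hd⟩, ?_, rfl⟩
      rw [SetLike.mem_coe, LinearMap.mem_ker]
      have h1 := hf a ha ⟨d, hd⟩
      have e2 : (⟨ρ a d - d, D.sub_mem (hDinv a ha d hd) hd⟩ : D) =
          ⟨ρ a d, hDinv a ha d hd⟩ - ⟨d, hd⟩ := rfl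
      rw [e2, map_sub, h1, sub_self]
    ext x
    obtain ⟨y, hy, hyx⟩ := hle x.2
    have : y = x := Subtype.ext hyx
    rw [← this]
    exact hy
  obtain ⟨c, hc, w, hw, hne⟩ := hntr
  apply hne
  have : ρ c w - w ∈ D := Submodule.subset_span ⟨c, hc, w, hw, rfl⟩
  rw [hDbot, Submodule.mem_bot] at this
  exact sub_eq_zero.mp this

end Cfsg.Agent.Lib.PGV.Timm
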